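import Cfsg.Agent.Block.Sn2
import Cfsg.Agent.Recog.DC
import Cfsg.Prelude.Def_Blocks

/-! Definitions for S4578: Robinson's bound for covers of alternating groups. -/

set_option autoImplicit false

namespace CF.Nf

open Cfsg Equiv Finset

/-- the conclusion of S4578 -/
def Con (p : ℕ) {G : Type*} [Group G] (B : Set (IrrCharacter G)) (D : Subgroup G)
    (χ : IrrCharacter G) : Prop :=
  blockHeight p B (χ : G → ℂ) ≤ ((Subgroup.center D).index).factorization p ∧
    (blockHeight p B (χ : G → ℂ) = ((Subgroup.center D).index).factorization p ↔ IsMulCommutative D)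

/-- the statement of S4578 for the group `G` -/
def Rob (p : ℕ) (M : Ideal AlgInt) (G : Type*) [Group G] : Prop :=
  ∀ B : Set (IrrCharacter G), IsPBlock M B → ∀ D : Subgroup G, IsDefectGroup p M B D →
    ∀ χ ∈ B, Con p B D χ

/-- the number of points moved by a permutation group -/
noncomputable def mv {Ω : Type*} (P : Subgroup (Perm Ω)) : ℕ := Nat.card {x // ∃ g ∈ P, g x ≠ x}

/-- even permutations fixing every point outside `S` -/
def altOn {Ω : Type*} [Fintype Ω] [DecidableEq Ω] (S : Set Ω) : Subgroup (Perm Ω) :=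
  alternatingGroup Ω ⊓ fixingSubgroup (Perm Ω) Sᶜ

/-! ### neutral fermions -/

/-- basis vector `S` stands for the strict partition with the parts `j + 1`, `j ∈ S` -/
abbrev Fk := Finset ℕ →₀ ℚ

noncomputable def vac : Fk := Finsupp.single ∅ 1

/-- sign of moving the mode `j` past the larger modes of `S` -/
def sn (j : ℕ) (S : Finset ℕ) : ℚ := (-1) ^ #{s ∈ S | j < s}

/-- the fermion `φ a` on a basis vector -/
noncomputable def phS : ℤ → Finset ℕ → Fk
  | Int.ofNat 0, S => Finsupp.single S ((-1) ^ #S)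
  | Int.ofNat (j + 1), S => if j ∈ S then 0 else Finsupp.single (insert j S) (sn j S)
  | Int.negSucc j, S => if j ∈ S then Finsupp.single (S.erase j) (2 * (-1) ^ (j + 1) * sn j S) else 0

noncomputable def ph (a : ℤ) : Fk →ₗ[ℚ] Fk := Finsupp.linearCombination ℚ (phS a)

/-- `φ a₁ ⋯ φ aₖ vac` -/
noncomputable def vl (l : List ℤ) : Fk := l.foldr (fun a v => ph a v) vac

/-- the parts of `S` in decreasing order -/
def ls (S : Finset ℕ) : List ℤ := (S.sort (· ≥ ·)).map fun j => (j : ℤ) + 1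

/-- the size of the strict partition `S` -/
def sz (S : Finset ℕ) : ℕ := ∑ j ∈ S, (j + 1)

/-- the form with `⟨S, T⟩ = 2 ^ #S δ` -/
noncomputable def fm : Fk →ₗ[ℚ] Fk →ₗ[ℚ] ℚ :=
  Finsupp.linearCombination ℚ fun S => (2 : ℚ) ^ #S • Finsupp.lapply S

/-- `H r vac` -/
noncomputable def wv (r : ℤ) : Fk :=
  (1 / 4 : ℚ) • ∑ j ∈ Icc (0 : ℤ) (-r), (j.negOnePow : ℤ) • ph (-r - j) (ph j vac)

noncomputable def hl (r : ℤ) : List ℤ → Fk
  | [] => wv r
  | a :: l => ph a (hl r l) + ph (a - r) (vl l)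

/-- the boson `H r` (meant for odd `r`) -/
noncomputable def H (r : ℤ) : Fk →ₗ[ℚ] Fk := Finsupp.linearCombination ℚ fun S => hl r (ls S)

noncomputable def Hn (r : ℕ) : Fk →ₗ[ℚ] Fk := if Odd r then H (-(r : ℤ)) else 0

/-- `∏ H (-r) vac` over `r ∈ μ` (zero unless all `r` are odd) -/
noncomputable def U (μ : Multiset ℕ) : Fk := μ.toList.foldr (fun r v => Hn r v) vac

/-- the spin character values (up to powers of `√2`) -/
noncomputable def XS {α : Type*} [Fintype α] [DecidableEq α] (S : Finset ℕ) (σ : Perm α) : ℚ :=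
  fm (U σ.partition.parts) (Finsupp.single S 1)

/-- the product of the bar lengths -/
def bar (S : Finset ℕ) : ℕ :=
  ∏ b ∈ S, (∏ z ∈ S with z < b, (b + z + 2)) * ((b + 1) * ∏ m ∈ range b \ S, (b - m))

/-- what the character theory needs from the functions `XS S` -/
structure Sp (p : ℕ) {α : Type*} [Fintype α] [DecidableEq α] (l : ℕ) (Y : Perm α → ℚ) : Prop where
  col : ∃ f : (Fin l → ℕ) → ℤ, (∀ c, (2 : ℤ) ^ #{k | c k = 0} ∣ f c) ∧ ∀ σ, Odd (orderOf σ) →
    (Y σ : ℂ) = ∑ c ∈ piAntidiag univ (Fintype.card α),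
      (f c : ℂ) * Block.Sn.co c (Block.Sn.cyc Block.Sn.X σ)
  bes : ∑ σ : Perm α with Odd (orderOf σ), (2 : ℚ) ^ σ.partition.parts.card * Y σ ^ 2 ≤
    (Fintype.card α).factorial * 2 ^ l
  val : ∃ g : ℕ, g ≠ 0 ∧ Y 1 = g ∧ ∀ σ, Odd (orderOf σ) → Y σ ≠ 0 →
    g.factorization p + #{x | p ∣ Function.minimalPeriod σ x} / p ≤
      (Fintype.card α).factorial.factorization p

/-! ### the double cover of the symmetric group with its Clifford module -/

structure Cl {Γ α ι : Type*} [Group Γ] [Fintype α] [DecidableEq α] [Fintype ι] [DecidableEq ι]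
    (π : Γ →* Perm α) (z : Γ) (ρ : Γ →* Matrix ι ι ℂ) (γ : α ⊕ Option α → Matrix ι ι ℂ) :
    Prop where
  card : Fintype.card ι = 2 ^ Fintype.card α
  sq : ∀ i, γ i * γ i = 1
  anti : ∀ i j, i ≠ j → γ i * γ j = -(γ j * γ i)
  surj : Function.Surjective π
  ker : ∀ g, π g = 1 → g = 1 ∨ g = z
  πz : π z = 1
  ρz : ρ z = -1
  zz : z * z = 1
  cen : ∀ g, g * z = z * g
  left : ∀ g a, ρ g * γ (.inl a) = Block.Sn.sg (π g) • (γ (.inl (π g a)) * ρ g)
  right : ∀ g b, ρ g * γ (.inr b) = Block.Sn.sg (π g) • (γ (.inr b) * ρ g)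
  swp : ∀ a b, a ≠ b → ∃ g, π g = swap a b ∧
    ∃ c : ℂ, 2 * c ^ 2 = 1 ∧ ρ g = c • (γ (.inl a) - γ (.inl b))

/-- the even part -/
abbrev Ev {Γ α : Type*} [Group Γ] [Fintype α] [DecidableEq α] (π : Γ →* Perm α) : Subgroup Γ :=
  (alternatingGroup α).comap π

end CF.Nf
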