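import Cfsg.Agent.Nf.R

/-! S4578 for alternating groups, `p = 2`. -/

set_option autoImplicit false

namespace CF.Nf

open Cfsg Equiv Block.Sn

namespace A2

variable {w : ℕ}

/-- the product of the transpositions at the places `i`, `j` -/
def tw (i j : Fin w) : Perm (Fin w × ZMod 2) :=
  eh w 2 (Pi.mulSingle i (Multiplicative.ofAdd 1) * Pi.mulSingle j (Multiplicative.ofAdd 1))

theorem sign_eh (a : Fin w → Multiplicative (ZMod 2)) :
    Perm.sign (eh w 2 a) = ∏ i, Perm.sign (Equiv.addRight (a i).toAdd) :=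
  sign_ehV (V := ZMod 2) a

theorem sign_one : Perm.sign (Equiv.addRight (1 : ZMod 2)) = -1 := by decide

theorem sign_inj : ∀ x y : ZMod 2,
    Perm.sign (Equiv.addRight x) = Perm.sign (Equiv.addRight y) → x = y := by decide

theorem sign_single (i : Fin w) :
    Perm.sign (eh w 2 (Pi.mulSingle i (Multiplicative.ofAdd 1))) = -1 := by
  rw [sign_eh, Finset.prod_eq_single i (fun j _ hj => by simp [Pi.mulSingle_eq_of_ne hj])
    (by simp)]
  simpa using sign_one

theorem sign_tw (i j : Fin w) : Perm.sign (tw i j) = 1 := by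
  rw [tw, map_mul, map_mul, sign_single, sign_single]; simp

theorem tw_left {i j : Fin w} (h : i ≠ j) (x : ZMod 2) : tw i j (i, x) = (i, x + 1) := by
  simp [tw, Pi.mulSingle_eq_of_ne h]

theorem tw_ne {i j k : Fin w} (hi : k ≠ i) (hj : k ≠ j) (x : ZMod 2) : tw i j (k, x) = (k, x) := by
  simp [tw, Pi.mulSingle_eq_of_ne hi, Pi.mulSingle_eq_of_ne hj]

theorem exists_eh (hw : 3 ≤ w) {z : Perm (Fin w × ZMod 2)} (h : ∀ i j, tw i j * z = z * tw i j) :
    ∃ a, z = eh w 2 a := by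
  have h0 : ∀ i k : Fin w, ∃ j, j ≠ i ∧ j ≠ k := fun i k => by
    obtain ⟨j, -, hj⟩ := Finset.exists_mem_notMem_of_card_lt_card (s := {i, k}) (t := Finset.univ)
      (lt_of_le_of_lt Finset.card_le_two (by rw [Finset.card_univ, Fintype.card_fin]; omega))
    exact ⟨j, by simpa using hj⟩
  have h1 : ∀ i x, (z (i, x)).1 = i := fun i x => by
    by_contra hk
    obtain ⟨j, hi, hj⟩ := h0 i (z (i, x)).1
    have h2 := Perm.congr_fun (h i j) (i, x)
    rw [Perm.mul_apply, Perm.mul_apply, tw_left hi.symm, ← Prod.mk.eta (p := z (i, x)),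
      tw_ne hk hj.symm, Prod.mk.eta] at h2
    simpa using z.injective h2
  refine ⟨fun i => Multiplicative.ofAdd (z (i, 0)).2, Equiv.ext fun ⟨i, x⟩ => ?_⟩
  obtain ⟨j, hi, -⟩ := h0 i i
  have h2 := Perm.congr_fun (h i j) (i, 0)
  rw [Perm.mul_apply, Perm.mul_apply, tw_left hi.symm, ← Prod.mk.eta (p := z (i, 0)), h1,
    tw_left hi.symm, zero_add] at h2
  have h3 : x = 0 ∨ x = 1 := by revert x; decide
  rcases h3 with rfl | rfl
  · exact Prod.ext (h1 _ _) (by simp)
  · rw [← h2]; simp [add_comm]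

/-- the exchange of two places -/
def sw (i j : Fin w) : Perm (Fin w × ZMod 2) := Equiv.prodCongrLeft fun _ => swap i j

theorem sw_apply (i j k : Fin w) (x : ZMod 2) : sw i j (k, x) = (swap i j k, x) := rfl

theorem sign_sw (i j : Fin w) : Perm.sign (sw i j) = 1 := by
  rw [sw, Perm.sign_prodCongrLeft]; simp [Int.units_sq]

theorem sw_mul (i j : Fin w) : sw i j * sw i j = 1 :=
  Equiv.ext fun ⟨k, x⟩ => by simp [sw_apply]

theorem sw_eh (i j : Fin w) (a : Fin w → Multiplicative (ZMod 2)) :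
    sw i j * eh w 2 a * (sw i j)⁻¹ = eh w 2 fun k => a (swap i j k) := by
  rw [inv_eq_of_mul_eq_one_right (sw_mul i j)]
  exact Equiv.ext fun ⟨k, x⟩ => by simp [sw_apply]

theorem exists_syl (i j : Fin w) : ∃ T : Sylow 2 (alternatingGroup (Fin w × ZMod 2)),
    ∀ g : alternatingGroup (Fin w × ZMod 2),
      (g = sw i j ∨ (g : Perm (Fin w × ZMod 2)) ∈ (eh w 2).range) → g ∈ T := by
  have h1 : IsPGroup 2 (eh w 2).range := fun ⟨_, a, rfl⟩ =>
    ⟨1, Subtype.ext (by simpa using eh_pow_eq_one a)⟩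
  have h2 : IsPGroup 2 (Subgroup.zpowers (sw i j)) := fun ⟨_, n, rfl⟩ =>
    ⟨1, Subtype.ext (by
      change (sw i j ^ n) ^ 2 ^ 1 = 1
      rw [pow_one, ← zpow_natCast, ← zpow_mul, mul_comm, zpow_mul, zpow_natCast, pow_two, sw_mul,
        one_zpow])⟩
  have h3 : Subgroup.zpowers (sw i j) ≤ Subgroup.normalizer ((eh w 2).range : Set _) := by
    rw [Subgroup.zpowers_le]
    refine Subgroup.mem_normalizer_fintype ?_
    rintro _ ⟨a, rfl⟩
    exact ⟨_, (sw_eh i j a).symm⟩
  obtain ⟨T, hT⟩ := ((h2.to_sup_of_normal_right' h1 h3).comap_subtype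
    (K := alternatingGroup (Fin w × ZMod 2))).exists_le_sylow
  refine ⟨T, fun g hg => hT ?_⟩
  rcases hg with hg | hg
  · exact Subgroup.mem_sup_left (hg ▸ Subgroup.mem_zpowers _)
  · exact Subgroup.mem_sup_right hg

theorem exists_center (n : ℕ) : ∃ T : Sylow 2 (alternatingGroup (Fin (n + 3) × ZMod 2)),
    Nat.card (Subgroup.center T.toSubgroup) ≤ 2 ^ (n + 1) := by
  obtain ⟨T, hT⟩ := exists_syl (w := n + 3) (0 : Fin (n + 2)).succ (0 : Fin (n + 1)).succ.succ
  have h1 : ∀ z : Subgroup.center T.toSubgroup, ∃ a, z.1.1.1 = eh _ 2 a ∧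
      a (0 : Fin (n + 2)).succ = a (0 : Fin (n + 1)).succ.succ := fun z => by
    have h2 : ∀ g : Perm (Fin (n + 3) × ZMod 2), Perm.sign g = 1 →
        (g = sw (0 : Fin (n + 2)).succ (0 : Fin (n + 1)).succ.succ ∨ g ∈ (eh _ 2).range) →
        g * z.1.1.1 = z.1.1.1 * g := fun g hg h =>
      congrArg (fun x : T.toSubgroup => x.1.1)
        (Subgroup.mem_center_iff.1 z.2 ⟨⟨g, hg⟩, hT _ h⟩)
    obtain ⟨a, ha⟩ := exists_eh (by omega) fun i j => h2 _ (sign_tw i j) (Or.inr ⟨_, rfl⟩)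
    refine ⟨a, ha, ?_⟩
    have h3 := h2 _ (sign_sw _ _) (Or.inl rfl)
    rw [ha, ← mul_inv_eq_iff_eq_mul, sw_eh] at h3
    have := congrFun (eh_injective _ _ h3) (0 : Fin (n + 1)).succ.succ
    rwa [swap_apply_right] at this
  choose a ha hb using h1
  refine ⟨T, (Nat.card_le_card_of_injective (fun z (i : Fin (n + 1)) => a z i.succ.succ)
    fun z z' h => ?_).trans_eq (by simp [Nat.card_fun])⟩
  have h3 : ∀ i : Fin (n + 1), a z i.succ.succ = a z' i.succ.succ := congrFun h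
  have h4 : ∀ i : Fin (n + 2), a z i.succ = a z' i.succ :=
    Fin.cases (by rw [hb, hb, h3]) h3
  have h5 : Perm.sign (eh _ 2 (a z)) = Perm.sign (eh _ 2 (a z')) := by
    rw [← ha, ← ha, Perm.mem_alternatingGroup.1 z.1.1.2, Perm.mem_alternatingGroup.1 z'.1.1.2]
  rw [sign_eh, sign_eh, Fin.prod_univ_succ, Fin.prod_univ_succ (n := n + 2),
    Finset.prod_congr rfl fun i _ => by rw [h4 i], mul_left_inj] at h5
  refine Subtype.ext (Subtype.ext (Subtype.ext ?_))
  rw [ha, ha]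
  exact congrArg _ (funext (Fin.cases (Multiplicative.toAdd.injective (sign_inj _ _ h5)) h4))

end A2

variable {Ω : Type*} [Fintype Ω] [DecidableEq Ω] {M : Ideal AlgInt}

theorem alt_two (hM : IsPModular 2 M) : Rob 2 M (alternatingGroup Ω) := by
  intro b hb D hD θ hθ
  obtain ⟨B, hB, hc⟩ := exists_covers hM hb
  obtain ⟨δ, κ, w, m, e, h⟩ := exists_dat (I := Fin (Fintype.card Ω)) hM hB (by simp)
  rcases le_or_gt w 2 with hw | hw
  · have h1 : blockDefect 2 b ≤ 2 := by
      have := h.defect_alt_le hb hc hw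
      rw [if_pos rfl] at this; omega
    exact con_of_small hM hb hD hθ ((BlockB.card_defectGroup hM hb hD).trans_le
      (Nat.pow_le_pow_right two_pos h1))
  obtain ⟨n, rfl⟩ : ∃ n, w = n + 3 := ⟨w - 3, by omega⟩
  obtain ⟨T, hT⟩ := A2.exists_center n
  obtain ⟨φ⟩ := h.nonempty_equiv_alt hb hc hD T
  rw [← Nat.card_congr (Subgroup.centerCongr φ).toEquiv] at hT
  obtain ⟨χ, hχ, h2⟩ := Block.exists_over_of_covers hM hB hb hc hθ
  obtain ⟨c, h3, hr⟩ := h.ovr χ hχ
  have h4 := h3.adm h.del χ.2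
  have h5 := (Nat.factorization_le_iff_dvd (fun h0 => ?_) (Nat.factorial_ne_zero _)).2
    (np_dvd two_pos h4.inj) 2
  · rw [h.wt_eq h4 hr] at h5
    have h6 := h.height_alt (by omega) hb hc χ.2 h3 hr hθ h2
    have h7 := factorization_card_alt (p := 2) (Fin (n + 3) × ZMod 2)
    rw [← h.defect_alt hb hc, Nat.card_perm, Nat.card_prod, Nat.card_fin, Nat.card_zmod, mul_comm,
      Nat.factorization_factorial_mul Nat.prime_two, Nat.prime_two.factorization_self] at h7
    have h8 := BlockB.blockDefect_add_minExp (p := 2) ⟨θ, hθ⟩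
    have h9 := BlockB.minExp_le (p := 2) hθ
    rw [BlockB.blockHeight_eq] at h6
    refine con_of_w hM hb hD hθ (w := n + 2) (by omega)
      (hT.trans (Nat.pow_le_pow_right two_pos (by omega))) fun _ => ?_
    rw [pow_succ']
    exact Nat.mul_le_mul_left 2 hT
  · have := np_dvd two_pos h4.inj
    rw [h0, zero_dvd_iff] at this
    exact Nat.factorial_ne_zero _ this

end CF.Nf
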