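import Cfsg.Agent.Nf.A

/-! The Clifford model of the double cover of the symmetric group. -/

set_option autoImplicit false

namespace CF.Nf

open Cfsg Equiv Equiv.Perm Finset CF.Recog Block.Sn

namespace C1

theorem gam (k : ℕ) : ∃ (ι : Type) (_ : Fintype ι) (_ : DecidableEq ι) (J : Type) (_ : Fintype J)
    (γ : J → Matrix ι ι ℂ), Fintype.card ι = 2 ^ k ∧ Fintype.card J = 2 * k + 1 ∧
      (∀ i, γ i * γ i = 1) ∧ ∀ i j, i ≠ j → γ i * γ j = -(γ j * γ i) := by
  induction k with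
  | zero =>
    exact ⟨Unit, inferInstance, inferInstance, Unit, inferInstance, fun _ => 1, rfl, rfl,
      fun _ => one_mul 1, fun _ _ h => absurd rfl h⟩
  | succ k ih =>
    obtain ⟨ι, _, _, J, _, γ, h1, h2, h3, h4⟩ := ih
    refine ⟨ι ⊕ ι, inferInstance, inferInstance, Option (Option J), inferInstance, fun j =>
      j.elim (Matrix.fromBlocks 1 0 0 (-1)) fun j => j.elim
        (Matrix.fromBlocks 0 (-Complex.I • 1) (Complex.I • 1) 0) fun j =>
          Matrix.fromBlocks 0 (γ j) (γ j) 0, by simp [h1]; ring, by simp [h2]; ring, ?_, ?_⟩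
    · rintro (_ | _ | j) <;> simp [Matrix.fromBlocks_multiply, smul_smul, h3]
    · rintro (_ | _ | i) (_ | _ | j) h <;>
        simp [Matrix.fromBlocks_multiply, Matrix.fromBlocks_neg] at h ⊢
      exact h4 i j h

section ring

variable {R J : Type*} [Ring R] [Algebra ℂ R] [DecidableEq J] {γ : J → R} (sq : ∀ i, γ i * γ i = 1)
  (anti : ∀ i j, i ≠ j → γ i * γ j = -(γ j * γ i)) {a b : J} (hab : a ≠ b)
include sq anti hab

omit [DecidableEq J] in
theorem t_sq {c : ℂ} (h : 2 * c ^ 2 = 1) : c • (γ a - γ b) * c • (γ a - γ b) = 1 := by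
  rw [smul_mul_smul_comm, sub_mul, mul_sub, mul_sub, sq, sq, anti b a hab.symm]
  match_scalars
  · linear_combination h
  · ring

theorem t_mul (c : ℂ) (k : J) : c • (γ a - γ b) * γ k = -(γ (swap a b k) * c • (γ a - γ b)) := by
  rw [smul_mul_assoc, mul_smul_comm, ← smul_neg, sub_mul, mul_sub]
  congr 1
  by_cases h1 : k = a
  · rw [h1, swap_apply_left, sq, sq, neg_sub]
  by_cases h2 : k = b
  · rw [h2, swap_apply_right, sq, sq, neg_sub]
  rw [swap_apply_of_ne_of_ne h1 h2, anti k a h1, anti k b h2]; abel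

theorem t_t (c d : ℂ) (k l : J) : c • (γ a - γ b) * d • (γ k - γ l) =
    -(d • (γ (swap a b k) - γ (swap a b l)) * c • (γ a - γ b)) := by
  rw [mul_smul_comm, mul_sub, t_mul sq anti hab, t_mul sq anti hab, smul_mul_assoc, sub_mul,
    ← smul_neg]
  congr 1; abel

end ring

variable {α ι : Type*} [Fintype α] [DecidableEq α] [Fintype ι] [DecidableEq ι]

/-- pairs which permute the generators -/
def W (γ : α ⊕ Option α → Matrix ι ι ℂ) : Submonoid ((Matrix ι ι ℂ)ˣ × Perm α) where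
  carrier := {p | (∀ a, p.1 * γ (.inl a) = sg p.2 • (γ (.inl (p.2 a)) * p.1)) ∧
    ∀ b, p.1 * γ (.inr b) = sg p.2 • (γ (.inr b) * p.1)}
  one_mem' := by simp [sg_one]
  mul_mem' := by
    rintro p q ⟨p1, p2⟩ ⟨q1, q2⟩
    constructor <;> intro a <;>
      simp only [Prod.fst_mul, Prod.snd_mul, Units.val_mul, sg_mul, Perm.mul_apply]
    · rw [mul_assoc, q1, mul_smul_comm, ← mul_assoc, p1, smul_mul_assoc, smul_smul, mul_comm (sg _),
        mul_assoc]
    · rw [mul_assoc, q2, mul_smul_comm, ← mul_assoc, p2, smul_mul_assoc, smul_smul, mul_comm (sg _),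
        mul_assoc]

end C1

open C1 in
theorem exists_cl (m : ℕ) : ∃ (Γ : Type) (_ : Group Γ) (_ : Finite Γ) (ι : Type) (_ : Fintype ι)
    (_ : DecidableEq ι) (π : Γ →* Perm (Fin (m + 1))) (z : Γ) (ρ : Γ →* Matrix ι ι ℂ)
    (γ : Fin (m + 1) ⊕ Option (Fin (m + 1)) → Matrix ι ι ℂ), Cl π z ρ γ := by
  obtain ⟨ι, _, _, J, _, γ0, h1, h2, h3, h4⟩ := gam (m + 1)
  let eJ : Fin (m + 1) ⊕ Option (Fin (m + 1)) ≃ J := Fintype.equivOfCardEq (by simp [h2]; ring)
  obtain ⟨γ, sq, anti⟩ : ∃ γ : Fin (m + 1) ⊕ Option (Fin (m + 1)) → Matrix ι ι ℂ,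
      (∀ i, γ i * γ i = 1) ∧ ∀ i j, i ≠ j → γ i * γ j = -(γ j * γ i) :=
    ⟨γ0 ∘ eJ, fun i => h3 _, fun i j h => h4 _ _ (eJ.injective.ne h)⟩
  obtain ⟨c, hc⟩ : ∃ c : ℂ, 2 * c ^ 2 = 1 := by
    obtain ⟨c, hc⟩ := IsAlgClosed.exists_pow_nat_eq (1 / 2 : ℂ) two_pos
    exact ⟨c, by rw [hc]; norm_num⟩
  let P := (Matrix ι ι ℂ)ˣ × Perm (Fin (m + 1))
  let z : P := (-1, 1)
  have zc : ∀ p : P, p * z = z * p := fun p => Prod.ext (by simp [z, P]) (by simp [z, P])
  have zz : z * z = 1 := Prod.ext (by simp [z, P]) (by simp [z, P])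
  let Z := Subgroup.zpowers z
  have hZ : ∀ p ∈ Z, p = 1 ∨ p = z := by
    intro p hp
    obtain ⟨k, rfl⟩ := (isOfFinOrder_iff_pow_eq_one.2
      ⟨2, two_pos, by rw [pow_two, zz]⟩).mem_powers_iff_mem_zpowers.2 hp
    rcases Nat.even_or_odd' k with ⟨l, rfl | rfl⟩ <;> simp [pow_succ, pow_mul, zz]
  have : Z.Normal := ⟨fun p hp g => by
    rcases hZ p hp with rfl | rfl
    · simp
    · rw [zc, mul_inv_cancel_right]; exact hp⟩
  have ne : ∀ i : Fin m, (Sum.inl i.castSucc : _ ⊕ Option (Fin (m + 1))) ≠ .inl i.succ := fun i =>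
    Sum.inl_injective.ne (Fin.castSucc_lt_succ (i := i)).ne
  let t : Fin m → Matrix ι ι ℂ := fun i => c • (γ (.inl i.castSucc) - γ (.inl i.succ))
  have tt : ∀ i, t i * t i = 1 := fun i => t_sq sq anti (ne i) hc
  let r : Fin m → P := fun i => (⟨t i, t i, tt i, tt i⟩, adj _ i)
  have far : ∀ i j : Fin m, i.val + 1 < j.val → r i * r j = r j * r i * z := by
    intro i j h
    refine Prod.ext (Units.ext ?_) ?_
    · have := t_t sq anti (ne i) c c (.inl j.castSucc) (.inl j.succ)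
      rw [swap_apply_of_ne_of_ne (by simp [Fin.ext_iff]; omega) (by simp [Fin.ext_iff]; omega),
        swap_apply_of_ne_of_ne (by simp [Fin.ext_iff]; omega) (by simp [Fin.ext_iff]; omega)] at this
      change t i * t j = t j * t i * (-1)
      rw [mul_neg_one]; exact this
    · simp [r, z, P, comm_of_sq (adj_mul_self _ i) (adj_mul_self _ j) (adj_pow2 h)]
  have near : ∀ i j : Fin m, i.val + 1 = j.val → t i * t j * t i = t j * t i * t j := by
    intro i j h
    have e : i.succ = j.castSucc := Fin.ext h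
    have e1 := t_t sq anti (ne i) c c (.inl j.castSucc) (.inl j.succ)
    have e2 := t_t sq anti (ne j) c c (.inl i.castSucc) (.inl i.succ)
    rw [← e, swap_apply_right, swap_apply_of_ne_of_ne (by simp [Fin.ext_iff]; omega)
      (by simp [Fin.ext_iff]; omega)] at e1
    rw [e, swap_apply_left, swap_apply_of_ne_of_ne (by simp [Fin.ext_iff]; omega)
      (by simp [Fin.ext_iff]; omega)] at e2
    have e3 : t i * t j = -(c • (γ (.inl i.castSucc) - γ (.inl j.succ)) * t i) := by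
      simp only [t, ← e]; exact e1
    have e4 : t j * t i = -(c • (γ (.inl i.castSucc) - γ (.inl j.succ)) * t j) := by
      simp only [t, e]; exact e2
    conv_lhs => rw [e3, neg_mul, mul_assoc, tt]
    conv_rhs => rw [e4, neg_mul, mul_assoc, tt]
  have rr : ∀ i, r i * r i = 1 := fun i => Prod.ext (Units.ext (tt i)) (adj_mul_self _ i)
  have mz : (z : P ⧸ Z) = 1 := (QuotientGroup.eq_one_iff z).2 (Subgroup.mem_zpowers z)
  obtain ⟨φ, hφ⟩ := CF.Fisch.sym_exists_hom m (fun i => (r i : P ⧸ Z))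
    (fun i => by rw [← QuotientGroup.mk_mul, rr, QuotientGroup.mk_one])
    (fun i j h => by
      rw [commute_iff_eq, ← QuotientGroup.mk_mul, far i j h, QuotientGroup.mk_mul, mz, mul_one,
        QuotientGroup.mk_mul])
    (fun i j h => by
      simp only [← QuotientGroup.mk_mul]
      congr 1
      refine Prod.ext (Units.ext (near i j h)) ?_
      have e : (adj _ i * adj _ j * adj _ i) * (adj _ j * adj _ i * adj _ j) = 1 := by
        rw [← adj_pow3 h.symm]; simp only [pow_succ, pow_zero, one_mul, mul_assoc]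
      change adj _ i * adj _ j * adj _ i = adj _ j * adj _ i * adj _ j
      rw [eq_inv_of_mul_eq_one_left e, mul_inv_rev, mul_inv_rev,
        inv_eq_of_mul_eq_one_right (adj_mul_self _ i), inv_eq_of_mul_eq_one_right (adj_mul_self _ j),
        mul_assoc])
  let ψ : P ⧸ Z →* Perm (Fin (m + 1)) := QuotientGroup.lift Z (MonoidHom.snd _ _) (by
    intro p hp
    rcases hZ p hp with rfl | rfl <;> rfl)
  have hψ : ∀ σ, ψ (φ σ) = σ := by
    have : ψ.comp φ = MonoidHom.id _ := by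
      apply MonoidHom.eq_of_eqOn_denseM (mclosure_swap_castSucc_succ m)
      rintro _ ⟨i, rfl⟩
      simp only [MonoidHom.comp_apply, hφ]; rfl
    exact DFunLike.congr_fun this
  let Γ : Subgroup P := φ.range.comap (QuotientGroup.mk' Z)
  have hz : z ∈ Γ := ⟨1, by simp [mz]⟩
  have hr : ∀ i, r i ∈ Γ := fun i => ⟨_, hφ i⟩
  let π : Γ →* Perm (Fin (m + 1)) := (MonoidHom.snd _ _).comp Γ.subtype
  let ρ : Γ →* Matrix ι ι ℂ := (Units.coeHom _).comp ((MonoidHom.fst _ _).comp Γ.subtype)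
  have ker : ∀ g, π g = 1 → g = 1 ∨ g = ⟨z, hz⟩ := by
    rintro ⟨p, σ, hσ⟩ e
    have e1 : σ = 1 := (hψ σ).symm.trans ((congrArg ψ hσ).trans e)
    rw [e1, map_one] at hσ
    exact (hZ p ((QuotientGroup.eq_one_iff p).1 hσ.symm)).imp Subtype.ext Subtype.ext
  have surj : Function.Surjective π := fun σ => by
    obtain ⟨p, hp⟩ := QuotientGroup.mk_surjective (φ σ)
    exact ⟨⟨p, σ, hp.symm⟩, (congrArg ψ hp).trans (hψ σ)⟩
  have zW : z ∈ W γ := by constructor <;> simp [z, sg_one]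
  have rW : ∀ i, r i ∈ W γ := fun i => by
    have s : sg (adj m i) = -1 := sg_swap (Fin.castSucc_lt_succ (i := i)).ne
    refine ⟨fun a => ?_, fun b => ?_⟩
    · change t i * _ = sg (adj m i) • (γ (.inl (adj m i a)) * t i)
      rw [s, neg_one_smul, t_mul sq anti (ne i), Sum.inl_injective.swap_apply]; rfl
    · change t i * _ = sg (adj m i) • (_ * t i)
      rw [s, neg_one_smul, t_mul sq anti (ne i), swap_apply_of_ne_of_ne (by simp) (by simp)]
  have hW : ∀ g : Γ, g.1 ∈ W γ := by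
    rintro ⟨p, σ, hσ⟩
    have : ((W γ).map (QuotientGroup.mk' Z)).comap φ = ⊤ := by
      rw [eq_top_iff, ← mclosure_swap_castSucc_succ m, Submonoid.closure_le]
      rintro _ ⟨i, rfl⟩
      exact ⟨r i, rW i, (hφ i).symm⟩
    obtain ⟨q, hq, e⟩ : σ ∈ ((W γ).map (QuotientGroup.mk' Z)).comap φ := this ▸ Submonoid.mem_top σ
    rcases hZ _ (QuotientGroup.eq.1 (e.trans hσ)) with e | e
    · exact inv_mul_eq_one.1 e ▸ hq
    · exact inv_mul_eq_iff_eq_mul.1 e ▸ mul_mem hq zW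
  have fin : Finite Γ := by
    rw [MonoidHom.finite_iff_finite_ker_range π]
    exact ⟨(Set.toFinite {1, (⟨z, hz⟩ : Γ)}).subset fun g hg => ker g hg, inferInstance⟩
  refine ⟨Γ, inferInstance, fin, ι, inferInstance, inferInstance, π, ⟨z, hz⟩, ρ, γ,
    by simpa using h1, sq, anti, surj, ker, rfl, rfl, Subtype.ext zz, fun g => Subtype.ext (zc g),
    fun g => (hW g).1, fun g => (hW g).2, fun a b hab => ?_⟩
  obtain _ | m := m
  · exact absurd (Subsingleton.elim (α := Fin 1) a b) hab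
  have inj : ∀ {a b : Fin (m + 1 + 1)}, a ≠ b → Function.Injective ![a, b] := by
    intro a b h
    rw [← List.nodup_ofFn]; simpa using h
  obtain ⟨κ, hκ⟩ := Equiv.Perm.exists_extending_pair _ _
    (inj (Fin.castSucc_lt_succ (i := (0 : Fin (m + 1)))).ne) (inj hab)
  obtain ⟨g, rfl⟩ := surj κ
  have ha : π g (0 : Fin (m + 1)).castSucc = a := hκ 0
  have hb : π g (0 : Fin (m + 1)).succ = b := hκ 1
  refine ⟨g * ⟨r 0, hr 0⟩ * g⁻¹, ?_, sg (π g) * c, ?_, ?_⟩
  · rw [map_mul, map_mul, map_inv, ← ha, ← hb, swap_apply_apply]; rfl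
  · rw [mul_pow, pow_two, sg_mul_self, one_mul, hc]
  · have e1 : ∀ x, ρ g * γ (.inl x) * ρ g⁻¹ = sg (π g) • γ (.inl (π g x)) := fun x => by
      rw [show ρ g * γ (.inl x) = sg (π g) • (γ (.inl (π g x)) * ρ g) from (hW g).1 x,
        smul_mul_assoc, mul_assoc, ← map_mul, mul_inv_cancel, map_one, mul_one]
    rw [map_mul, map_mul, show ρ ⟨r 0, hr 0⟩ = c • (γ (.inl (0 : Fin (m + 1)).castSucc) -
      γ (.inl (0 : Fin (m + 1)).succ)) from rfl, mul_smul_comm, smul_mul_assoc, mul_sub, sub_mul,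
      e1, e1, ha, hb, ← smul_sub, smul_smul, mul_comm]

variable {α : Type*} [Fintype α] [DecidableEq α] {Γ ι : Type*} [Group Γ] [Fintype ι] [DecidableEq ι]
  {π : Γ →* Perm α} {z : Γ} {ρ : Γ →* Matrix ι ι ℂ} {γ : α ⊕ Option α → Matrix ι ι ℂ}

theorem Cl.z_mem (h : Cl π z ρ γ) : z ∈ Ev π := by
  rw [Subgroup.mem_comap, h.πz]; exact one_mem _

theorem Cl.rho_ne (h : Cl π z ρ γ) {g : Γ} (e : ρ g = -1) : g ≠ 1 := by
  rintro rfl
  have := congrArg Matrix.trace e
  rw [map_one, Matrix.trace_neg, Matrix.trace_one, h.card] at this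
  exact pow_ne_zero _ two_ne_zero (by exact_mod_cast self_eq_neg.1 this)

theorem Cl.dc (h : Cl π z ρ γ) : DC (π.comp (Ev π).subtype) ⟨z, h.z_mem⟩ := by
  refine ⟨⟨fun e => h.rho_ne h.ρz (congrArg Subtype.val e), Subtype.ext h.zz,
    fun g => Subtype.ext (h.cen g), h.πz, fun g e => (h.ker g e).imp Subtype.ext Subtype.ext,
    fun g => g.2, fun σ hσ => ?_⟩, fun g a b c d hn e => Subtype.ext ?_⟩
  · obtain ⟨g, rfl⟩ := h.surj σ
    exact ⟨⟨g, hσ⟩, rfl⟩
  · have hd := dbl_mul_self hn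
    simp only [List.nodup_cons, List.mem_cons, List.not_mem_nil, or_false, not_or] at hn
    obtain ⟨⟨hab, hac, had⟩, ⟨hbc, hbd⟩, hcd, -⟩ := hn
    obtain ⟨s, hs, u, hu, hs'⟩ := h.swp a b hab
    obtain ⟨t, ht, v, hv, ht'⟩ := h.swp c d hcd
    have e1 : ρ s * ρ t = -(ρ t * ρ s) := by
      rw [hs', ht', C1.t_t h.sq h.anti (Sum.inl_injective.ne hab),
        swap_apply_of_ne_of_ne (by simpa using Ne.symm hac) (by simpa using Ne.symm hbc),
        swap_apply_of_ne_of_ne (by simpa using Ne.symm had) (by simpa using Ne.symm hbd)]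
    have e2 : ρ s * ρ s = 1 := hs' ▸ C1.t_sq h.sq h.anti (Sum.inl_injective.ne hab) hu
    have e3 : ρ t * ρ t = 1 := ht' ▸ C1.t_sq h.sq h.anti (Sum.inl_injective.ne hcd) hv
    have e4 : ρ (s * t) * ρ (s * t) = -1 := by
      rw [map_mul]
      nth_rw 1 [e1]
      rw [neg_mul, mul_assoc, ← mul_assoc (ρ s), e2, one_mul, e3]
    have e' : π g = swap a b * swap c d := e
    refine (h.ker (g * g) (by rw [map_mul, e', hd])).resolve_left (h.rho_ne ?_)
    rcases h.ker ((s * t)⁻¹ * g) (by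
      rw [map_mul, map_inv, map_mul, e', hs, ht, inv_mul_cancel]) with e | e
    · rw [← inv_mul_eq_one.1 e, map_mul, e4]
    · rw [inv_mul_eq_iff_eq_mul.1 e, map_mul, map_mul, h.ρz, mul_neg_one, neg_mul_neg, e4]

end CF.Nf
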