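import Cfsg.Agent.Nf.A

/-! The trace of the Clifford module. -/

set_option autoImplicit false

namespace CF.Nf

open Cfsg Equiv Finset Block.Sn

variable {α : Type*} [Fintype α] [DecidableEq α] {Γ ι : Type*} [Group Γ] [Fintype ι] [DecidableEq ι]
  {π : Γ →* Perm α} {z : Γ} {ρ : Γ →* Matrix ι ι ℂ} {γ : α ⊕ Option α → Matrix ι ι ℂ}

namespace C2

theorem tr0 {x e : Matrix ι ι ℂ} (he : e * e = 1) (hx : x * e = -(e * x)) : x.trace = 0 := by
  have e1 : (x * e * e).trace = -(x * e * e).trace := by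
    conv_lhs => rw [hx, neg_mul, Matrix.trace_neg, mul_assoc, Matrix.trace_mul_comm]
  rw [mul_assoc, he, mul_one] at e1
  linear_combination e1 / 2

/-- the norm of the trace -/
noncomputable def T (ρ : Γ →* Matrix ι ι ℂ) (g : Γ) : ℂ := (ρ g).trace * (ρ g⁻¹).trace

variable (h : Cl π z ρ γ)
include h

theorem T_congr {g k : Γ} (e : π g = π k) : T ρ g = T ρ k := by
  rcases h.ker (k⁻¹ * g) (by simp [e]) with e | e
  · rw [inv_mul_eq_one.1 e]
  · obtain rfl : g = k * z := by rw [← e]; simp
    simp [T, inv_eq_of_mul_eq_one_right h.zz, h.ρz]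

theorem tr_odd {g : Γ} (e : sg (π g) = -1) : (ρ g).trace = 0 :=
  tr0 (h.sq (.inr none)) (by rw [h.right, e, neg_one_smul])

theorem tr2 {x : Matrix ι ι ℂ} {a b : α} (hab : a ≠ b) (hx : x * γ (.inl a) = γ (.inl a) * x) :
    (γ (.inl a) * γ (.inl b) * x).trace = 0 ∧ (γ (.inl b) * γ (.inl a) * x).trace = 0 := by
  have e := h.anti (.inl b) (.inl a) (by simpa using hab.symm)
  have : (γ (.inl a) * γ (.inl b) * x).trace = 0 := tr0 (h.sq (.inl a)) (by
    rw [mul_assoc, hx, ← mul_assoc, mul_assoc (γ _), e]; simp only [mul_neg, neg_mul, mul_assoc])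
  exact ⟨this, by rw [e, neg_mul, Matrix.trace_neg, this, neg_zero]⟩

theorem step2 {g k : Γ} {a b : α} (hab : a ≠ b) (ha : π g a = a) (hb : π g b = b)
    (e : π k = swap a b * π g) : T ρ k = 0 := by
  obtain ⟨s, hs, c, -, hc⟩ := h.swp a b hab
  rw [T_congr h (k := s * g) (by rw [e, map_mul, hs]), T]
  rcases sg_eq (π g) with e | e
  · rw [tr_odd h (by rw [map_mul, sg_mul, hs, sg_swap hab, e, mul_one]), zero_mul]
  · have : ∀ x, π g x = x → (γ (.inl x) * ρ g).trace = 0 := fun x hx =>
      tr0 (h.sq (.inl x)) (by rw [mul_assoc, h.left, e, hx, neg_one_smul, mul_neg])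
    rw [map_mul, hc, smul_mul_assoc, sub_mul, Matrix.trace_smul, Matrix.trace_sub, this a ha,
      this b hb, sub_zero, smul_zero, zero_mul]

theorem rho_inv {s : Γ} {a b : α} (hab : a ≠ b) {c : ℂ} (h2 : 2 * c ^ 2 = 1)
    (hc : ρ s = c • (γ (.inl a) - γ (.inl b))) : ρ s⁻¹ = ρ s := by
  have : ρ s * ρ s = 1 := by
    rw [hc, smul_mul_smul_comm, sub_mul, mul_sub, mul_sub, h.sq, h.sq,
      h.anti (.inl b) (.inl a) (by simpa using hab.symm)]
    match_scalars
    · linear_combination h2
    · ring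
  rw [← mul_one (ρ s⁻¹), ← this, ← mul_assoc, ← map_mul, inv_mul_cancel, map_one, one_mul]

theorem step3 {g k : Γ} {a b c : α} (hab : a ≠ b) (hac : a ≠ c) (hbc : b ≠ c) (ha : π g a = a)
    (hb : π g b = b) (e : π k = swap a b * swap b c * π g) : 4 * T ρ k = T ρ g := by
  obtain ⟨s, hs, u, hu, hs'⟩ := h.swp a b hab
  obtain ⟨t, ht, v, hv, ht'⟩ := h.swp b c hbc
  rw [T_congr h (k := s * t * g) (by rw [e, map_mul, map_mul, hs, ht]), T, T]
  rcases sg_eq (π g) with e | e
  · have c1 : ∀ x, π g x = x → ρ g * γ (.inl x) = γ (.inl x) * ρ g := fun x hx => by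
      rw [h.left, e, hx, one_smul]
    have c2 : ∀ x, π g x = x → ρ g⁻¹ * γ (.inl x) = γ (.inl x) * ρ g⁻¹ := fun x hx => by
      rw [h.left, map_inv, sg_inv, e, one_smul, Perm.inv_eq_iff_eq.2 hx.symm]
    have e1 : (ρ (s * t * g)).trace = -(u * v) * (ρ g).trace := by
      rw [map_mul, map_mul, hs', ht', smul_mul_smul_comm, smul_mul_assoc, sub_mul, mul_sub, mul_sub,
        h.sq]
      simp only [sub_mul, Matrix.trace_smul, Matrix.trace_sub, (tr2 h hab (c1 a ha)).1,
        (tr2 h hac (c1 a ha)).1, (tr2 h hbc (c1 b hb)).1, one_mul, smul_eq_mul]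
      ring
    have e2 : (ρ (s * t * g)⁻¹).trace = -(u * v) * (ρ g⁻¹).trace := by
      rw [mul_inv_rev, map_mul, Matrix.trace_mul_comm, mul_inv_rev, map_mul, rho_inv h hab hu hs',
        rho_inv h hbc hv ht', hs', ht', smul_mul_smul_comm, smul_mul_assoc, sub_mul, mul_sub,
        mul_sub, h.sq]
      simp only [sub_mul, Matrix.trace_smul, Matrix.trace_sub, (tr2 h hab (c2 a ha)).2,
        (tr2 h hac (c2 a ha)).2, (tr2 h hbc (c2 b hb)).2, one_mul, smul_eq_mul]
      ring
    rw [e1, e2]
    linear_combination ((ρ g).trace * (ρ g⁻¹).trace) * (2 * v ^ 2 * hu + hv)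
  · rw [tr_odd h e, tr_odd h (g := s * t * g) (by
      rw [map_mul, map_mul, sg_mul, sg_mul, hs, ht, sg_swap hab, sg_swap hbc, e]; ring)]
    ring

theorem lst {g : Γ} : ∀ (l : List α) (a : α) (k : Γ), (a :: l).Nodup → (∀ x ∈ a :: l, π g x = x) →
    π k = (a :: l).formPerm * π g →
    T ρ k * 2 ^ (l.length + 1) = if Odd (l.length + 1) then 2 * T ρ g else 0
  | [], a, k, _, _, e => by
    rw [T_congr h (k := g) (by simpa using e)]; simp [mul_comm]
  | [b], a, k, hn, hf, e => by
    rw [step2 h (by simpa using hn) (hf a (by simp)) (hf b (by simp)) e, zero_mul,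
      if_neg (by simp [Nat.odd_iff])]
  | b :: c :: l, a, k, hn, hf, e => by
    obtain ⟨k', hk'⟩ := h.surj ((c :: l).formPerm * π g)
    have hn' := hn
    simp only [List.nodup_cons (l := b :: _), List.nodup_cons (l := c :: _)] at hn'
    obtain ⟨h1, h2, h3⟩ := hn'
    have h1' : a ∉ c :: l := fun e => h1 (List.mem_cons_of_mem _ e)
    have e1 := lst l c k' h3 (fun x hx => hf x (by simp only [List.mem_cons] at hx ⊢; tauto)) hk'
    have e2 := step3 h (g := k') (k := k) (a := a) (b := b) (c := c)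
      (by rintro rfl; simp at h1) (by rintro rfl; simp at h1) (by rintro rfl; simp at h2)
      (by rw [hk', Perm.mul_apply, hf a (by simp), List.formPerm_apply_of_notMem h1'])
      (by rw [hk', Perm.mul_apply, hf b (by simp), List.formPerm_apply_of_notMem h2])
      (by rw [e, hk']; simp only [List.formPerm_cons_cons, mul_assoc])
    have : Odd ((b :: c :: l).length + 1) ↔ Odd (l.length + 1) := by
      simp only [List.length_cons, Nat.odd_iff]; omega
    simp only [this, ← e1, ← e2]
    simp only [List.length_cons]; ring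

theorem cyc {g k : Γ} {c : Perm α} (hc : c.IsCycle) (hd : c.Disjoint (π g)) (e : π k = c * π g) :
    T ρ k * 2 ^ #c.support = if Odd #c.support then 2 * T ρ g else 0 := by
  obtain ⟨x, hx, -⟩ := id hc
  have e1 := Perm.formPerm_toList c x
  have e2 := Perm.length_toList c x
  have e3 := Perm.nodup_toList c x
  have e4 : ∀ y ∈ c.toList x, π g y = y := fun y hy => (hd y).resolve_left
    (Perm.mem_support.1 ((Perm.mem_toList_iff.1 hy).1.mem_support_iff.1 (Perm.mem_support.2 hx)))
  rw [hc.cycleOf_eq hx] at e1 e2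
  rcases hl : c.toList x with _ | ⟨a, l⟩
  · exact absurd (Perm.mem_support.2 hx) (Perm.toList_eq_nil_iff.1 hl)
  · rw [hl] at e1 e2 e3 e4
    rw [← e2]
    exact lst h l a k e3 e4 (by rw [e, e1])

theorem all (σ : Perm α) : ∀ g, π g = σ → T ρ g * 2 ^ #σ.support =
    if Odd (orderOf σ) then 2 ^ (2 * Fintype.card α + σ.cycleType.card) else 0 := by
  have one : T ρ 1 = 2 ^ (2 * Fintype.card α) := by
    simp only [T, inv_one, map_one, Matrix.trace_one, h.card]; push_cast; ring
  induction σ using Perm.cycle_induction_on with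
  | base_one => intro g e; rw [T_congr h (k := 1) (by simpa using e), one]; simp
  | base_cycles c hc =>
    intro g e
    rw [cyc h (g := 1) hc (by simp) (by simpa using e), hc.orderOf, hc.cycleType, one]
    simp [pow_succ, mul_comm]
  | induction_disjoint c τ hd hc _ ih =>
    intro k e
    obtain ⟨g, rfl⟩ := h.surj τ
    have : Odd (orderOf (c * π g)) ↔ Odd #c.support ∧ Odd (orderOf (π g)) := by
      simp only [hd.orderOf, hc.orderOf, ← Nat.not_even_iff_odd, even_iff_two_dvd,
        Nat.prime_two.dvd_lcm, not_or]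
    rw [hd.card_support_mul, pow_add, ← mul_assoc, cyc h hc hd e, hd.cycleType_mul, hc.cycleType]
    simp only [this, ite_mul, mul_assoc, ih g rfl]
    by_cases h1 : Odd #c.support <;> by_cases h2 : Odd (orderOf (π g)) <;> simp [h1, h2]
    ring

end C2

theorem Cl.tr (h : Cl π z ρ γ) (g : Γ) : (ρ g).trace * (ρ g⁻¹).trace =
    if Odd (orderOf (π g)) then 2 ^ (Fintype.card α + (π g).partition.parts.card) else 0 := by
  have e := C2.all h _ g rfl
  have hs : #(π g).support ≤ Fintype.card α := card_le_univ _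
  refine mul_right_cancel₀ (pow_ne_zero #(π g).support (two_ne_zero (α := ℂ))) (e.trans ?_)
  split_ifs
  · rw [← pow_add, Perm.parts_partition, Multiset.card_add, Multiset.card_replicate]
    congr 1; omega
  · rw [zero_mul]

end CF.Nf
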