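import Cfsg.Agent.Nf.A
import Cfsg.Agent.Char.FrobSchur

/-! Anticommuting operators in the commutant of a representation divide its character. -/

set_option autoImplicit false

namespace CF.Nf

open Cfsg

namespace C3

variable {K V J : Type*} [Group K] [AddCommGroup V] [Module ℂ V] [FiniteDimensional ℂ V]

theorem tr_zero {x y : Module.End ℂ V} {c : ℂ} (hc : c ≠ 0) (hy : y * y = c • 1)
    (h : x * y = -(y * x)) : LinearMap.trace ℂ V x = 0 := by
  have e1 : LinearMap.trace ℂ V (x * y * y) = c * LinearMap.trace ℂ V x := by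
    rw [mul_assoc, hy, mul_smul_comm, mul_one, map_smul, smul_eq_mul]
  have e2 : LinearMap.trace ℂ V (x * y * y) = -LinearMap.trace ℂ V (x * y * y) := by
    conv_lhs => rw [h, neg_mul, map_neg, mul_assoc, LinearMap.trace_mul_comm]
  have : (2 * c) * LinearMap.trace ℂ V x = 0 := by linear_combination e2 - 2 * e1
  exact (mul_eq_zero.1 this).resolve_left (mul_ne_zero two_ne_zero hc)

theorem aux (σ : Representation ℂ K V) (k : ℕ) : ∀ (s : Finset J) (A : J → Module.End ℂ V)
    (e : Module.End ℂ V), 2 * k ≤ s.card → e * e = e → (∀ g, Commute e (σ g)) →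
    (∀ j ∈ s, Commute e (A j)) → (∀ j ∈ s, ∀ g, Commute (σ g) (A j)) →
    (∀ i ∈ s, ∀ j ∈ s, i ≠ j → A i * A j = -(A j * A i)) →
    (∀ j ∈ s, ∃ c : ℂ, c ≠ 0 ∧ A j * A j = c • 1) →
    ∃ φ, IsCharacter K φ ∧ ∀ g, LinearMap.trace ℂ V (e * σ g) = 2 ^ k * φ g := by
  classical
  induction k with
  | zero =>
    intro s A e _ he hc _ _ _ _
    exact ⟨_, CF.Char.char_trace_idem σ e he hc, fun g => by rw [pow_zero, one_mul]; rfl⟩
  | succ k ih =>
    intro s A e hs he hc hA h1 h2 h3
    obtain ⟨i, hi, j, hj, hij⟩ := Finset.one_lt_card.1 (show 1 < s.card by omega)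
    obtain ⟨c, hc0, hci⟩ := h3 i hi
    obtain ⟨c', hc0', hcj⟩ := h3 j hj
    obtain ⟨d, hd⟩ := IsAlgClosed.exists_pow_nat_eq c⁻¹ two_pos
    set B := d • A i with hB
    have BB : B * B = 1 := by
      rw [hB, smul_mul_smul_comm, hci, smul_smul, ← pow_two, hd, inv_mul_cancel₀ hc0, one_smul]
    have eB : Commute e B := (hA i hi).smul_right d
    set f : Module.End ℂ V := (1 / 2 : ℂ) • (1 + B) with hf
    have ff : f * f = f := by
      rw [hf, smul_mul_smul_comm, add_mul, mul_add, mul_add, BB, one_mul, one_mul, mul_one]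
      module
    have ef : Commute e f := ((Commute.one_right e).add_right eB).smul_right _
    have mem : ∀ l ∈ (s.erase i).erase j, l ∈ s ∧ l ≠ i ∧ l ≠ j := fun l hl => by
      simp only [Finset.mem_erase] at hl; exact ⟨hl.2.2, hl.2.1, hl.1⟩
    have uA : ∀ l ∈ (s.erase i).erase j, Commute (A i * A j) (A l) := fun l hl => by
      obtain ⟨a, b, c⟩ := mem l hl
      rw [commute_iff_eq, mul_assoc, h2 j hj l a c.symm, mul_neg, ← mul_assoc, h2 i hi l a b.symm,
        neg_mul, neg_neg, mul_assoc]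
    have uu : A i * A j * (A i * A j) = (-(c * c')) • 1 := by
      rw [mul_assoc, ← mul_assoc (A j), h2 j hj i hi hij.symm, neg_mul, mul_neg, mul_assoc, hcj,
        ← mul_assoc, hci, smul_mul_smul_comm, mul_one, neg_smul]
    have key : ∀ l ∈ (s.erase i).erase j, ∀ m, A i * A j * A l * (A i * A j * A m) =
        (-(c * c')) • (A l * A m) := fun l hl m => by
      rw [mul_assoc, ← mul_assoc (A l), ← (uA l hl).eq, mul_assoc, ← mul_assoc, ← mul_assoc,
        ← mul_assoc (A i * A j), uu, mul_assoc, smul_mul_assoc, one_mul]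
    obtain ⟨φ, hφ, hφ'⟩ := ih ((s.erase i).erase j) (fun l => A i * A j * A l) (e * f)
      (by rw [Finset.card_erase_of_mem (Finset.mem_erase.2 ⟨hij.symm, hj⟩),
        Finset.card_erase_of_mem hi]; omega)
      (by rw [mul_assoc, ← mul_assoc f, ← ef.eq, mul_assoc, ff, ← mul_assoc, he])
      (fun g => (hc g).mul_left
        (((Commute.one_left _).add_left ((h1 i hi g).symm.smul_left d)).smul_left _))
      (fun l hl => by
        obtain ⟨a, b, c⟩ := mem l hl
        refine (((hA i hi).mul_right (hA j hj)).mul_right (hA l a)).mul_left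
          (((Commute.one_left _).add_left (Commute.smul_left ?_ d)).smul_left _)
        rw [commute_iff_eq, mul_assoc (A i * A j), h2 l a i hi b, mul_neg, ← mul_assoc (A i * A j),
          mul_assoc (A i) (A j) (A i), h2 j hj i hi hij.symm, mul_neg, neg_mul, neg_neg]
        simp only [mul_assoc])
      (fun l hl g => ((h1 i hi g).mul_right (h1 j hj g)).mul_right (h1 l (mem l hl).1 g))
      (fun l hl m hm hlm => by
        rw [key l hl, key m hm, h2 l (mem l hl).1 m (mem m hm).1 hlm, smul_neg])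
      (fun l hl => by
        obtain ⟨c'', h0, hl'⟩ := h3 l (mem l hl).1
        exact ⟨-(c * c') * c'', mul_ne_zero (neg_ne_zero.2 (mul_ne_zero hc0 hc0')) h0, by
          rw [key l hl, hl', smul_smul]⟩)
    refine ⟨φ, hφ, fun g => ?_⟩
    have z : LinearMap.trace ℂ V (e * A i * σ g) = 0 := tr_zero hc0' hcj (by
      rw [mul_assoc, (h1 j hj g).eq, ← mul_assoc, mul_assoc e, h2 i hi j hj hij, mul_neg,
        ← mul_assoc, (hA j hj).eq, neg_mul]
      simp only [mul_assoc])
    have := hφ' g
    rw [hf, hB, mul_smul_comm, smul_mul_assoc, mul_add, add_mul, mul_smul_comm, smul_mul_assoc,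
      map_smul, map_add, map_smul, z, mul_one, smul_zero, add_zero, smul_eq_mul] at this
    rw [pow_succ]
    linear_combination 2 * this

end C3

theorem div {K V J : Type*} [Group K] [AddCommGroup V] [Module ℂ V] [FiniteDimensional ℂ V]
    [Fintype J] (σ : Representation ℂ K V) (A : J → Module.End ℂ V)
    (h1 : ∀ j g, σ g * A j = A j * σ g) (h2 : ∀ i j, i ≠ j → A i * A j = -(A j * A i))
    (h3 : ∀ j, ∃ c : ℂ, c ≠ 0 ∧ A j * A j = c • 1) :
    ∃ φ, IsCharacter K φ ∧ ∀ g, σ.character g = 2 ^ (Fintype.card J / 2) * φ g := by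
  obtain ⟨φ, hφ, h⟩ := C3.aux σ (Fintype.card J / 2) Finset.univ A 1
    (by rw [Finset.card_univ]; omega) (one_mul 1) (fun _ => Commute.one_left _)
    (fun _ _ => Commute.one_left _) (fun j _ g => h1 j g) (fun i _ j _ => h2 i j) fun j _ => h3 j
  exact ⟨φ, hφ, fun g => by rw [← h, one_mul]; rfl⟩

end CF.Nf
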