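import Cfsg.Agent.Nf.C3

/-! The induced Clifford modules. -/

set_option autoImplicit false

namespace CF.Nf

open Cfsg Equiv Finset Block.Sn

namespace C4

theorem divm {K G X ι J : Type*} [Group K] [Group G] [MulAction G X] [Finite X] [Fintype ι]
    [DecidableEq ι] [Fintype J] (π : K →* G) (ρ : K →* Matrix ι ι ℂ) (s : J → X → Matrix ι ι ℂ)
    (h1 : ∀ j g x, ρ g * s j x = s j (π g • x) * ρ g)
    (h2 : ∀ i j, i ≠ j → ∀ x, s i x * s j x = -(s j x * s i x))
    (h3 : ∀ j, ∃ c : ℂ, c ≠ 0 ∧ ∀ x, s j x * s j x = c • 1) :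
    ∃ φ, IsCharacter K φ ∧ ∀ g, (ρ g).trace * Nat.card (MulAction.fixedBy X (π g)) =
      2 ^ (Fintype.card J / 2) * φ g := by
  classical
  have := Fintype.ofFinite X
  let σ : K →* Matrix X X (Matrix ι ι ℂ) :=
    { toFun := fun g => Matrix.of fun x y => if x = π g • y then ρ g else 0
      map_one' := by ext1 x y; simp [Matrix.one_apply]
      map_mul' := fun g k => by ext1 x y; simp [Matrix.mul_apply, mul_smul] }
  let e : Matrix X X (Matrix ι ι ℂ) ≃ₐ[ℂ] Module.End ℂ (X × ι → ℂ) :=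
    (Matrix.compAlgEquiv X ι ℂ ℂ).trans Matrix.toLinAlgEquiv'
  obtain ⟨φ, hφ, h⟩ := div ((e : _ →* _).comp σ) (fun j => e (Matrix.diagonal (s j)))
    (fun j g => by
      change e (σ g) * _ = _ * e (σ g)
      rw [← map_mul, ← map_mul]
      congr 1
      ext1 x y
      simp only [σ, Matrix.mul_diagonal, Matrix.diagonal_mul, MonoidHom.coe_mk, OneHom.coe_mk,
        Matrix.of_apply]
      split_ifs with h
      · rw [h1, h]
      · simp)
    (fun i j h => by
      rw [← map_mul, ← map_mul, ← map_neg, Matrix.diagonal_mul_diagonal,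
        Matrix.diagonal_mul_diagonal, Matrix.diagonal_neg]
      simp only [h2 i j h])
    (fun j => (h3 j).imp fun c hc => ⟨hc.1, by
      rw [← map_mul, Matrix.diagonal_mul_diagonal, ← map_one e, ← map_smul, ← Matrix.diagonal_one,
        ← Matrix.diagonal_smul]
      simp only [hc.2]; rfl⟩)
  refine ⟨φ, hφ, fun g => Eq.trans ?_ (h g)⟩
  change _ = LinearMap.trace ℂ _ (Matrix.toLin' (Matrix.comp X X ι ι ℂ (σ g)))
  rw [Matrix.trace_toLin'_eq, Matrix.trace, Matrix.trace, Fintype.sum_prod_type,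
    Nat.card_eq_fintype_card, Fintype.card_subtype, card_filter, mul_comm]
  push_cast
  rw [sum_mul]
  refine sum_congr rfl fun x _ => ?_
  by_cases hx : x = π g • x
  · simp [σ, ← hx, hx.symm]
  · simp [σ, hx, Ne.symm hx]

section ring

variable {R J : Type*} [Ring R] [Algebra ℂ R] {γ : J → R}
  (anti : ∀ i j, i ≠ j → γ i * γ j = -(γ j * γ i))
include anti

omit [Algebra ℂ R] in
theorem sum_anti {S T : Finset J} (h : Disjoint S T) :
    (∑ i ∈ S, γ i) * ∑ i ∈ T, γ i = -((∑ i ∈ T, γ i) * ∑ i ∈ S, γ i) := by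
  rw [sum_mul_sum, sum_mul_sum, sum_comm, ← sum_neg_distrib]
  refine sum_congr rfl fun j hj => ?_
  rw [← sum_neg_distrib]
  exact sum_congr rfl fun i hi => anti i j (h.forall_ne_finset hi hj)

theorem sum_sq (sq : ∀ i, γ i * γ i = 1) (S : Finset J) :
    (∑ i ∈ S, γ i) * ∑ i ∈ S, γ i = (#S : ℂ) • (1 : R) := by
  induction S using Finset.cons_induction with
  | empty => simp
  | cons a S ha ih =>
    have := sum_anti anti (disjoint_singleton_left.2 ha)
    rw [sum_singleton] at this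
    rw [sum_cons, add_mul, mul_add, mul_add, this, ih, sq, card_cons]
    push_cast
    module

end ring

variable {α : Type*} [Fintype α] [DecidableEq α] {Γ ι : Type*} [Group Γ] [Fintype ι] [DecidableEq ι]
  {π : Γ →* Perm α} {z : Γ} {ρ : Γ →* Matrix ι ι ℂ} {γ : α ⊕ Option α → Matrix ι ι ℂ}

/-- the blocks of generators attached to a colouring -/
def bl {l : ℕ} (c : Fin l → ℕ) : Option (α ⊕ {k // c k ≠ 0}) → Tab α c → Finset (α ⊕ Option α)
  | none, _ => {.inr none}
  | some (.inl b), _ => {.inr (some b)}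
  | some (.inr k), f => ({a | f.1 a = k} : Finset α).map Function.Embedding.inl

theorem fam (h : Cl π z ρ γ) {l : ℕ} (c : Fin l → ℕ) :
    ∃ s : Option (α ⊕ {k // c k ≠ 0}) → Tab α c → Matrix ι ι ℂ,
      (∀ j g x, ρ g * s j x = sg (π g) • (s j (π g • x) * ρ g)) ∧
      (∀ i j, i ≠ j → ∀ x, s i x * s j x = -(s j x * s i x)) ∧
      (∀ j, ∃ c : ℂ, c ≠ 0 ∧ ∀ x, s j x * s j x = c • 1) ∧ ∀ x, s none x = γ (.inr none) := by
  refine ⟨fun j f => ∑ i ∈ bl c j f, γ i, ?_, fun i j hij f => sum_anti h.anti ?_, ?_,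
    fun _ => by simp [bl]⟩
  · rintro (_ | b | k) g f
    · simp [bl, h.right]
    · simp [bl, h.right]
    · simp only [bl, sum_map, Function.Embedding.inl_apply, mul_sum, sum_mul, smul_sum, h.left]
      exact sum_equiv (π g) (fun a => by simp [Tab.smul_val]) fun _ _ => rfl
  · revert hij
    rcases i with _ | a | i <;> rcases j with _ | b | j <;> simp [bl, disjoint_filter]
    exact fun h x hx e => h (Subtype.ext (hx.symm.trans e))
  · rintro (_ | b | k)
    · exact ⟨1, one_ne_zero, fun f => by simp [bl, h.sq]⟩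
    · exact ⟨1, one_ne_zero, fun f => by simp [bl, h.sq]⟩
    · refine ⟨c k, Nat.cast_ne_zero.2 k.2, fun f => ?_⟩
      rw [sum_sq h.anti h.sq, bl, card_map, ← congrFun f.2 k]; rfl

end C4

variable {α : Type*} [Fintype α] [DecidableEq α] {Γ ι : Type*} [Group Γ] [Fintype ι] [DecidableEq ι]
  {π : Γ →* Perm α} {z : Γ} {ρ : Γ →* Matrix ι ι ℂ} {γ : α ⊕ Option α → Matrix ι ι ℂ}

theorem Cl.div0 (h : Cl π z ρ γ) {l : ℕ} (c : Fin l → ℕ) : ∃ φ, IsCharacter Γ φ ∧ ∀ g,
    (ρ g).trace * Block.Sn.co c (Block.Sn.cyc Block.Sn.X (π g)) =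
      2 ^ ((Fintype.card α + #{k | c k ≠ 0}) / 2) * φ g := by
  obtain ⟨s, h1, h2, h3, h4⟩ := C4.fam h c
  have key : ∀ i j x, s none x * s (some i) x * (s none x * s (some j) x) =
      -(s (some i) x * s (some j) x) := fun i j x => by
    rw [h2 none (some i) (by simp), neg_mul, mul_assoc, ← mul_assoc (s none x), h4, h.sq, one_mul]
  obtain ⟨φ, hφ, e⟩ := C4.divm π ρ (fun j x => s none x * s (some j) x)
    (fun j g x => by
      rw [← mul_assoc, h1, smul_mul_assoc, mul_assoc, h1, mul_smul_comm, smul_smul, sg_mul_self,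
        one_smul, mul_assoc])
    (fun i j hij x => by rw [key, key, h2 (some i) (some j) (by simpa using hij)])
    (fun j => by
      obtain ⟨c, h0, hc⟩ := h3 (some j)
      exact ⟨-c, neg_ne_zero.2 h0, fun x => by rw [key, hc, neg_smul]⟩)
  refine ⟨φ, hφ, fun g => ?_⟩
  rw [co_cyc_eq_fixedBy, e, Fintype.card_sum, Fintype.card_subtype]

theorem Cl.div1 (h : Cl π z ρ γ) {l : ℕ} (c : Fin l → ℕ) : ∃ φ, IsCharacter (Ev π) φ ∧ ∀ g : Ev π,
    (ρ g).trace * Block.Sn.co c (Block.Sn.cyc Block.Sn.X (π g)) =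
      2 ^ ((Fintype.card α + #{k | c k ≠ 0} + 1) / 2) * φ g := by
  obtain ⟨s, h1, h2, h3, -⟩ := C4.fam h c
  obtain ⟨φ, hφ, e⟩ := C4.divm (π.comp (Ev π).subtype) (ρ.comp (Ev π).subtype) s
    (fun j g x => (h1 j g x).trans (by
      rw [sg, show Perm.sign (π g) = 1 from g.2]; simp)) h2 h3
  refine ⟨φ, hφ, fun g => ?_⟩
  rw [co_cyc_eq_fixedBy]
  refine (e g).trans ?_
  rw [Fintype.card_option, Fintype.card_sum, Fintype.card_subtype]

end CF.Nf
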