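import Cfsg.Agent.Nf.C4
import Cfsg.Agent.Nf.C2
import Cfsg.Agent.Char.Orth

/-! The spin characters. -/

set_option autoImplicit false

namespace CF.Nf

open Cfsg Equiv Finset Block.Sn Char
open scoped ComplexConjugate

variable {p : ℕ} {α : Type*} [Fintype α] [DecidableEq α] {Γ ι : Type*} [Group Γ] [Fintype ι] [DecidableEq ι]
  {π : Γ →* Perm α} {z : Γ} {ρ : Γ →* Matrix ι ι ℂ} {γ : α ⊕ Option α → Matrix ι ι ℂ}

namespace C5

theorem char_tr (ρ : Γ →* Matrix ι ι ℂ) : IsCharacter Γ fun g => (ρ g).trace := by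
  convert isCharacter_character (V := ι → ℂ) ((Matrix.toLinAlgEquiv' (R := ℂ) (n := ι)).toMonoidHom.comp ρ) using 2 with g
  exact (Matrix.trace_toLin'_eq _).symm

variable [Finite Γ] (h : Cl π z ρ γ)
include h

theorem nsq (g : Γ) : (ρ g).trace * conj (ρ g).trace =
    if Odd (orderOf (π g)) then 2 ^ (Fintype.card α + (π g).partition.parts.card) else 0 :=
  (congrArg _ (char_inv (char_tr ρ) g).symm).trans (h.tr g)

theorem tr_zero {g : Γ} (e : ¬ Odd (orderOf (π g))) : (ρ g).trace = 0 := by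
  simpa [e] using nsq h g

theorem card_eq : Nat.card Γ = Nat.card π.ker * (Fintype.card α).factorial := by
  rw [← π.ker.card_mul_index, Subgroup.index_ker, MonoidHom.range_eq_top.2 h.surj, Subgroup.card_top, Nat.card_perm,
    Nat.card_eq_fintype_card (α := α)]

theorem nrm [Fintype Γ] {l : ℕ} {Y : Perm α → ℚ} (hY : Sp p l Y) :
    ∑ g, ‖(ρ g).trace * Y (π g)‖ ^ 2 ≤ Nat.card Γ * 2 ^ (Fintype.card α + l) := by
  have e : ((∑ g, ‖(ρ g).trace * Y (π g)‖ ^ 2 : ℝ) : ℂ) = ((Nat.card π.ker * 2 ^ Fintype.card α *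
      ∑ σ : Perm α with Odd (orderOf σ), (2 : ℚ) ^ σ.partition.parts.card * Y σ ^ 2 : ℚ) : ℝ) := by
    have := sum_comp_surjective π h.surj fun σ =>
      (if Odd (orderOf σ) then 2 ^ (Fintype.card α + σ.partition.parts.card) else 0) * (Y σ : ℂ) ^ 2
    simp only [sum_filter]
    push_cast
    rw [mul_assoc, mul_sum]
    refine (sum_congr rfl fun g _ => ?_).trans (this.trans (congrArg _ (sum_congr rfl fun σ _ => ?_)))
    · rw [← nsq h, ← Complex.mul_conj', map_mul, map_ratCast]; ring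
    · split_ifs <;> simp [pow_add, mul_assoc]
  rw [Complex.ofReal_injective e, card_eq h]
  exact_mod_cast (mul_le_mul_of_nonneg_left hY.bes (by positivity)).trans_eq (by push_cast; ring)

theorem irr {l : ℕ} {Y : Perm α → ℚ} (hY : Sp p l Y) {K : Type*} [Group K] (j : K →* Γ) (hj : Function.Injective j)
    {m : ℕ} (hm : Nat.card Γ * 2 ^ (Fintype.card α + l) = Nat.card K * (2 ^ m) ^ 2) (e : (Fin l → ℕ) → ℕ)
    (he : ∀ c, m ≤ #{k | c k = 0} + e c) (d : ∀ c : Fin l → ℕ, ∃ φ, IsCharacter K φ ∧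
      ∀ g, (ρ (j g)).trace * co c (cyc X (π (j g))) = 2 ^ e c * φ g) :
    ∃ χ : IrrCharacter K, ∀ g, (ρ (j g)).trace * Y (π (j g)) = 2 ^ m * (χ : K → ℂ) g := by
  classical
  have := Finite.of_injective j hj
  have := Fintype.ofFinite K
  have := Fintype.ofFinite Γ
  obtain ⟨f, f1, f2⟩ := hY.col
  choose φ φ1 φ2 using d
  choose k hk using fun c : Fin l → ℕ => (pow_dvd_pow (2 : ℤ) (he c)).trans (pow_add (2 : ℤ) _ _ ▸ mul_dvd_mul_right (f1 c) _)
  have gen := gen_sum (piAntidiag univ (Fintype.card α)) fun c _ => gen_intCast_smul (gen_of_char (φ1 c)) (k c)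
  generalize hψ : ∑ c ∈ piAntidiag univ (Fintype.card α), (k c : ℂ) • φ c = ψ at gen
  have v : ∀ g, (ρ (j g)).trace * Y (π (j g)) = 2 ^ m * ψ g := fun g => by
    rw [← hψ, Finset.sum_apply, mul_sum, show (ρ (j g)).trace * Y (π (j g)) = (ρ (j g)).trace * ∑ c ∈ piAntidiag univ
      (Fintype.card α), (f c : ℂ) * co c (cyc X (π (j g))) by
        by_cases o : Odd (orderOf (π (j g)))
        exacts [by rw [f2 _ o], by simp [tr_zero h o]], mul_sum]
    refine sum_congr rfl fun c _ => ?_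
    have : (f c : ℂ) * 2 ^ e c = 2 ^ m * k c := by exact_mod_cast hk c
    rw [mul_left_comm, φ2, ← mul_assoc, this, mul_assoc]; rfl
  obtain ⟨a, a0, a1, -⟩ := hY.val
  have p1 : 0 < (ψ 1).re := by
    have := v 1
    simp only [map_one, a1, Matrix.trace_one, h.card] at this
    rw [show ψ 1 = ((2 ^ Fintype.card α * a / 2 ^ m : ℝ) : ℂ) by push_cast at this ⊢; rw [this]; field_simp, Complex.ofReal_re]
    positivity
  refine ⟨⟨ψ, irr_of_gen_of_inner_self gen ?_ p1⟩, v⟩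
  obtain ⟨n, hn⟩ := inner_gen_eq_int gen gen
  have n0 : n ≠ 0 := fun e => by
    rw [e, Int.cast_zero, Char.inner_self_eq_zero] at hn
    simp [hn] at p1
  have n1 := inner_self_re_nonneg ψ
  have n2 : (classInner ψ ψ).re ≤ 1 := by
    rw [inner_self_re, inv_mul_le_iff₀ (by exact_mod_cast Nat.card_pos), mul_one]
    refine le_of_mul_le_mul_right (a := (2 ^ m) ^ 2) ?_ (by positivity)
    rw [sum_mul, show (Nat.card K : ℝ) * (2 ^ m) ^ 2 = Nat.card Γ * 2 ^ (Fintype.card α + l) by exact_mod_cast hm.symm]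
    refine le_trans ?_ (nrm h hY)
    rw [sum_congr rfl (g := fun g => ‖(ρ (j g)).trace * Y (π (j g))‖ ^ 2) fun g _ => by simp [v, mul_pow, mul_comm]]
    exact (sum_map univ ⟨j, hj⟩ fun g => ‖(ρ g).trace * Y (π g)‖ ^ 2).symm.trans_le
      (sum_le_univ_sum_of_nonneg fun _ => by positivity)
  rw [hn] at n1 n2 ⊢
  exact_mod_cast (show n = 1 by norm_cast at n1 n2; omega)

omit [Finite Γ] in
theorem card_Ev [Nontrivial α] : Nat.card Γ = Nat.card (Ev π) * 2 := by
  rw [← (Ev π).card_mul_index, Subgroup.index_comap_of_surjective _ h.surj, alternatingGroup.index_eq_two]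

end C5

theorem Cl.irr0 [Finite Γ] (h : Cl π z ρ γ) {l : ℕ} {Y : Perm α → ℚ} (hY : Sp p l Y)
    (he : Even (Fintype.card α + l)) : ∃ (χ : IrrCharacter Γ) (k : ℕ), ∀ g,
      (ρ g).trace * Y (π g) = 2 ^ k * (χ : Γ → ℂ) g := by
  obtain ⟨m, hm⟩ := he
  refine (C5.irr h hY (.id Γ) (fun _ _ => id) (m := m) (by rw [hm]; ring) _ (fun c => ?_) h.div0).imp fun _ e => ⟨_, e⟩
  have := card_filter_add_card_filter_not (s := univ) fun k => c k = 0
  simp only [card_univ, Fintype.card_fin, ne_eq] at this ⊢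
  omega

theorem Cl.irr1 [Finite Γ] [Nontrivial α] (h : Cl π z ρ γ) {l : ℕ} {Y : Perm α → ℚ} (hY : Sp p l Y)
    (he : Odd (Fintype.card α + l)) : ∃ (χ : IrrCharacter (Ev π)) (k : ℕ), ∀ g : Ev π,
      (ρ g).trace * Y (π g) = 2 ^ k * (χ : Ev π → ℂ) g := by
  obtain ⟨m, hm⟩ := he
  refine (C5.irr h hY (Ev π).subtype Subtype.val_injective (m := m + 1) (by rw [hm, C5.card_Ev h]; ring) _ (fun c => ?_)
    h.div1).imp fun _ e => ⟨_, e⟩
  have := card_filter_add_card_filter_not (s := univ) fun k => c k = 0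
  simp only [card_univ, Fintype.card_fin, ne_eq] at this ⊢
  omega

end CF.Nf
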