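import Cfsg.Agent.Nf.F1

/-! S4578, piece F2: Gram matrix of the vectors `U μ`, Bessel inequality, completeness. -/

set_option autoImplicit false

namespace CF.Nf

open Cfsg Equiv Finset

namespace F2

theorem Hn_odd {r : ℕ} (hr : Odd r) : Hn r = H (-(r : ℤ)) := if_pos hr

theorem oddZ {r : ℕ} (hr : Odd r) : Odd (r : ℤ) := by exact_mod_cast hr

theorem H_U {r : ℕ} (hr : Odd r) (ν : Multiset ℕ) (hν : ∀ s ∈ ν, Odd s) :
    H r (U ν) = ((ν.count r : ℚ) * r / 2) • U (ν.erase r) := by
  induction ν using Multiset.induction_on with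
  | empty =>
    rw [U_zero, H_vac_pos (by exact_mod_cast hr.pos)]; simp
  | cons s ν ih =>
    have hs : Odd s := hν s (Multiset.mem_cons_self _ _)
    have ih := ih fun t ht => hν t (Multiset.mem_cons_of_mem ht)
    have h := H_H (oddZ hr) (oddZ hs).neg (U ν)
    rw [U_cons, Hn_odd hs, eq_add_of_sub_eq h, ih, map_smul, ← Hn_odd hs, ← U_cons]
    by_cases e : s = r
    · subst e
      rw [if_pos (by ring), Multiset.erase_cons_head, Multiset.count_cons_self]
      by_cases hm : s ∈ ν
      · rw [Multiset.cons_erase hm, ← add_smul]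
        congr 1; push_cast; ring
      · rw [Multiset.count_eq_zero.2 hm]; simp
    · rw [if_neg (by omega), Multiset.erase_cons_tail _ e, Multiset.count_cons_of_ne (Ne.symm e)]
      simp

theorem fm_vac (v : Fk) : fm vac v = v ∅ := by
  rw [vac, fm_single]; simp

/-- product of the factorials of the multiplicities -/
def W (μ : Multiset ℕ) : ℕ := ∏ n ∈ μ.toFinset, (μ.count n).factorial

theorem W_cons (r : ℕ) (μ : Multiset ℕ) : W (r ::ₘ μ) = (μ.count r + 1) * W μ := by
  have h : W μ = ∏ n ∈ insert r μ.toFinset, (μ.count n).factorial := by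
    refine Finset.prod_subset (subset_insert _ _) fun n _ hn => ?_
    rw [Multiset.count_eq_zero.2 (by simpa using hn)]; rfl
  rw [h, W, Multiset.toFinset_cons, ← Finset.mul_prod_erase _ _ (mem_insert_self r _),
    ← Finset.mul_prod_erase _ (fun n => (μ.count n).factorial) (mem_insert_self r _),
    Multiset.count_cons_self, Nat.factorial_succ, mul_assoc]
  congr 2
  refine Finset.prod_congr rfl fun n hn => ?_
  rw [Multiset.count_cons_of_ne (mem_erase.1 hn).1]

theorem W_pos (μ : Multiset ℕ) : 0 < W μ := Finset.prod_pos fun _ _ => Nat.factorial_pos _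

theorem gram (μ : Multiset ℕ) (hμ : ∀ s ∈ μ, Odd s) : ∀ ν : Multiset ℕ, (∀ s ∈ ν, Odd s) →
    fm (U μ) (U ν) * 2 ^ μ.card = if μ = ν then ((μ.prod * W μ : ℕ) : ℚ) else 0 := by
  induction μ using Multiset.induction_on with
  | empty =>
    intro ν hν
    induction ν using Multiset.induction_on with
    | empty => rw [U_zero, fm_vac]; simp [vac, W]
    | cons s ν _ =>
      have hs : Odd s := hν s (Multiset.mem_cons_self _ _)
      rw [fm_comm, fm_U_cons hs, U_zero, H_vac_pos (by exact_mod_cast hs.pos),
        if_neg (Multiset.cons_ne_zero).symm]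
      simp
  | cons r μ ih =>
    intro ν hν
    have hr : Odd r := hμ r (Multiset.mem_cons_self _ _)
    have ih := ih (fun t ht => hμ t (Multiset.mem_cons_of_mem ht)) (ν.erase r)
      fun t ht => hν t (Multiset.mem_of_mem_erase ht)
    rw [fm_U_cons hr, H_U hr ν hν, map_smul, smul_eq_mul, Multiset.card_cons, pow_succ,
      show ∀ a b c : ℚ, a / 2 * b * (c * 2) = a * (b * c) from fun a b c => by ring, ih]
    by_cases e : r ::ₘ μ = ν
    · subst e
      rw [Multiset.erase_cons_head, if_pos rfl, if_pos rfl, W_cons, Multiset.count_cons_self,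
        Multiset.prod_cons]
      push_cast; ring
    · rw [if_neg e]
      by_cases hm : r ∈ ν
      · rw [if_neg, mul_zero]
        rintro rfl
        exact e (Multiset.cons_erase hm)
      · rw [Multiset.count_eq_zero.2 hm]; simp

theorem W_add_rep (μ : Multiset ℕ) (h : 1 ∉ μ) (k : ℕ) :
    W (μ + Multiset.replicate k 1) = k.factorial * W μ := by
  induction k with
  | zero => simp
  | succ k ih =>
    rw [Multiset.replicate_succ, Multiset.add_cons, W_cons, ih, Multiset.count_add,
      Multiset.count_eq_zero.2 h, Multiset.count_replicate_self, Nat.factorial_succ]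
    ring

variable {α : Type*} [Fintype α] [DecidableEq α]

theorem card_class (σ : Perm α) :
    #{τ : Perm α | σ.partition.parts = τ.partition.parts} *
      (σ.partition.parts.prod * W σ.partition.parts) = (Fintype.card α).factorial := by
  classical
  rw [← Perm.card_isConj_mul_eq σ]
  congr 1
  · rw [Nat.card_eq_fintype_card, Fintype.card_subtype]
    congr 1
    ext τ
    simp only [mem_filter, mem_univ, true_and, Set.mem_ofPred_eq, Perm.partition_eq_of_isConj,
      Nat.Partition.ext_iff]
  · rw [Perm.parts_partition, W_add_rep _ (fun h => by simpa using Perm.two_le_of_mem_cycleType h),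
      Multiset.prod_add, Multiset.prod_replicate, one_pow, mul_one, Perm.sum_cycleType]
    unfold W
    ring

end F2

open F2

variable {α : Type*} [Fintype α] [DecidableEq α]

theorem odd_iff (σ : Perm α) : Odd (orderOf σ) ↔ ∀ r ∈ σ.partition.parts, Odd r := by
  rw [Perm.parts_partition]
  constructor
  · intro h r hr
    rcases Multiset.mem_add.1 hr with hr | hr
    · exact h.of_dvd_nat (Perm.dvd_of_mem_cycleType hr)
    · rw [Multiset.eq_of_mem_replicate hr]; exact odd_one
  · intro h
    have h1 : orderOf σ ∣ σ.cycleType.prod := by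
      rw [← Perm.lcm_cycleType]
      exact Multiset.lcm_dvd.2 fun b hb => Multiset.dvd_prod hb
    refine Odd.of_dvd_nat ?_ h1
    exact Multiset.prod_induction _ _ (fun a b => Odd.mul) odd_one
      fun a ha => h a (Multiset.mem_add.2 (Or.inl ha))

theorem F2.sum_gram {τ : Perm α} (hτ : Odd (orderOf τ)) (F : Multiset ℕ → ℚ) :
    (∑ σ : Perm α with Odd (orderOf σ),
      F σ.partition.parts * fm (U τ.partition.parts) (U σ.partition.parts)) *
        2 ^ τ.partition.parts.card = F τ.partition.parts * (Fintype.card α).factorial := by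
  classical
  rw [Finset.sum_mul, ← card_class τ]
  rw [Finset.sum_congr rfl (g := fun σ => if τ.partition.parts = σ.partition.parts then
    F τ.partition.parts * ((τ.partition.parts.prod * W τ.partition.parts : ℕ) : ℚ) else 0)]
  · rw [← Finset.sum_filter, Finset.sum_const, Finset.filter_filter, nsmul_eq_mul]
    have : univ.filter (fun σ : Perm α => Odd (orderOf σ) ∧ τ.partition.parts = σ.partition.parts) =
        univ.filter (fun σ : Perm α => τ.partition.parts = σ.partition.parts) := by
      ext σ
      simp only [mem_filter, mem_univ, true_and, and_iff_right_iff_imp]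
      intro h
      rw [odd_iff, ← h, ← odd_iff]; exact hτ
    rw [this]
    push_cast; ring
  · intro σ hσ
    rw [mul_assoc, gram _ ((odd_iff τ).1 hτ) _ ((odd_iff σ).1 (mem_filter.1 hσ).2)]
    split_ifs with h
    · rw [h]
    · rw [mul_zero]

theorem bessel (S : Finset ℕ) :
    ∑ σ : Perm α with Odd (orderOf σ), (2 : ℚ) ^ σ.partition.parts.card * XS S σ ^ 2 ≤
      (Fintype.card α).factorial * 2 ^ #S := by
  set N : ℚ := ((Fintype.card α).factorial : ℚ) with hN
  have N0 : 0 < N := by rw [hN]; exact_mod_cast Nat.factorial_pos _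
  set v : Fk := Finsupp.single S 1 with hv
  let F : Multiset ℕ → ℚ := fun μ => 2 ^ μ.card * fm (U μ) v
  set w : Fk := ∑ σ : Perm α with Odd (orderOf σ), F σ.partition.parts • U σ.partition.parts with hw
  set A := ∑ σ : Perm α with Odd (orderOf σ), (2 : ℚ) ^ σ.partition.parts.card * XS S σ ^ 2 with hA
  have h0 : ∀ x, fm w x = ∑ σ : Perm α with Odd (orderOf σ),
      F σ.partition.parts * fm (U σ.partition.parts) x := fun x => by
    rw [hw, map_sum, LinearMap.sum_apply]
    refine Finset.sum_congr rfl fun σ _ => ?_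
    rw [map_smul, LinearMap.smul_apply, smul_eq_mul]
  have h1 : fm w v = A := by
    rw [h0]
    refine Finset.sum_congr rfl fun σ _ => ?_
    simp only [F, XS, ← hv]; ring
  have h2 : fm w w = N * A := by
    rw [h0, hA, Finset.mul_sum]
    refine Finset.sum_congr rfl fun τ hτ => ?_
    have h := F2.sum_gram (mem_filter.1 hτ).2 F
    have h' : fm (U τ.partition.parts) w = fm (U τ.partition.parts) v * N := by
      have p2 : (2 : ℚ) ^ τ.partition.parts.card ≠ 0 := by positivity
      apply mul_right_cancel₀ p2
      rw [hw, map_sum]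
      simp only [map_smul, smul_eq_mul]
      rw [h]; simp only [F]; ring
    rw [h']
    simp only [F, XS, ← hv]; ring
  have h3 : fm v v = 2 ^ #S := by rw [hv, fm_single]; simp
  have h4 := fm_self_nonneg (N • v - w)
  simp only [map_sub, map_smul, LinearMap.sub_apply, LinearMap.smul_apply, smul_eq_mul] at h4
  rw [fm_comm v w, h1, h2, h3] at h4
  nlinarith

namespace F2

/-- the homogeneous component of degree `k` -/
def Hom (k : ℤ) : Submodule ℚ Fk := Finsupp.supported ℚ ℚ {S | (sz S : ℤ) = k}

theorem single_mem {k : ℤ} {S : Finset ℕ} (h : (sz S : ℤ) = k) (c : ℚ) :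
    Finsupp.single S c ∈ Hom k := Finsupp.single_mem_supported ℚ c h

theorem map_mem {k m : ℤ} (f : Fk →ₗ[ℚ] Fk)
    (h : ∀ S, (sz S : ℤ) = k → f (Finsupp.single S 1) ∈ Hom m) {v : Fk} (hv : v ∈ Hom k) :
    f v ∈ Hom m := by
  rw [← Finsupp.sum_single v, Finsupp.sum, map_sum]
  refine Submodule.sum_mem _ fun S hS => ?_
  rw [← mul_one (v S), ← smul_eq_mul, ← Finsupp.smul_single, map_smul]
  exact Submodule.smul_mem _ _ (h S (hv hS))

theorem ph_mem {k : ℤ} (a : ℤ) {v : Fk} (hv : v ∈ Hom k) : ph a v ∈ Hom (a + k) := by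
  refine map_mem _ (fun S hS => ?_) hv
  rw [ph_single, one_smul]
  rcases a with (_ | j) | j
  · exact single_mem (by simpa using hS) _
  · simp only [phS]
    split_ifs with h
    · exact zero_mem _
    · refine single_mem ?_ _
      rw [← hS, sz, Finset.sum_insert h, sz]; simp
  · simp only [phS]
    split_ifs with h
    · refine single_mem ?_ _
      rw [← hS, sz, sz, ← Finset.add_sum_erase _ _ h, Int.negSucc_eq]; push_cast; ring
    · exact zero_mem _

theorem vac_mem : vac ∈ Hom 0 := single_mem (by simp [sz]) _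

theorem vl_mem (l : List ℤ) : vl l ∈ Hom l.sum := by
  induction l with
  | nil => exact vac_mem
  | cons a l ih => exact ph_mem a ih

theorem hl_mem (r : ℤ) (l : List ℤ) : hl r l ∈ Hom (l.sum - r) := by
  induction l with
  | nil =>
    refine Submodule.smul_mem _ _ (Submodule.sum_mem _ fun j _ => Submodule.smul_of_tower_mem _ _ ?_)
    have := ph_mem (-r - j) (ph_mem j vac_mem)
    convert this using 2
    simp
  | cons a l ih =>
    refine add_mem ?_ ?_
    · convert ph_mem a ih using 2
      simp [add_sub_assoc]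
    · convert ph_mem (a - r) (vl_mem l) using 2
      simp; ring

theorem sum_ls (S : Finset ℕ) : (ls S).sum = sz S := by
  induction S using Finset.induction_on_max with
  | empty => simp [ls, sz]
  | insert b S h ih =>
    rw [ls_insert h, List.sum_cons, ih, sz, sz, Finset.sum_insert fun hb => (h b hb).false]
    simp

theorem H_mem {k : ℤ} (r : ℤ) {v : Fk} (hv : v ∈ Hom k) : H r v ∈ Hom (k - r) := by
  refine map_mem _ (fun S hS => ?_) hv
  rw [H, Finsupp.linearCombination_single, one_smul, ← hS, ← sum_ls]
  exact hl_mem _ _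

theorem U_mem (μ : Multiset ℕ) : U μ ∈ Hom μ.sum := by
  induction μ using Multiset.induction_on with
  | empty => rw [U_zero]; exact vac_mem
  | cons r μ ih =>
    rw [U_cons, Hn]
    split_ifs
    · convert H_mem (-(r : ℤ)) ih using 2
      simp; ring
    · exact zero_mem _

theorem parts_one : (1 : Perm α).partition.parts = Multiset.replicate (Fintype.card α) 1 := by
  rw [Perm.parts_partition]; simp

end F2

theorem complete : ∃ (T : Finset (Finset ℕ)) (c : Finset ℕ → ℚ),
    (∀ S ∈ T, sz S = Fintype.card α) ∧
      ∀ σ : Perm α, Odd (orderOf σ) → ∑ S ∈ T, c S * XS S σ = if σ = 1 then 1 else 0 := by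
  set μ := (1 : Perm α).partition.parts with hμ
  have hodd : ∀ s ∈ μ, Odd s := (odd_iff _).1 (by simp)
  set Z : ℚ := ((μ.prod * W μ : ℕ) : ℚ) / 2 ^ μ.card with hZ
  have Z0 : Z ≠ 0 := by
    have : 0 < μ.prod := Multiset.prod_pos fun a ha => (hodd a ha).pos
    have := W_pos μ
    positivity
  refine ⟨(U μ).support, fun S => U μ S / Z, fun S hS => ?_, fun σ hσ => ?_⟩
  · have := U_mem μ hS
    rw [hμ, Nat.Partition.parts_sum] at this
    exact_mod_cast this
  · have h : ∑ S ∈ (U μ).support, U μ S / Z * XS S σ = fm (U μ) (U σ.partition.parts) / Z := by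
      conv_rhs => rw [fm_comm, ← Finsupp.sum_single (U μ), Finsupp.sum, map_sum, Finset.sum_div]
      refine Finset.sum_congr rfl fun S _ => ?_
      rw [show Finsupp.single S (U μ S) = U μ S • Finsupp.single S (1 : ℚ) by simp, map_smul, XS,
        smul_eq_mul]
      ring
    have h2 := gram μ hodd _ ((odd_iff σ).1 hσ)
    have p2 : (2 : ℚ) ^ μ.card ≠ 0 := by positivity
    rw [h, eq_div_of_mul_eq p2 h2]
    by_cases e : σ = 1
    · rw [if_pos e, if_pos (by rw [e]), div_self Z0]
    · rw [if_neg e, if_neg]
      · simp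
      · intro h3
        exact e (isConj_one_right.1 (Perm.partition_eq_of_isConj.2 (Nat.Partition.ext h3)))

end CF.Nf
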