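import Cfsg.Agent.Nf.F2

/-! S4578, piece F3: the spin functions as combinations of colouring numbers. -/

set_option autoImplicit false

namespace CF.Nf

open Cfsg Equiv Finset Block.Sn

namespace F3

universe u

theorem parts_congr {α : Type*} [Fintype α] [DecidableEq α] {q : α → Prop} [DecidablePred q]
    (σ : Perm {a // q a}) (τ : Perm {a // ¬ q a}) :
    (σ.subtypeCongr τ).partition.parts = σ.partition.parts + τ.partition.parts := by
  have h1 : σ.subtypeCongr τ = Perm.ofSubtype σ * Perm.ofSubtype τ := by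
    ext x
    by_cases hx : q x
    · rw [Perm.subtypeCongr.left_apply _ _ hx, Perm.mul_apply,
        Perm.ofSubtype_apply_of_not_mem τ (not_not.2 hx), Perm.ofSubtype_apply_of_mem σ hx]
    · rw [Perm.subtypeCongr.right_apply _ _ hx, Perm.mul_apply, Perm.ofSubtype_apply_of_mem τ hx,
        Perm.ofSubtype_apply_of_not_mem σ (τ ⟨x, hx⟩).2]
  have h2 : (Perm.ofSubtype σ).Disjoint (Perm.ofSubtype τ) := fun x => by
    by_cases hx : q x
    · exact Or.inr (Perm.ofSubtype_apply_of_not_mem τ (not_not.2 hx))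
    · exact Or.inl (Perm.ofSubtype_apply_of_not_mem σ hx)
  have h3 : (σ.subtypeCongr τ).cycleType = σ.cycleType + τ.cycleType := by
    rw [h1, h2.cycleType_mul, Perm.cycleType_ofSubtype, Perm.cycleType_ofSubtype]
  have h4 := σ.sum_cycleType_le
  have h5 := τ.sum_cycleType_le
  have h6 : Fintype.card α = Fintype.card {a // q a} + Fintype.card {a // ¬ q a} := by
    rw [Fintype.card_subtype_compl, Nat.add_sub_cancel' (Fintype.card_subtype_le _)]
  simp only [Perm.parts_partition, ← Perm.sum_cycleType]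
  rw [h3, Multiset.sum_add, show Fintype.card α - (σ.cycleType.sum + τ.cycleType.sum) =
    (Fintype.card {a // q a} - σ.cycleType.sum) + (Fintype.card {a // ¬ q a} - τ.cycleType.sum) by
      omega, Multiset.replicate_add]
  abel

theorem parts_trans {α : Type*} [Fintype α] [DecidableEq α] [Nonempty α] {σ : Perm α}
    (h : ∀ a b, σ.SameCycle a b) : σ.partition.parts = {Fintype.card α} := by
  by_cases e : σ = 1
  · subst e
    obtain ⟨a⟩ := ‹Nonempty α›
    have : Fintype.card α = 1 := Fintype.card_eq_one_iff.2 ⟨a, fun b => by simpa using h b a⟩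
    rw [F2.parts_one, this]; rfl
  · obtain ⟨a, ha⟩ : ∃ a, σ a ≠ a := by
      by_contra! h; exact e (Equiv.ext h)
    have hc : σ.IsCycle := ⟨a, ha, fun b _ => h a b⟩
    have hs : σ.support = univ := by
      refine eq_univ_of_forall fun b => ?_
      exact (h a b).mem_support_iff.1 (Perm.mem_support.2 ha)
    rw [Perm.parts_partition, hc.cycleType, hs, card_univ]; simp

theorem cyc_eq {R J : Type*} [CommRing R] [Fintype J] (z : J → R) (n : ℕ) :
    ∀ (α : Type u) [Fintype α] [DecidableEq α] (σ : Perm α), Fintype.card α = n →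
      cyc z σ = (σ.partition.parts.map (ps z)).prod := by
  induction n using Nat.strong_induction_on with
  | _ n ih =>
  intro α _ _ σ hn
  classical
  rcases isEmpty_or_nonempty α with h | ⟨⟨a⟩⟩
  · rw [cyc_of_isEmpty, Subsingleton.elim σ 1, F2.parts_one]; simp
  have h1 : ∀ x, σ.SameCycle a (σ x) ↔ σ.SameCycle a x := fun x => Perm.sameCycle_apply_right
  have h2 : σ = (σ.subtypePerm h1).subtypeCongr (σ.subtypePerm fun x => (h1 x).not) := by
    ext x
    by_cases hx : σ.SameCycle a x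
    · rw [Perm.subtypeCongr.left_apply _ _ hx]; rfl
    · rw [Perm.subtypeCongr.right_apply _ _ hx]; rfl
  have : Nonempty {x // σ.SameCycle a x} := ⟨⟨a, Perm.SameCycle.rfl⟩⟩
  have h3 : ∀ x y, (σ.subtypePerm h1).SameCycle x y := by
    rintro ⟨x, hx⟩ ⟨y, hy⟩
    obtain ⟨n, hn⟩ := hx.symm.trans hy
    exact ⟨n, by rw [Perm.subtypePerm_zpow]; exact Subtype.ext hn⟩
  have h4 : Fintype.card {x // ¬ σ.SameCycle a x} < n :=
    hn ▸ Fintype.card_subtype_lt (x := a) (not_not.2 Perm.SameCycle.rfl)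
  rw [h2, cyc_subtypeCongr, parts_congr, parts_trans h3, cyc_of_trans z h3, ih _ h4 _ _ rfl]
  simp

/-- `φ (a 0) ⋯ φ (a (l - 1)) vac` -/
noncomputable def vf {l : ℕ} (a : Fin l → ℤ) : Fk := vl (List.ofFn a)

theorem vf_succ {l : ℕ} (a : Fin (l + 1) → ℤ) : vf a = ph (a 0) (vf fun i => a i.succ) := by
  rw [vf, List.ofFn_succ]; rfl

theorem H_vf {r : ℤ} (hr : Odd r) (h0 : 0 < r) {l : ℕ} (a : Fin l → ℤ) :
    H r (vf a) = ∑ i, vf (a - Pi.single i r) := by
  induction l with
  | zero => rw [vf, List.ofFn_zero, Finset.univ_eq_empty, Finset.sum_empty]; exact H_vac_pos h0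
  | succ l ih =>
    rw [vf_succ, H_ph hr, ih, map_sum, Fin.sum_univ_succ, add_comm, vf_succ (a - _)]
    congr 1
    · simp [Pi.single_apply, Fin.succ_ne_zero]
    · refine Finset.sum_congr rfl fun i _ => ?_
      rw [vf_succ (a - _)]
      congr 2
      · simp [Pi.single_apply, (Fin.succ_ne_zero i).symm]
      · ext j; simp [Pi.single_apply]

theorem fm_vf {l : ℕ} (μ : Multiset ℕ) (hμ : ∀ s ∈ μ, Odd s) : ∀ a : Fin l → ℤ,
    (fm (U μ) (vf a) : ℂ) = ∑ c ∈ piAntidiag univ μ.sum,
      (vf (a - fun k => (c k : ℤ)) ∅ : ℂ) * co c (μ.map (ps X)).prod := by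
  induction μ using Multiset.induction_on with
  | empty =>
    intro a
    rw [U_zero, F2.fm_vac, Multiset.sum_zero, piAntidiag_zero, sum_singleton, Multiset.map_zero,
      Multiset.prod_zero, ← mon_zero, co_mon, if_pos rfl, mul_one]
    congr 3
    ext; simp
  | cons r μ ih =>
    intro a
    have hr : Odd r := hμ r (Multiset.mem_cons_self _ _)
    have ih := ih fun t ht => hμ t (Multiset.mem_cons_of_mem ht)
    rw [fm_U_cons hr, H_vf (F2.oddZ hr) (by exact_mod_cast hr.pos), map_sum, Rat.cast_sum,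
      Multiset.map_cons, Multiset.prod_cons, Multiset.sum_cons]
    simp only [ih, co_ps_mul, Finset.mul_sum]
    rw [Finset.sum_comm (s := piAntidiag _ _)]
    refine Finset.sum_congr rfl fun i _ => ?_
    simp only [mul_ite, mul_zero]
    rw [← Finset.sum_filter]
    refine Finset.sum_bij' (fun c _ => up c i r) (fun c _ => dn c i r) ?_ ?_ ?_ ?_ ?_
    · intro c hc
      simp only [mem_piAntidiag, mem_univ, implies_true, and_true, mem_filter] at hc ⊢
      rw [sum_up, hc, up_self]; omega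
    · intro c hc
      simp only [mem_piAntidiag, mem_univ, implies_true, and_true, mem_filter] at hc ⊢
      have h1 := sum_dn hc.2
      have h2 : ∑ j, c j = r + μ.sum := hc.1
      change ∑ j, dn c i r j = _
      omega
    · intro c _; exact dn_up _ _ _
    · intro c hc; exact up_dn (mem_filter.1 hc).2
    · intro c _
      rw [dn_up]
      congr 4
      ext k
      by_cases e : k = i
      · subst e; simp; ring
      · simp [up_of_ne _ e, Pi.single_apply, e]

/-- the lattice condition -/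
def Lt (m : ℕ) (v : Fk) : Prop := ∀ T, ∃ z : ℤ, fm v (Finsupp.single T 1) = 2 ^ m * z

theorem Lt.single {m : ℕ} {v : Fk} (h : Lt m v) (T : Finset ℕ) (c : ℤ) :
    ∃ z : ℤ, fm v (Finsupp.single T (c : ℚ)) = 2 ^ m * (c * z) := by
  obtain ⟨z, hz⟩ := h T
  refine ⟨z, ?_⟩
  rw [show Finsupp.single T (c : ℚ) = (c : ℚ) • Finsupp.single T (1 : ℚ) by simp, map_smul, hz,
    smul_eq_mul]
  ring

theorem sn_int (j : ℕ) (T : Finset ℕ) : ∃ c : ℤ, sn j T = c := ⟨(-1) ^ #{s ∈ T | j < s}, by simp [sn]⟩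

theorem Lt.ph {m : ℕ} {v : Fk} (h : Lt m v) (a : ℤ) : Lt (m + if 0 < a then 1 else 0) (ph a v) := by
  intro T
  rw [fm_ph, ph_single, one_smul]
  generalize hb : -a = b
  suffices ∃ z : ℤ, fm v (phS b T) = 2 ^ (m + if 0 < a then 1 else 0) * z by
    obtain ⟨z, hz⟩ := this
    exact ⟨a.negOnePow * z, by rw [hz]; push_cast; ring⟩
  rcases b with (_ | j) | j
  · obtain ⟨z, hz⟩ := h.single T ((-1) ^ #T)
    rw [if_neg (by simp at hb; omega)]
    exact ⟨(-1) ^ #T * z, by push_cast at hz ⊢; exact hz⟩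
  · rw [if_neg (by simp at hb; omega)]
    simp only [phS]
    split_ifs
    · exact ⟨0, by simp⟩
    · obtain ⟨c, hc⟩ := sn_int j T
      obtain ⟨z, hz⟩ := h.single (insert j T) c
      exact ⟨c * z, by rw [hc, hz]; simp⟩
  · rw [if_pos (by omega)]
    simp only [phS]
    split_ifs
    · obtain ⟨c, hc⟩ := sn_int j T
      obtain ⟨z, hz⟩ := h.single (T.erase j) (2 * (-1) ^ (j + 1) * c)
      refine ⟨(-1) ^ (j + 1) * c * z, ?_⟩
      rw [hc]; push_cast at hz ⊢
      rw [hz]; ring
    · exact ⟨0, by simp⟩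

theorem Lt.mono {m k : ℕ} {v : Fk} (h : Lt m v) (hk : k ≤ m) : Lt k v := fun T => by
  obtain ⟨z, hz⟩ := h T
  obtain ⟨d, rfl⟩ := Nat.exists_eq_add_of_le hk
  exact ⟨2 ^ d * z, by rw [hz]; push_cast; ring⟩

theorem lt_vf {l : ℕ} (a : Fin l → ℤ) : Lt (∑ i, if 0 < a i then 1 else 0) (vf a) := by
  induction l with
  | zero =>
    intro T
    rw [vf, List.ofFn_zero]
    refine ⟨if T = ∅ then 1 else 0, ?_⟩
    change fm vac _ = _
    rw [F2.fm_vac, Finsupp.single_apply]
    split_ifs <;> simp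
  | succ l ih =>
    rw [vf_succ, Fin.sum_univ_succ, add_comm]
    exact (ih _).ph _

theorem ls_spec (S : Finset ℕ) : (ls S).length = #S ∧ ∀ x ∈ ls S, 0 < x := by
  induction S using Finset.induction_on_max with
  | empty => simp [ls]
  | insert b S h ih =>
    rw [ls_insert h, List.length_cons, ih.1, card_insert_of_notMem fun hb => (h b hb).false]
    refine ⟨rfl, fun x hx => ?_⟩
    rcases List.mem_cons.1 hx with rfl | hx
    · omega
    · exact ih.2 x hx

theorem exists_vec (S : Finset ℕ) : ∃ a : Fin #S → ℤ, vf a = Finsupp.single S 1 ∧ ∀ k, 0 < a k := by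
  obtain ⟨h1, h2⟩ := ls_spec S
  rw [← h1]
  exact ⟨(ls S).get, by rw [vf, List.ofFn_get, vl_ls], fun k => h2 _ (List.get_mem _ _)⟩

end F3

open F3

variable {α : Type*} [Fintype α] [DecidableEq α]

theorem colour (S : Finset ℕ) : ∃ f : (Fin #S → ℕ) → ℤ, (∀ c, (2 : ℤ) ^ #{k | c k = 0} ∣ f c) ∧
    ∀ σ : Perm α, Odd (orderOf σ) → (XS S σ : ℂ) = ∑ c ∈ piAntidiag univ (Fintype.card α),
      (f c : ℂ) * Block.Sn.co c (Block.Sn.cyc Block.Sn.X σ) := by
  obtain ⟨a, ha, h0⟩ := exists_vec S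
  have h : ∀ c : Fin #S → ℕ, ∃ z : ℤ,
      vf (a - fun k => (c k : ℤ)) ∅ = 2 ^ #{k | c k = 0} * z := fun c => by
    obtain ⟨z, hz⟩ := (lt_vf (a - fun k => (c k : ℤ))).mono (k := #{k | c k = 0}) (by
      rw [Finset.card_filter]
      refine Finset.sum_le_sum fun k _ => ?_
      split_ifs with h1 h2
      · rfl
      · exact absurd (by simpa [h1] using h0 k) h2
      · exact zero_le_one
      · rfl) ∅
    exact ⟨z, by rw [← hz, fm_comm]; exact (F2.fm_vac _).symm⟩
  choose z hz using h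
  refine ⟨fun c => 2 ^ #{k | c k = 0} * z c, fun c => dvd_mul_right _ _, fun σ hσ => ?_⟩
  rw [XS, ← ha, fm_vf _ ((odd_iff σ).1 hσ), Nat.Partition.parts_sum, cyc_eq _ _ α σ rfl]
  refine Finset.sum_congr rfl fun c _ => ?_
  rw [hz]; push_cast; rfl

end CF.Nf
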