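import Cfsg.Agent.Nf.F1
import Mathlib.LinearAlgebra.Lagrange

/-! The degree formula for the spin characters. -/

set_option autoImplicit false
set_option linter.unusedSectionVars false

namespace CF.Nf

open Cfsg Equiv Finset

namespace F4

open Polynomial in
theorem lagr {ι : Type*} [DecidableEq ι] (s : Finset ι) {a : ι → ℚ} (b : ι → ℚ) (h : Set.InjOn a s) :
    ∑ i ∈ s, (∏ j ∈ s, (a i - b j)) / ∏ j ∈ s.erase i, (a i - a j) = ∑ i ∈ s, (a i - b i) := by
  rcases s.eq_empty_or_nonempty with rfl | hs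
  · simp
  have m := fun f : ι → ℚ => monic_prod_X_sub_C f s
  have d : ∀ f : ι → ℚ, (∏ i ∈ s, (X - C (f i))).degree = ((#s : ℕ) : WithBot ℕ) := fun f => by
    rw [degree_eq_natDegree (m f).ne_zero, natDegree_finsetProd_X_sub_C_eq_card]
  have := Lagrange.coeff_eq_sum h (P := ∏ i ∈ s, (X - C (b i)) - ∏ i ∈ s, (X - C (a i)))
    (d b ▸ degree_sub_lt_left ((d b).trans (d a).symm) (m b).ne_zero ((m b).trans (m a).symm))
  rw [coeff_sub, prod_X_sub_C_coeff_card_pred _ _ hs.card_pos, prod_X_sub_C_coeff_card_pred _ _ hs.card_pos] at this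
  rw [sum_sub_distrib, show ∑ i ∈ s, a i - ∑ i ∈ s, b i = -∑ i ∈ s, b i - -∑ i ∈ s, a i by ring, this]
  refine sum_congr rfl fun i hi => ?_
  rw [eval_sub, eval_prod, eval_prod, prod_eq_zero hi (f := fun j => eval (a i) (X - C (a j))) (by simp)]
  simp

/-- lowering the part `j + 1` by one -/
def lo (S : Finset ℕ) (j : ℕ) : Finset ℕ := if j = 0 then S.erase j else insert (j - 1) (S.erase j)

theorem H_one (S : Finset ℕ) : H 1 (Finsupp.single S 1) =
    ∑ j ∈ S, if j = 0 ∨ j - 1 ∉ S then Finsupp.single (lo S j) 1 else 0 := by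
  induction S using Finset.induction_on_max with
  | empty => exact H_vac_pos one_pos
  | insert b S h ih =>
    have hb : b ∉ S := fun c => lt_irrefl _ (h b c)
    rw [← ph_max h, H_ph odd_one, ih, map_sum, sum_insert hb, add_comm, add_sub_cancel_right]
    congr 1
    · rw [lo, erase_insert hb]
      rcases b with _ | c
      · rw [eq_empty_of_forall_notMem fun s hs => Nat.not_lt_zero _ (h s hs)]
        simpa [vac] using ph_vac_zero
      · by_cases a : c ∈ S
        · rw [if_neg (by simp [a]), ph_single, one_smul]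
          exact if_pos a
        · rw [if_pos (by simp [a]), if_neg c.succ_ne_zero]
          exact ph_max fun s hs => lt_of_le_of_ne (Nat.le_of_lt_succ (h s hs)) (by rintro rfl; exact a hs)
    · refine sum_congr rfl fun j hj => ?_
      have a := h j hj
      have e : j - 1 ∈ insert b S ↔ j - 1 ∈ S := by rw [mem_insert, or_iff_right (by omega)]
      simp only [e]
      split_ifs
      · rw [ph_max, lo, lo, erase_insert_of_ne a.ne']
        · split_ifs
          · rfl
          · rw [insert_comm]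
        · intro s hs
          rw [lo] at hs
          split_ifs at hs
          · exact h s (mem_of_mem_erase hs)
          · exact (mem_insert.1 hs).elim (fun c => by omega) fun c => h s (mem_of_mem_erase c)
      · exact map_zero _

theorem sz_lo {S : Finset ℕ} {j : ℕ} (hj : j ∈ S) (h : j = 0 ∨ j - 1 ∉ S) : sz (lo S j) + 1 = sz S := by
  rw [sz, sz, ← add_sum_erase _ _ hj, lo]
  split_ifs with a
  · omega
  · rw [sum_insert fun c => h.resolve_left a (mem_of_mem_erase c)]
    omega

/-- the factor of a pair of parts `x`, `z + 1` -/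
def q (x z : ℕ) : ℚ := |(x : ℚ) - (z + 1)| / (x + (z + 1))

def w (x : ℕ) (T : Finset ℕ) : ℚ := (x.factorial : ℚ)⁻¹ * ∏ z ∈ T, q x z

/-- the inverse of `bar` -/
def R (S : Finset ℕ) : ℚ := ∏ b ∈ S, (((b + 1).factorial : ℚ)⁻¹ * ∏ z ∈ S, if z < b then q (b + 1) z else 1)

theorem R_insert {T : Finset ℕ} {j : ℕ} (h : j ∉ T) : R (insert j T) = R T * w (j + 1) T := by
  simp only [R, w, prod_insert h, lt_irrefl, if_false, one_mul, prod_mul_distrib]
  have : ∏ z ∈ T, q (j + 1) z = (∏ z ∈ T, if z < j then q (j + 1) z else 1) *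
      ∏ z ∈ T, if j < z then q (z + 1) j else 1 := by
    rw [← prod_mul_distrib]
    refine prod_congr rfl fun z hz => ?_
    rcases lt_or_gt_of_ne (show z ≠ j by rintro rfl; exact h hz) with a | a
    · rw [if_pos a, if_neg a.not_gt, mul_one]
    · rw [if_neg a.not_gt, if_pos a, one_mul, q, q, abs_sub_comm, Nat.cast_succ, Nat.cast_succ, add_comm ((j : ℚ) + 1)]
  rw [this]
  ring

theorem R_lo {S : Finset ℕ} {j : ℕ} :
    (if j = 0 ∨ j - 1 ∉ S then R (lo S j) else 0) = R (S.erase j) * w j (S.erase j) := by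
  rcases j with _ | c
  · have : ∀ z : ℕ, q 0 z = 1 := fun z => by
      rw [q, Nat.cast_zero, zero_sub, abs_neg, zero_add, abs_of_pos (by positivity), div_self (by positivity)]
    simp [lo, w, this]
  · by_cases a : c ∈ S
    · rw [if_neg (by simp [a]), w, prod_eq_zero (mem_erase.2 ⟨c.lt_succ_self.ne, a⟩) (by simp [q]), mul_zero, mul_zero]
    · rw [if_pos (by simp [a]), lo, if_neg c.succ_ne_zero]
      exact R_insert fun d => a (mem_of_mem_erase d)

theorem w_eq {T : Finset ℕ} {j : ℕ} (h : j ∉ T) : w j T = w (j + 1) T * ((j + 1) *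
    ((∏ z ∈ T, ((j : ℚ) * (j + 1) - (z + 1) * (z + 2))) / ∏ z ∈ T, ((j : ℚ) * (j + 1) - z * (z + 1)))) := by
  rw [w, w, ← prod_div_distrib, mul_mul_mul_comm, ← prod_mul_distrib]
  congr 1
  · rw [Nat.factorial_succ]
    push_cast
    field_simp
  refine prod_congr rfl fun z hz => ?_
  rw [q, q, show (j : ℚ) * (j + 1) - (z + 1) * (z + 2) = (j - (z + 1)) * (j + 1 + (z + 1)) by ring,
    show (j : ℚ) * (j + 1) - z * (z + 1) = (j - z) * (j + (z + 1)) by ring, Nat.cast_succ, add_sub_add_right_eq_sub]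
  have n : (j : ℚ) - z ≠ 0 := sub_ne_zero.2 fun c => h (by rwa [Nat.cast_injective c])
  rcases lt_or_gt_of_ne (show z ≠ j by rintro rfl; exact h hz) with a | a
  · have a1 : (z : ℚ) + 1 ≤ j := by exact_mod_cast a
    rw [abs_of_nonneg (by linarith), abs_of_nonneg (by linarith)]
    field_simp
  · have a1 : (j : ℚ) + 1 ≤ z := by exact_mod_cast a
    rw [abs_of_nonpos (by linarith), abs_of_nonpos (by linarith)]
    field_simp

theorem sum_R (S : Finset ℕ) : ∑ j ∈ S, (if j = 0 ∨ j - 1 ∉ S then R (lo S j) else 0) = sz S * R S := by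
  have := lagr S (a := fun j : ℕ => (j : ℚ) * (j + 1)) (fun z => ((z : ℚ) + 1) * (z + 2)) fun i _ j _ e => by
    have : (i - j : ℚ) * (i + j + 1) = 0 := by linear_combination e
    exact Nat.cast_injective (sub_eq_zero.1 ((mul_eq_zero.1 this).resolve_right (by positivity)))
  have e : ∑ j ∈ S, ((j : ℚ) + 1) * ((∏ z ∈ S.erase j, ((j : ℚ) * (j + 1) - (z + 1) * (z + 2))) /
      ∏ z ∈ S.erase j, ((j : ℚ) * (j + 1) - z * (z + 1))) = sz S := by
    apply mul_left_cancel₀ (show (-2 : ℚ) ≠ 0 by norm_num)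
    rw [sz, Nat.cast_sum, mul_sum, mul_sum]
    refine (sum_congr rfl fun j hj => ?_).trans (this.trans (sum_congr rfl fun j _ => by push_cast; ring))
    rw [← mul_prod_erase _ _ hj]
    ring
  rw [← e, sum_mul]
  refine sum_congr rfl fun j hj => ?_
  rw [R_lo, w_eq (notMem_erase j S), ← mul_assoc, ← R_insert (notMem_erase j S), insert_erase hj, mul_comm]

theorem R_bar (S : Finset ℕ) : R S * bar S = 1 := by
  rw [R, bar, Nat.cast_prod, ← prod_mul_distrib]
  refine prod_eq_one fun b _ => ?_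
  have h1 : ∏ m ∈ range b, (b - m) = b.factorial := by
    rw [← Nat.descFactorial_eq_prod_range, Nat.descFactorial_self]
  have h3 : range b ∩ S = {z ∈ S | z < b} := by ext; simp [and_comm]
  rw [← prod_inter_mul_prod_sdiff _ S, h3] at h1
  have h4 : (∏ z ∈ S with z < b, q (b + 1) z) * ((∏ z ∈ S with z < b, (b + z + 2) : ℕ) : ℚ) =
      ((∏ z ∈ S with z < b, (b - z) : ℕ) : ℚ) := by
    rw [Nat.cast_prod, Nat.cast_prod, ← prod_mul_distrib]
    refine prod_congr rfl fun z hz => ?_
    have a := (mem_filter.1 hz).2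
    have a1 : (z : ℚ) ≤ b := by exact_mod_cast a.le
    rw [q, Nat.cast_sub a.le, Nat.cast_succ, add_sub_add_right_eq_sub, abs_of_nonneg (by linarith)]
    push_cast
    field_simp
    ring
  rw [← prod_filter, Nat.cast_mul, mul_assoc, ← mul_assoc (∏ z ∈ S with z < b, q (b + 1) z), h4, ← Nat.cast_mul,
    mul_left_comm, h1, ← Nat.factorial_succ]
  exact inv_mul_cancel₀ (by positivity)

theorem deg : ∀ (n : ℕ) (S : Finset ℕ), sz S = n →
    ∃ g : ℕ, fm (U (Multiset.replicate n 1)) (Finsupp.single S 1) = g ∧ (g : ℚ) = n.factorial * R S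
  | 0, S, h => by
    obtain rfl : S = ∅ := eq_empty_of_forall_notMem fun s hs => by simpa using sum_eq_zero_iff.1 h s hs
    exact ⟨1, by rw [Multiset.replicate_zero, U_zero, vac, fm_single]; simp, by simp [R]⟩
  | n + 1, S, h => by
    have : ∀ j, ∃ g : ℕ, j ∈ S → fm (U (Multiset.replicate n 1))
        (if j = 0 ∨ j - 1 ∉ S then Finsupp.single (lo S j) 1 else 0) = g ∧
          (g : ℚ) = n.factorial * if j = 0 ∨ j - 1 ∉ S then R (lo S j) else 0 := fun j => by
      split_ifs with a
      · by_cases b : j ∈ S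
        · exact (deg n _ (by have := sz_lo b a; omega)).imp fun g c _ => c
        · exact ⟨0, fun c => (b c).elim⟩
      · exact ⟨0, fun _ => by simp⟩
    choose g hg using this
    refine ⟨∑ j ∈ S, g j, ?_, ?_⟩
    · rw [Multiset.replicate_succ, fm_U_cons odd_one, Nat.cast_one, H_one, map_sum, Nat.cast_sum]
      exact sum_congr rfl fun j hj => (hg j hj).1
    · rw [Nat.cast_sum, sum_congr rfl fun j hj => (hg j hj).2, ← mul_sum, sum_R, h, Nat.factorial_succ]
      push_cast
      ring

end F4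

theorem degree (S : Finset ℕ) : ∃ g : ℕ,
    fm (U (Multiset.replicate (sz S) 1)) (Finsupp.single S 1) = g ∧ g * bar S = (sz S).factorial := by
  obtain ⟨g, a, b⟩ := F4.deg _ S rfl
  refine ⟨g, a, Nat.cast_injective (R := ℚ) ?_⟩
  rw [Nat.cast_mul, b, mul_assoc, F4.R_bar, mul_one]

end CF.Nf
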