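import Cfsg.Agent.Nf.F1

/-! Bar weights: `p`-divisible bosons lower the `p`-bar weight. -/

set_option autoImplicit false
set_option linter.unusedSectionVars false

namespace CF.Nf

open Cfsg Equiv Finset

namespace F5

variable {p : ℕ}

/-- the charge of one part -/
def e (a x : ZMod p) : ℤ := (if a = x then 1 else 0) - (if a = -x then 1 else 0)

theorem e_comm (a x : ZMod p) : e a x = e x a := by
  simp only [e, eq_comm (a := a) (b := x), eq_neg_iff_add_eq_zero, add_comm a]

theorem e_neg (a x : ZMod p) : e (-a) x = -e a x := by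
  simp only [e, neg_eq_iff_eq_neg (a := a), neg_neg, neg_sub]

theorem e_zero (x : ZMod p) : e 0 x = 0 := by
  have := e_neg 0 x
  rw [neg_zero] at this
  omega

/-- the charge -/
def ch (p : ℕ) (T : Finset ℕ) (x : ZMod p) : ℤ := ∑ z ∈ T, e ((z + 1 : ℕ) : ZMod p) x

/-- the bar weight -/
def V (p : ℕ) (T : Finset ℕ) : ℤ :=
  ∑ b ∈ T, ((((b + 1) / p : ℕ) : ℤ) - ∑ z ∈ T, if z < b then e ((z + 1 : ℕ) : ZMod p) (b + 1 : ℕ) else 0)

theorem V_insert {T : Finset ℕ} {j : ℕ} (h : j ∉ T) :
    V p (insert j T) = V p T + ((j + 1) / p : ℕ) - ch p T (j + 1 : ℕ) := by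
  simp only [V, ch, sum_insert h, lt_irrefl, if_false, zero_add, sum_sub_distrib, sum_add_distrib]
  have : ∑ z ∈ T, e ((z + 1 : ℕ) : ZMod p) (j + 1 : ℕ) =
      (∑ z ∈ T, if z < j then e ((z + 1 : ℕ) : ZMod p) (j + 1 : ℕ) else 0) +
        ∑ z ∈ T, if j < z then e ((j + 1 : ℕ) : ZMod p) (z + 1 : ℕ) else 0 := by
    rw [← sum_add_distrib]
    refine sum_congr rfl fun z hz => ?_
    rcases lt_or_gt_of_ne (show z ≠ j by rintro rfl; exact h hz) with a | a
    · rw [if_pos a, if_neg a.not_gt, add_zero]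
    · rw [if_neg a.not_gt, if_pos a, zero_add, e_comm]
  rw [this]
  ring

theorem ch_insert {T : Finset ℕ} {j : ℕ} (h : j ∉ T) (x : ZMod p) :
    ch p (insert j T) x = ch p T x + e ((j + 1 : ℕ) : ZMod p) x := by
  rw [ch, sum_insert h, add_comm, ch]

theorem ch_neg (T : Finset ℕ) (x : ZMod p) : ch p T (-x) = -ch p T x := by
  simp only [ch, e_comm _ (-x), e_neg, e_comm x, sum_neg_distrib]

/-- vectors of fixed charge and weight -/
def W (p : ℕ) (c : ZMod p → ℤ) (v : ℤ) : Submodule ℚ Fk := Finsupp.supported ℚ ℚ {T | ch p T = c ∧ V p T = v}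

theorem single_mem {c : ZMod p → ℤ} {v : ℤ} {T : Finset ℕ} (h : ch p T = c) (h' : V p T = v) (t : ℚ) :
    Finsupp.single T t ∈ W p c v := Finsupp.single_mem_supported _ _ ⟨h, h'⟩

theorem map_mem {c c' : ZMod p → ℤ} {v v' : ℤ} {f : Fk →ₗ[ℚ] Fk}
    (h : ∀ T, ch p T = c → V p T = v → f (Finsupp.single T 1) ∈ W p c' v') {u : Fk} (hu : u ∈ W p c v) :
    f u ∈ W p c' v' := by
  rw [W, Finsupp.supported_eq_span_single] at hu
  refine (show _ ≤ (W p c' v').comap f from Submodule.span_le.2 ?_) hu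
  rintro _ ⟨T, hT, rfl⟩
  exact h T hT.1 hT.2

theorem ph_mem (hp : p.Prime) (h2 : p ≠ 2) {c : ZMod p → ℤ} {v : ℤ} (a : ℤ) {u : Fk} (hu : u ∈ W p c v) :
    ph a u ∈ W p (fun x => c x + e (a : ZMod p) x) (v + a / p - c a) := by
  refine map_mem ?_ hu
  rintro T rfl rfl
  rw [ph_single, one_smul]
  rcases a with (_ | j) | j
  · refine single_mem (funext fun x => ?_) ?_ _
    · simp [e_zero]
    · have := ch_neg (p := p) T 0
      rw [neg_zero] at this
      simp
      omega
  · rw [phS]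
    split_ifs with h
    · exact zero_mem _
    · exact single_mem (funext fun x => by rw [ch_insert h]; simp) (by rw [V_insert h]; simp) _
  · rw [phS]
    split_ifs with h
    swap
    · exact zero_mem _
    have h1 := fun x => ch_insert (p := p) (notMem_erase j T) x
    have h3 := V_insert (p := p) (notMem_erase j T)
    rw [insert_erase h] at h1 h3
    have ca : ((Int.negSucc j : ℤ) : ZMod p) = -((j + 1 : ℕ) : ZMod p) := by simp
    refine single_mem (funext fun x => by rw [h1, ca, e_neg]; ring) ?_ _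
    rw [ca, ch_neg, h1, h3]
    haveI := Fact.mk hp
    have : (Int.negSucc j) / (p : ℤ) + e ((j + 1 : ℕ) : ZMod p) (j + 1 : ℕ) = -((j + 1) / p : ℕ) := by
      rw [Int.negSucc_ediv _ (by exact_mod_cast hp.pos), e, if_pos rfl, Nat.succ_div]
      have : ((j + 1 : ℕ) : ZMod p) = -((j + 1 : ℕ) : ZMod p) ↔ p ∣ j + 1 := by
        rw [eq_neg_iff_add_eq_zero, ← two_mul, mul_eq_zero, ZMod.natCast_eq_zero_iff]
        refine or_iff_right fun c => h2 ?_
        exact (Nat.prime_dvd_prime_iff_eq hp Nat.prime_two).1 ((ZMod.natCast_eq_zero_iff 2 p).1 c)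
      simp only [this]
      change -((j : ℤ) / p + 1) + _ = _
      split_ifs <;> push_cast <;> ring
    omega

theorem H_mem (hp : p.Prime) (h2 : p ≠ 2) {k : ℤ} (hk : Odd (p * k)) (k0 : 0 < p * k) {c : ZMod p → ℤ} {v : ℤ}
    {u : Fk} (hu : u ∈ W p c v) : H (p * k) u ∈ W p c (v - k) := by
  refine map_mem ?_ hu
  rintro T rfl rfl
  clear hu
  induction T using Finset.induction_on_max with
  | empty => exact (show H _ vac ∈ _ by rw [H_vac_pos k0]; exact zero_mem _)
  | insert b S h ih =>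
    have hb : b ∉ S := fun c => lt_irrefl _ (h b c)
    have h1 := ph_mem hp h2 ((b : ℤ) + 1) ih
    have h3 := ph_mem hp h2 ((b : ℤ) + 1 - p * k) (single_mem (p := p) (T := S) rfl rfl 1)
    rw [← ph_max h, H_ph hk, V_insert hb, show ch p (insert b S) = _ from funext (ch_insert hb)]
    refine add_mem (by convert h1 using 2 <;> push_cast <;> ring) ?_
    rw [Int.sub_mul_ediv_left _ _ (by exact_mod_cast hp.ne_zero)] at h3
    convert h3 using 2
    · simp
    · simp; ring

theorem V_eq (hp : p.Prime) (S : Finset ℕ) : V p S = ((∑ b ∈ S, ((∑ z ∈ S with z < b, if p ∣ b + z + 2 then 1 else 0) +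
    ((if p ∣ b + 1 then 1 else 0) + ∑ m ∈ range b \ S, if p ∣ b - m then 1 else 0)) : ℕ) : ℤ) := by
  rw [V, Nat.cast_sum]
  refine sum_congr rfl fun b _ => ?_
  have h1 : ∑ m ∈ range b, (if p ∣ b - m then 1 else 0) = b / p := by
    rw [← Nat.card_multiples, card_filter, ← sum_range_reflect]
    refine sum_congr rfl fun m hm => ?_
    have := mem_range.1 hm
    rw [show b - (b - 1 - m) = m + 1 by omega]
  have h3 : range b ∩ S = {z ∈ S | z < b} := by ext; simp [and_comm]
  rw [← sum_inter_add_sum_sdiff _ S, h3] at h1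
  rw [← sum_filter, Nat.succ_div, ← h1]
  have h4 : ∑ z ∈ S with z < b, e ((z + 1 : ℕ) : ZMod p) (b + 1 : ℕ) =
      ((∑ z ∈ S with z < b, if p ∣ b - z then 1 else 0 : ℕ) : ℤ) -
        ((∑ z ∈ S with z < b, if p ∣ b + z + 2 then 1 else 0 : ℕ) : ℤ) := by
    rw [Nat.cast_sum, Nat.cast_sum, ← sum_sub_distrib]
    refine sum_congr rfl fun z hz => ?_
    have := (mem_filter.1 hz).2
    have a1 : ((z + 1 : ℕ) : ZMod p) = (b + 1 : ℕ) ↔ p ∣ b - z := by
      rw [ZMod.natCast_eq_natCast_iff, Nat.modEq_iff_dvd' (by omega), show b + 1 - (z + 1) = b - z by omega]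
    have a2 : ((z + 1 : ℕ) : ZMod p) = -((b + 1 : ℕ) : ZMod p) ↔ p ∣ b + z + 2 := by
      rw [eq_neg_iff_add_eq_zero, ← Nat.cast_add, ZMod.natCast_eq_zero_iff, show z + 1 + (b + 1) = b + z + 2 by omega]
    simp only [e, a1, a2, Nat.cast_ite, Nat.cast_one, Nat.cast_zero]
  rw [h4, Nat.cast_add, Nat.cast_add, Nat.cast_add, Nat.cast_add]
  ring

theorem ite_le (hp : p.Prime) {n : ℕ} (h : n ≠ 0) : (if p ∣ n then 1 else 0) ≤ n.factorization p := by
  split_ifs with a
  · exact hp.factorization_pos_of_dvd h a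
  · exact Nat.zero_le _

theorem V_le (hp : p.Prime) (S : Finset ℕ) : V p S ≤ (bar S).factorization p := by
  have a1 : ∀ b : ℕ, ∀ z ∈ {z ∈ S | z < b}, b + z + 2 ≠ 0 := fun _ _ _ => by omega
  have a2 : ∀ b : ℕ, ∀ m ∈ range b \ S, b - m ≠ 0 := fun b m hm => by
    have := mem_range.1 (mem_sdiff.1 hm).1
    omega
  have a3 := fun b => mul_ne_zero (Nat.succ_ne_zero b) (prod_ne_zero_iff.2 (a2 b))
  rw [V_eq hp, Nat.cast_le, bar, Nat.factorization_prod_apply fun b _ => mul_ne_zero (prod_ne_zero_iff.2 (a1 b)) (a3 b)]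
  refine sum_le_sum fun b _ => ?_
  rw [Nat.factorization_mul (prod_ne_zero_iff.2 (a1 b)) (a3 b),
    Nat.factorization_mul (Nat.succ_ne_zero b) (prod_ne_zero_iff.2 (a2 b)), Finsupp.add_apply, Finsupp.add_apply,
    Nat.factorization_prod_apply (a1 b), Nat.factorization_prod_apply (a2 b)]
  exact add_le_add (sum_le_sum fun z hz => ite_le hp (a1 b z hz))
    (add_le_add (ite_le hp (Nat.succ_ne_zero b)) (sum_le_sum fun m hm => ite_le hp (a2 b m hm)))

theorem sum_le (hp : p.Prime) (h2 : p ≠ 2) (ν : Multiset ℕ) {c : ZMod p → ℤ} (μ : Multiset ℕ) :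
    (∀ r ∈ μ, p ∣ r) → ∀ v, ∀ u ∈ W p c v, fm (U (μ + ν)) u ≠ 0 → (μ.sum : ℤ) ≤ p * v := by
  induction μ using Multiset.induction_on with
  | empty =>
    intro _ v u hu h
    obtain ⟨T, hT⟩ := Finsupp.support_nonempty_iff.2 (show u ≠ 0 by rintro rfl; exact h (map_zero _))
    rw [← (hu hT).2, V_eq hp]
    simpa only [Multiset.sum_zero, Nat.cast_zero] using by positivity
  | cons r μ ih =>
    intro hμ v u hu h
    obtain ⟨k, rfl⟩ := hμ r (Multiset.mem_cons_self _ _)
    rw [Multiset.cons_add] at h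
    by_cases o : Odd (p * k)
    · rw [fm_U_cons o, Nat.cast_mul] at h
      have := ih (fun r hr => hμ r (Multiset.mem_cons_of_mem hr)) _ _
        (H_mem hp h2 (by exact_mod_cast o) (by exact_mod_cast o.pos) hu) h
      rw [Multiset.sum_cons, Nat.cast_add, Nat.cast_mul]
      linarith
    · exact (h (by rw [U_cons, Hn, if_neg o]; simp)).elim

variable {α : Type*} [Fintype α] [DecidableEq α]

theorem period_eq {σ : Perm α} {x : α} (h : x ∈ σ.support) :
    Function.minimalPeriod σ x = #(σ.cycleOf x).support := by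
  have c := σ.isCycle_cycleOf (Perm.mem_support.1 h)
  have : ∀ n, Function.minimalPeriod σ x ∣ n ↔ #(σ.cycleOf x).support ∣ n := fun n => by
    rw [← Function.isPeriodicPt_iff_minimalPeriod_dvd, ← c.orderOf, orderOf_dvd_iff_pow_eq_one,
      c.pow_eq_one_iff' (x := x) (by rw [Perm.cycleOf_apply_self]; exact Perm.mem_support.1 h),
      Perm.cycleOf_pow_apply_self, Perm.coe_pow]
    rfl
  exact Nat.dvd_antisymm ((this _).2 dvd_rfl) ((this _).1 dvd_rfl)

/-- sums over the points, grouped by cycles -/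
theorem sum_period (σ : Perm α) (f : ℕ → ℕ) :
    ∑ x, f (Function.minimalPeriod σ x) = (σ.partition.parts.map fun r => r * f r).sum := by
  rw [← sum_add_sum_compl σ.support, Perm.parts_partition, Multiset.map_add, Multiset.sum_add]
  congr 1
  · rw [← sum_fiberwise_of_maps_to (g := σ.cycleOf) fun x hx => Perm.cycleOf_mem_cycleFactorsFinset_iff.2 hx,
      Perm.cycleType_def, Multiset.map_map]
    refine sum_congr rfl fun c hc => ?_
    have : {x ∈ σ.support | σ.cycleOf x = c} = c.support := by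
      ext x
      rw [mem_filter]
      exact ⟨fun a => a.2 ▸ Perm.mem_support_cycleOf_iff.2 ⟨Perm.SameCycle.refl _ _, a.1⟩, fun a =>
        ⟨Perm.mem_cycleFactorsFinset_support_le hc a, (Perm.cycle_is_cycleOf a hc).symm⟩⟩
    rw [sum_congr rfl (g := fun _ => f #c.support) fun x hx => by
      rw [period_eq (mem_filter.1 hx).1, (mem_filter.1 hx).2], this, sum_const, smul_eq_mul]
    rfl
  · rw [sum_congr rfl (g := fun _ => f 1) fun x hx => by
      rw [Function.minimalPeriod_eq_one_iff_isFixedPt.2 (Perm.notMem_support.1 (mem_compl.1 hx))]]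
    simp [card_compl]

end F5

variable {p : ℕ} {α : Type*} [Fintype α] [DecidableEq α]

theorem weight (hp : p.Prime) (h2 : p ≠ 2) {μ : Multiset ℕ} {S : Finset ℕ}
    (h : fm (U μ) (Finsupp.single S 1) ≠ 0) : (μ.filter (p ∣ ·)).sum / p ≤ (bar S).factorization p := by
  rw [← Multiset.filter_add_not (p ∣ ·) μ] at h
  have := F5.sum_le hp h2 _ _ (fun r hr => (Multiset.mem_filter.1 hr).2) _ _ (F5.single_mem rfl rfl 1) h
  refine Nat.div_le_of_le_mul ?_
  exact_mod_cast this.trans (mul_le_mul_of_nonneg_left (F5.V_le hp S) (Nat.cast_nonneg p))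

theorem card_period (σ : Perm α) :
    #{x | p ∣ Function.minimalPeriod σ x} = (σ.partition.parts.filter (p ∣ ·)).sum := by
  rw [card_filter, F5.sum_period σ fun r => if p ∣ r then 1 else 0]
  induction σ.partition.parts using Multiset.induction_on with
  | empty => simp
  | cons r μ ih => by_cases a : p ∣ r <;> simp_all

end CF.Nf
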