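import Cfsg.Agent.Nf.F2
import Cfsg.Agent.Nf.F3
import Cfsg.Agent.Nf.F4
import Cfsg.Agent.Nf.F5a

/-! The spin character values satisfy `Sp`. -/

set_option autoImplicit false

namespace CF.Nf

open Cfsg Equiv Finset

variable {p : ℕ} {α : Type*} [Fintype α] [DecidableEq α]

theorem sp_XS (hp : p.Prime) (h2 : p ≠ 2) {S : Finset ℕ} (hS : sz S = Fintype.card α) :
    Sp p #S (XS S : Perm α → ℚ) := by
  obtain ⟨g, a, b⟩ := degree S
  rw [hS] at a b
  have n := b ▸ (Fintype.card α).factorial_ne_zero
  refine ⟨colour S, bessel S, g, left_ne_zero_of_mul n, by simpa [XS, Perm.parts_partition] using a, fun σ _ h => ?_⟩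
  rw [← b, Nat.factorization_mul (left_ne_zero_of_mul n) (right_ne_zero_of_mul n), Finsupp.add_apply, card_period]
  exact Nat.add_le_add_left (weight hp h2 h) _

end CF.Nf
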