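import Cfsg.Agent.Nf.A
import Cfsg.Agent.Block.Red
import Cfsg.Agent.Block.Induce
import Cfsg.Agent.BlockB.Section

/-! The major subsection with full support. -/

set_option autoImplicit false

namespace CF.Nf

open Cfsg Equiv Finset

namespace L
variable {Ω : Type*}

/-- permutations commuting with `P` and preserving its orbits -/
def E (P : Subgroup (Perm Ω)) : Subgroup (Perm Ω) where
  carrier := {s | (∀ d ∈ P, d * s = s * d) ∧ ∀ x, ∃ d ∈ P, s x = d x}
  one_mem' := ⟨by simp, fun x => ⟨1, P.one_mem, rfl⟩⟩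
  mul_mem' := by
    rintro s t ⟨h1, h2⟩ ⟨h3, h4⟩
    refine ⟨fun d hd => by rw [← mul_assoc, h1 d hd, mul_assoc, h3 d hd, mul_assoc], fun x => ?_⟩
    obtain ⟨a, ha, e1⟩ := h2 x
    obtain ⟨b, hb, e2⟩ := h4 x
    refine ⟨b * a, P.mul_mem hb ha, ?_⟩
    rw [Perm.mul_apply, e2, ← Perm.mul_apply, ← h1 b hb, Perm.mul_apply, e1, Perm.mul_apply]
  inv_mem' := by
    rintro s ⟨h1, h2⟩
    refine ⟨fun d hd => (show Commute d s from h1 d hd).inv_right, fun x => ?_⟩
    obtain ⟨a, ha, e1⟩ := h2 x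
    refine ⟨a⁻¹, P.inv_mem ha, ?_⟩
    rw [Perm.inv_eq_iff_eq, ← Perm.mul_apply, ← h1 _ (P.inv_mem ha), Perm.mul_apply, e1]
    simp

theorem pow_card {P : Subgroup (Perm Ω)} {s : Perm Ω} (h : s ∈ E P) : s ^ Nat.card P = 1 := by
  ext x
  obtain ⟨a, ha, e⟩ := h.2 x
  have key : ∀ j : ℕ, (s ^ j) x = (a ^ j) x := by
    intro j
    induction j with
    | zero => rfl
    | succ j ih =>
      rw [pow_succ', Perm.mul_apply, ih, ← Perm.mul_apply, ← h.1 _ (P.pow_mem ha j),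
        Perm.mul_apply, e, pow_succ, Perm.mul_apply]
  have : a ^ Nat.card P = 1 := by
    have := pow_card_eq_one' (x := (⟨a, ha⟩ : P))
    exact congrArg Subtype.val this
  rw [key, this]

theorem conj_mem {P : Subgroup (Perm Ω)} {s n : Perm Ω} (h : s ∈ E P)
    (hn : n ∈ Subgroup.normalizer (P : Set (Perm Ω))) : n * s * n⁻¹ ∈ E P := by
  refine ⟨fun d hd => ?_, fun x => ?_⟩
  · have h1 := h.1 _ ((Subgroup.mem_normalizer_iff''.1 hn d).1 hd)
    calc d * (n * s * n⁻¹) = n * (n⁻¹ * d * n * s) * n⁻¹ := by group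
      _ = _ := by rw [h1]; group
  · obtain ⟨a, ha, e⟩ := h.2 (n⁻¹ x)
    exact ⟨n * a * n⁻¹, (Subgroup.mem_normalizer_iff.1 hn a).1 ha, by
      simp only [Perm.mul_apply, e]⟩

variable {p : ℕ}

theorem ex_orbit [Finite Ω] (hp : p.Prime) {P : Subgroup (Perm Ω)} (hP : IsPGroup p P) {x : Ω}
    (hx : ∃ d ∈ P, d x ≠ x) : ∃ t ∈ E P, (∀ d ∈ P, t (d x) ≠ d x) ∧
      ∀ y, (∀ d ∈ P, d x ≠ y) → t y = y := by
  classical
  have := Fact.mk hp
  let φ := MulAction.toPermHom P (MulAction.orbit P x)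
  have hφ : ∀ (d : P) (y : MulAction.orbit P x), (φ d y : Ω) = (d : Perm Ω) y := fun _ _ => rfl
  have hr : IsPGroup p φ.range := hP.of_surjective φ.rangeRestrict φ.rangeRestrict_surjective
  have : Nontrivial φ.range := by
    obtain ⟨d, hd, h⟩ := hx
    refine ⟨⟨φ ⟨d, hd⟩, _, rfl⟩, 1, fun e => h ?_⟩
    have := congrArg (fun e : φ.range => (e.1 ⟨x, MulAction.mem_orbit_self x⟩ : Ω)) e
    simpa [hφ] using this
  have := hr.center_nontrivial
  obtain ⟨⟨⟨_, z, rfl⟩, hz⟩, h1⟩ := exists_ne (1 : Subgroup.center φ.range)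
  have hc : ∀ d ∈ P, ∀ y ∈ MulAction.orbit P x, d ((z : Perm Ω) y) = (z : Perm Ω) (d y) := by
    intro d hd y hy
    have := Subgroup.mem_center_iff.1 hz ⟨φ ⟨d, hd⟩, _, rfl⟩
    exact congrArg (fun e : φ.range => (e.1 ⟨y, hy⟩ : Ω)) this
  have hm : ∀ d ∈ P, ∀ y, d y ∈ MulAction.orbit P x ↔ y ∈ MulAction.orbit P x := by
    intro d hd y
    constructor
    · rintro ⟨a, e⟩
      refine ⟨(⟨d, hd⟩ : P)⁻¹ * a, ?_⟩
      show (d⁻¹ * (a : Perm Ω)) x = y
      rw [Perm.mul_apply, show (a : Perm Ω) x = d y from e]; simp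
    · rintro ⟨a, rfl⟩
      exact ⟨⟨d, hd⟩ * a, rfl⟩
  have hin : ∀ y ∈ MulAction.orbit P x, Perm.ofSubtype (φ z) y = (z : Perm Ω) y :=
    fun y hy => by rw [Perm.ofSubtype_apply_of_mem _ hy, hφ]
  refine ⟨Perm.ofSubtype (φ z), ⟨fun d hd => ?_, fun y => ?_⟩, fun d hd e => h1 ?_, fun y hy => ?_⟩
  · ext y
    by_cases hy : y ∈ MulAction.orbit P x
    · rw [Perm.mul_apply, Perm.mul_apply, hin y hy, hin _ ((hm d hd y).2 hy), hc d hd y hy]
    · rw [Perm.mul_apply, Perm.mul_apply, Perm.ofSubtype_apply_of_not_mem _ hy,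
        Perm.ofSubtype_apply_of_not_mem _ (mt (hm d hd y).1 hy)]
  · by_cases hy : y ∈ MulAction.orbit P x
    · exact ⟨z, z.2, hin y hy⟩
    · exact ⟨1, P.one_mem, Perm.ofSubtype_apply_of_not_mem _ hy⟩
  · have h0 := MulAction.mem_orbit_self (M := P) x
    rw [hin _ ((hm d hd x).2 h0), ← hc d hd x h0, d.injective.eq_iff] at e
    refine Subtype.ext (Subtype.ext (Equiv.ext ?_))
    rintro ⟨_, a, rfl⟩
    refine Subtype.ext ?_
    show (z : Perm Ω) ((a : Perm Ω) x) = (a : Perm Ω) x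
    rw [← hc _ a.2 x h0, e]
  · exact Perm.ofSubtype_apply_of_not_mem _ fun ⟨a, e⟩ => hy a a.2 e

theorem ex_full [Fintype Ω] [DecidableEq Ω] (hp : p.Prime) {P : Subgroup (Perm Ω)}
    (hP : IsPGroup p P) : ∃ s ∈ E P, ∀ x, (∃ d ∈ P, d x ≠ x) → s x ≠ x := by
  obtain ⟨s, hs, hmax⟩ := Set.exists_max_image (E P : Set (Perm Ω)) (fun s => s.support.card)
    (Set.toFinite _) ⟨1, (E P).one_mem⟩
  refine ⟨s, hs, fun x hx e => ?_⟩
  obtain ⟨t, ht, h1, h2⟩ := ex_orbit hp hP hx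
  have h3 : ∀ d ∈ P, s (d x) = d x := fun d hd => by
    rw [← Perm.mul_apply, ← hs.1 d hd, Perm.mul_apply, e]
  refine (hmax _ ((E P).mul_mem ht hs)).not_gt (card_lt_card ⟨fun y hy => ?_, fun h => ?_⟩)
  · rw [Perm.mem_support] at hy ⊢
    rw [Perm.mul_apply, h2 (s y)]
    · exact hy
    · intro d hd e'
      apply hy
      have : y = d x := s.injective (by rw [h3 d hd, e'])
      rw [this, h3 d hd]
  · have : x ∈ (t * s).support := by
      rw [Perm.mem_support, Perm.mul_apply, e]; exact h1 1 P.one_mem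
    exact Perm.mem_support.1 (h this) e

theorem ex_Q (hp : p.Prime) {G H : Type*} [Group G] [Finite G] [Group H] {π : G →* H}
    (hz : π.ker ≤ Subgroup.center G) {E : Subgroup H} (hE : IsPGroup p E) :
    ∃ Q : Subgroup G, IsPGroup p Q ∧ Q ≤ E.comap π ∧
      ∀ g ∈ E.comap π, (∃ k, g ^ p ^ k = 1) → g ∈ Q := by
  have := Fact.mk hp
  let f : E.comap π →* E := π.subgroupComap E
  have hr : IsPGroup p f.range := hE.to_subgroup _
  have : Finite f.range := Finite.of_surjective _ f.rangeRestrict_surjective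
  have hn : Group.IsNilpotent (E.comap π) := by
    have := hr.isNilpotent
    refine Subgroup.isNilpotent_of_ker_le_center f.rangeRestrict fun g hg => ?_
    have h1 : π g = 1 := congrArg (fun a : f.range => (a.1 : H)) hg
    exact Subgroup.mem_center_iff.2 fun a => Subtype.ext (Subgroup.mem_center_iff.1 (hz h1) a)
  let S : Sylow p (E.comap π) := default
  have hS : (S : Subgroup (E.comap π)).Normal := inferInstance
  refine ⟨(S : Subgroup _).map (E.comap π).subtype, S.2.map _, Subgroup.map_subtype_le _,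
    fun g hg ⟨k, hk⟩ => ⟨⟨g, hg⟩, ?_, rfl⟩⟩
  have h1 : IsPGroup p (Subgroup.zpowers (⟨g, hg⟩ : E.comap π)) := by
    rintro ⟨_, j, rfl⟩
    refine ⟨k, Subtype.ext (Subtype.ext ?_)⟩
    show (g ^ j) ^ p ^ k = 1
    rw [← zpow_natCast, ← zpow_mul, mul_comm, zpow_mul, zpow_natCast, hk, one_zpow]
  rw [← S.is_maximal' (h1.to_sup_of_normal_right S.2) le_sup_right]
  exact Subgroup.mem_sup_left (Subgroup.mem_zpowers _)

end L

variable {Ω : Type*} [Fintype Ω] [DecidableEq Ω] {p : ℕ} {M : Ideal AlgInt}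

theorem loc (hM : IsPModular p M) (h2 : p ≠ 2) {G : Type*} [Group G] [Finite G] {π : G →* Perm Ω}
    (hz : π.ker ≤ Subgroup.center G) (hk : ¬ p ∣ Nat.card π.ker)
    (ha : alternatingGroup Ω ≤ π.range) {B : Set (IrrCharacter G)} (hB : IsPBlock M B)
    {D : Subgroup G} (hD : IsDefectGroup p M B D) {χ : IrrCharacter G} (hχ : χ ∈ B) :
    ∃ u ∈ D, ∃ y : G, Commute u y ∧ ¬ p ∣ orderOf y ∧ (χ : G → ℂ) (u * y) ≠ 0 ∧
      ∀ x, (∃ d ∈ D, π d x ≠ x) → π u x ≠ x := by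
  have hp := hM.1
  have := Fact.mk hp
  have := BlockB.charP_k hM
  have hDp : IsPGroup p D := BlockB.IsDefectGroup.isPGroup hD
  have hP : IsPGroup p (D.map π) := hDp.map π
  obtain ⟨n, hn⟩ := hP.exists_card_eq
  obtain ⟨m, hm⟩ := hDp.exists_card_eq
  have hE : IsPGroup p (L.E (D.map π)) := fun s => ⟨n, Subtype.ext (hn ▸ L.pow_card s.2)⟩
  obtain ⟨Q, hQ, h1, h3⟩ := L.ex_Q hp hz hE
  have hker : ∀ k ∈ π.ker, ∀ j, k ^ p ^ j = 1 → k = 1 := fun k hk' j e => by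
    have e1 : k ^ Nat.card π.ker = 1 :=
      congrArg Subtype.val (pow_card_eq_one' (x := (⟨k, hk'⟩ : π.ker)))
    have := pow_gcd_eq_one.2 ⟨e, e1⟩
    rwa [Nat.Coprime.pow_left j ((Nat.Prime.coprime_iff_not_dvd hp).2 hk), pow_one] at this
  have hc : ∀ q ∈ Q, ∀ d ∈ D, d * q = q * d := fun q hq d hd => by
    have e := (h1 hq).1 (π d) ⟨d, hd, rfl⟩
    have hk1 : q * d * q⁻¹ * d⁻¹ ∈ π.ker := by
      simp only [MonoidHom.mem_ker, map_mul, map_inv]
      rw [← e]; group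
    have e1 : d ^ p ^ m = 1 := hm ▸ congrArg Subtype.val (pow_card_eq_one' (x := (⟨d, hd⟩ : D)))
    have e2 : Commute (q * d * q⁻¹ * d⁻¹) d := (Subgroup.mem_center_iff.1 (hz hk1) d).symm
    have e3 := e2.mul_pow (p ^ m)
    rw [inv_mul_cancel_right, conj_pow, e1, mul_one, mul_inv_cancel, mul_one] at e3
    have := hker _ hk1 m e3.symm
    rw [mul_inv_eq_one, mul_inv_eq_iff_eq_mul] at this
    exact this.symm
  have hQD : Q ≤ D := by
    refine ((Block.isDefectGroup_iff hM hB D).1 hD).radical (Block.isBlk_eb hM hB) hQ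
      (fun q hq => ⟨Subgroup.mem_normalizer_iff.2 fun d => ⟨fun hd => ?_, fun hd => ?_⟩, trivial⟩)
      fun g hg => ?_
    · rwa [← hc q hq d hd, mul_inv_cancel_right]
    · have := hc q hq _ hd
      rw [inv_mul_cancel_right, mul_right_inj] at this
      rwa [← this] at hd
    · refine Subgroup.mem_normalizer_fintype fun q hq => h3 _ ?_ ?_
      · have := L.conj_mem (h1 hq) (Subgroup.le_normalizer_map π ⟨g, hg.1, rfl⟩)
        simpa [Subgroup.mem_comap] using this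
      · obtain ⟨k, hk⟩ := hQ ⟨q, hq⟩
        exact ⟨k, by rw [conj_pow, show q ^ p ^ k = 1 from congrArg Subtype.val hk]; group⟩
  obtain ⟨s, hs, hf⟩ := L.ex_full hp hP
  have hs1 : s ^ p ^ n = 1 := hn ▸ L.pow_card hs
  obtain ⟨g, rfl⟩ : s ∈ π.range := by
    refine ha (Perm.mem_alternatingGroup.2 ?_)
    have := congrArg Perm.sign hs1
    rw [map_pow, map_one] at this
    rcases Int.units_eq_one_or (Perm.sign s) with h | h
    · exact h
    · rw [h, ((hp.odd_of_ne_two h2).pow).neg_one_pow] at this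
      exact absurd this (by decide)
  have hco : (p ^ n).Coprime (Nat.card π.ker) :=
    Nat.Coprime.pow_left n ((Nat.Prime.coprime_iff_not_dvd hp).2 hk)
  obtain ⟨a, a1, a2⟩ := Nat.chineseRemainder hco 1 0
  have e1 : π (g ^ a) = π g := by
    rw [map_pow, pow_eq_pow_of_modEq a1 hs1, pow_one]
  have hu : g ^ a ∈ Q := by
    refine h3 _ (by rwa [Subgroup.mem_comap, e1]) ⟨n, ?_⟩
    obtain ⟨b, rfl⟩ := (Nat.modEq_zero_iff_dvd).1 a2
    have : (g ^ p ^ n) ^ Nat.card π.ker = 1 := congrArg Subtype.val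
      (pow_card_eq_one' (x := (⟨g ^ p ^ n, by rwa [MonoidHom.mem_ker, map_pow]⟩ : π.ker)))
    rw [← pow_mul, mul_comm, ← mul_assoc, pow_mul, pow_mul, this, one_pow]
  obtain ⟨y, hy, S, hS⟩ := hD
  have hsy : Block.IsSyl p D (BlockB.Cen y) := Block.isSyl_iff.2 ⟨S, hS⟩
  refine ⟨g ^ a, hQD hu, y, BlockB.mem_Cen.1 (hsy.le (hQD hu)),
    BlockB.IsDefectClass.not_dvd hM hB hy, fun h0 => ?_, fun x ⟨d, hd, hx⟩ => ?_⟩
  · have := BlockB.v_centralChar_mul_defectClass hM hB hy hsy (hQD hu)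
      (fun d hd => BlockB.mem_Cen.2 (hc _ hu d hd)) hχ
    rw [centralChar, h0] at this
    simp at this
  · rw [e1]; exact hf x ⟨π d, ⟨d, hd, rfl⟩, hx⟩

end CF.Nf
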