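import Cfsg.Agent.Nf.A

/-! Centres of permutation `p`-groups. -/

set_option autoImplicit false

namespace CF.Nf

open Equiv Subgroup MulAction Finset

variable {Ω : Type*} [Fintype Ω] [DecidableEq Ω] {p : ℕ}

omit [Fintype Ω] [DecidableEq Ω] in
theorem dvd_minimalPeriod (hp : p.Prime) {u y : Perm Ω} (hc : Commute u y)
    (hu : ∃ k, u ^ p ^ k = 1) (hy : ¬ p ∣ orderOf y) {x : Ω} (hx : u x ≠ x) :
    p ∣ Function.minimalPeriod (u * y) x := by
  by_contra h
  obtain ⟨k, hk⟩ := hu
  set m := Function.minimalPeriod (u * y) x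
  have h1 : ((u * y) ^ (m * orderOf y)) x = x := by
    rw [Perm.coe_pow]
    exact (Function.isPeriodicPt_minimalPeriod (u * y) x).mul_const _
  rw [hc.mul_pow, mul_comm m, pow_mul y, pow_orderOf_eq_one, one_pow, mul_one] at h1
  have h2 : (orderOf y * m).Coprime (p ^ k) :=
    (((Nat.Prime.coprime_iff_not_dvd hp).2 fun h3 => (hp.dvd_mul.1 h3).elim hy h).symm).pow_right k
  have h3 : Function.IsPeriodicPt u (orderOf y * m) x := by rwa [Perm.coe_pow] at h1
  have h4 : Function.IsPeriodicPt u (p ^ k) x := by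
    show u^[p ^ k] x = x
    rw [← Perm.coe_pow, hk]; rfl
  have := h3.gcd h4
  rw [h2] at this
  exact hx this

theorem PZ.num (hp : 3 ≤ p) (k : ℕ) : k + 2 < p ^ (k + 1) := by
  induction k with
  | zero => simpa using Nat.lt_of_succ_le hp
  | succ k ih => rw [pow_succ]; nlinarith

theorem pz (hp : p.Prime) (h2 : p ≠ 2) {P : Subgroup (Perm Ω)} (hP : IsPGroup p P) :
    Nat.card (Subgroup.center P) ≤ p ^ (mv P / p) ∧
      (¬ IsMulCommutative P → p * Nat.card (Subgroup.center P) ≤ p ^ (mv P / p)) := by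
  classical
  have := Fact.mk hp
  have h3 : 3 ≤ p := by have := hp.two_le; omega
  let Q := orbitRel.Quotient P Ω
  have : Fintype Q := Fintype.ofFinite Q
  choose k hk using fun q : Q => hP.card_orbit q.out
  have inj : Nat.card (center P) ≤ p ^ ∑ q, k q := by
    rw [← prod_pow_eq_pow_sum, ← prod_congr rfl fun q _ => hk q, ← Nat.card_pi]
    refine Nat.card_le_card_of_injective (fun z q => ⟨z.1 • q.out, mem_orbit _ _⟩) fun z w h => ?_
    refine Subtype.ext (Subtype.ext (Equiv.ext fun x => ?_))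
    obtain ⟨g, hg⟩ : x ∈ orbit P (Quotient.out (Quotient.mk'' x : Q)) :=
      orbitRel_apply.1 (Quotient.exact' (Quotient.out_eq' _).symm)
    have e := congrArg Subtype.val (congrFun h (Quotient.mk'' x))
    show z.1 • x = w.1 • x
    rw [← hg, smul_smul, smul_smul, ← mem_center_iff.1 z.2, ← mem_center_iff.1 w.2, mul_smul,
      mul_smul]
    exact congrArg _ e
  have ho : ∀ x, Nat.card (orbit P x) = p ^ k (Quotient.mk'' x) := fun x => by
    rw [← hk, ← orbitRel.Quotient.orbit_eq_orbit_out _ Quotient.out_eq']; rfl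
  have hq : ∀ q : Q, #{x | (Quotient.mk'' x : Q) = q} = p ^ k q := fun q => by
    rw [← hk, ← orbitRel.Quotient.orbit_eq_orbit_out _ Quotient.out_eq', ← Fintype.card_subtype,
      ← Nat.card_eq_fintype_card]
    exact Nat.card_congr (Equiv.subtypeEquivRight fun x => orbitRel.Quotient.mem_orbit.symm)
  have hm : ∀ x, (∃ g ∈ P, g x ≠ x) ↔ k (Quotient.mk'' x) ≠ 0 := fun x => by
    rw [← not_iff_not, not_not, ← (Nat.pow_right_injective hp.two_le).eq_iff, ← ho, pow_zero,
      Nat.card_eq_fintype_card, ← mem_fixedPoints_iff_card_orbit_eq_one, mem_fixedPoints]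
    push Not
    exact ⟨fun h g => h g g.2, fun h g hg => h ⟨g, hg⟩⟩
  let f : Q → ℕ := fun q => if k q = 0 then 0 else p ^ (k q - 1)
  have hf : mv P / p = ∑ q, f q := by
    refine Nat.div_eq_of_eq_mul_right hp.pos ?_
    rw [mv, Nat.card_eq_fintype_card, Fintype.card_subtype, mul_sum,
      card_eq_sum_card_fiberwise (f := fun x => (Quotient.mk'' x : Q)) (t := univ) (by simp)]
    refine sum_congr rfl fun q _ => ?_
    by_cases h : k q = 0
    · rw [filter_filter, filter_false_of_mem, card_empty, show f q = 0 from if_pos h, mul_zero]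
      rintro x - ⟨h1, rfl⟩
      exact (hm x).1 h1 h
    · rw [show f q = _ from if_neg h, ← pow_succ', Nat.sub_add_cancel (Nat.pos_of_ne_zero h), ← hq,
        filter_filter]
      exact congrArg _ (filter_congr fun x _ => and_iff_right_of_imp fun e => (hm x).2 (e ▸ h))
  have h4 : ∀ q, 2 ≤ k q → k q < f q := fun q h => by
    obtain ⟨j, hj⟩ := Nat.exists_eq_add_of_le' h
    rw [show f q = _ from if_neg (by omega), hj]
    exact PZ.num h3 j
  have h5 : ∀ q, k q ≤ f q := fun q => by
    rcases (by omega : k q = 0 ∨ k q = 1 ∨ 2 ≤ k q) with h | h | h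
    · omega
    · simp [f, h]
    · exact (h4 q h).le
  rw [hf]
  refine ⟨inj.trans (Nat.pow_le_pow_right hp.pos (sum_le_sum fun q _ => h5 q)), fun hc => ?_⟩
  obtain ⟨q, h6⟩ : ∃ q, 2 ≤ k q := by
    by_contra h
    push Not at h
    refine hc ⟨⟨fun a b => Subtype.ext (Equiv.ext fun x => ?_)⟩⟩
    have h7 : (stabilizer P x).index = p ^ k (Quotient.mk'' x) := by
      rw [index_stabilizer, ← ho, Nat.card_coe_set_eq]
    have h8 : (b * a)⁻¹ * (a * b) ∈ stabilizer P x := by
      rcases (by have := h (Quotient.mk'' x); omega :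
        k (Quotient.mk'' x) = 0 ∨ k (Quotient.mk'' x) = 1) with h | h
      · rw [h, pow_zero, index_eq_one] at h7
        rw [h7]; trivial
      · rw [h, pow_one] at h7
        obtain ⟨n, hn⟩ := IsPGroup.iff_card.1 hP
        have h9 : n ≠ 0 := by
          rintro rfl
          exact hp.one_lt.ne' (Nat.dvd_one.1 (by rw [← pow_zero p, ← hn, ← h7]; exact index_dvd_card _))
        have := normal_of_index_eq_minFac_card (H := stabilizer P x)
          (by rw [h7, hn, hp.pow_minFac h9])
        have := isCyclic_of_prime_card (α := P ⧸ stabilizer P x) (p := p) h7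
        rw [← QuotientGroup.eq, QuotientGroup.mk_mul, QuotientGroup.mk_mul]
        exact IsCyclic.isMulCommutative.is_comm.comm _ _
    rw [mem_stabilizer_iff, mul_smul, inv_smul_eq_iff] at h8
    exact h8
  refine (Nat.mul_le_mul_left p inj).trans ?_
  rw [← pow_succ']
  exact Nat.pow_le_pow_right hp.pos (sum_lt_sum (fun q _ => h5 q) ⟨q, mem_univ q, h4 q h6⟩)

end CF.Nf
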