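import Cfsg.Agent.Nf.C1
import Cfsg.Agent.Nf.F5
import Cfsg.Agent.Nf.C5
import Cfsg.Agent.Nf.F2
import Cfsg.Agent.Nf.L
import Cfsg.Agent.Nf.PZ
import Cfsg.Agent.Block.CoverRed

/-! The codefect of the faithful characters of the double cover. -/

set_option autoImplicit false

namespace CF.Nf

open Cfsg Equiv Finset Char
open scoped ComplexConjugate

variable {p : ℕ} {M : Ideal AlgInt} {α : Type*} [Fintype α] [DecidableEq α] {Γ ι : Type*} [Group Γ] [Fintype ι]
  [DecidableEq ι] {π : Γ →* Perm α} {z : Γ} {ρ : Γ →* Matrix ι ι ℂ} {γ : α ⊕ Option α → Matrix ι ι ℂ}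

namespace C6

theorem mv_mono {P Q : Subgroup (Perm α)} (h : P ≤ Q) : mv P ≤ mv Q :=
  Nat.card_le_card_of_injective _ (Subtype.map_injective (fun _ ⟨g, a, b⟩ => ⟨g, h a, b⟩) Function.injective_id)

theorem fac2 (hp : p.Prime) (h2 : p ≠ 2) {a : ℕ} (a0 : a ≠ 0) (k : ℕ) : (2 ^ k * a).factorization p = a.factorization p := by
  simp [Nat.factorization_mul, a0, Nat.prime_two.factorization, h2]

theorem bound [Finite Γ] (h : Cl π z ρ γ) (hM : IsPModular p M) (h2 : p ≠ 2) {l : ℕ} {Y : Perm α → ℚ} (hY : Sp p l Y)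
    {K : Type*} [Group K] (j : K →* Γ) (hj : Function.Injective j) (ha : alternatingGroup α ≤ (π.comp j).range)
    {B : Set (IrrCharacter K)} (hB : IsPBlock M B) {D : Subgroup K} (hD : IsDefectGroup p M B D) {χ : IrrCharacter K}
    (hχ : χ ∈ B) {k : ℕ} (v : ∀ g, (ρ (j g)).trace * Y (π (j g)) = 2 ^ k * (χ : K → ℂ) g) :
    (charDegree (χ : K → ℂ)).factorization p + mv (D.map (π.comp j)) / p ≤ (Fintype.card α).factorial.factorization p := by
  classical
  have := Finite.of_injective j hj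
  have := Fact.mk hM.1
  obtain ⟨u, hu, y, c, hy, n, s⟩ := loc hM h2 (π := π.comp j) (fun g e => Subgroup.mem_center_iff.2 fun x => hj (by
    rcases h.ker _ e with e | e <;> simp [e, h.cen])) (fun d => by
      obtain ⟨⟨g, e⟩, o⟩ := exists_prime_orderOf_dvd_card' p d
      refine h2 ((Nat.prime_dvd_prime_iff_eq hM.1 Nat.prime_two).1 (o ▸ orderOf_dvd_of_pow_eq_one (Subtype.ext (hj ?_))))
      rcases h.ker _ e with e | e <;> simp [e, sq, h.zz]) ha hB hD hχ
  obtain ⟨a, a0, a1, a2⟩ := hY.val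
  have n' := (v (u * y)).trans_ne (mul_ne_zero (pow_ne_zero _ two_ne_zero) n)
  have := a2 _ (by_contra fun o => n' (by rw [C5.tr_zero h o, zero_mul])) fun e => n' (by rw [e]; simp)
  refine le_trans (add_le_add (le_of_eq ?_) (Nat.div_le_div_right ?_)) this
  · have := v 1
    simp only [map_one, a1, Matrix.trace_one, h.card, ← BlockB.charDegree_eq (irr_isCharacter χ.2)] at this
    replace : 2 ^ Fintype.card α * a = 2 ^ k * charDegree (χ : K → ℂ) := by exact_mod_cast this
    rw [← fac2 hM.1 h2 a0, this, fac2 hM.1 h2 fun e => by simp [e, a0] at this]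
  · obtain ⟨m, hm⟩ := ((Block.isDefectGroup_iff hM hB D).1 hD).isP ⟨u, hu⟩
    rw [mv, Nat.card_eq_fintype_card, Fintype.card_subtype]
    refine card_le_card fun x => ?_
    simp only [mem_filter, mem_univ, true_and, map_mul]
    rintro ⟨_, ⟨d, d1, rfl⟩, d2⟩
    exact dvd_minimalPeriod hM.1 (c.map (π.comp j)) ⟨m, by rw [← map_pow, show u ^ p ^ m = 1 from congrArg Subtype.val hm, map_one]⟩
      (fun e => hy (e.trans (orderOf_map_dvd (π.comp j) y))) (s x ⟨d, d1, d2⟩)

end C6

theorem Cl.spin [Finite Γ] [Nontrivial α] (h : Cl π z ρ γ) (hM : IsPModular p M) (h2 : p ≠ 2)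
    {B : Set (IrrCharacter (Ev π))} (hB : IsPBlock M B) {D : Subgroup (Ev π)}
    (hD : IsDefectGroup p M B D) {χ : IrrCharacter (Ev π)} (hχ : χ ∈ B)
    (hf : (χ : Ev π → ℂ) ⟨z, h.z_mem⟩ ≠ (χ : Ev π → ℂ) 1) :
    (charDegree (χ : Ev π → ℂ)).factorization p + mv (D.map (π.comp (Ev π).subtype)) / p ≤
      (Nat.card (Ev π)).factorization p := by
  classical
  have := Fintype.ofFinite Γ
  have := Fact.mk hM.1
  have := BlockB.charP_k hM
  refine le_trans ?_ (show (Fintype.card α).factorial.factorization p ≤ _ by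
    rw [← C6.fac2 hM.1 h2 Nat.card_pos.ne' 1, pow_one, mul_comm, ← C5.card_Ev h]
    exact (Nat.factorization_le_iff_dvd (Nat.factorial_ne_zero _) Nat.card_pos.ne').2 (C5.card_eq h ▸ dvd_mul_left ..) p)
  obtain ⟨T, c, hT, hc⟩ := complete (α := α)
  obtain ⟨S, hS, n⟩ : ∃ S ∈ T, classInner (fun g : Ev π => (ρ g).trace * XS S (π g)) χ ≠ 0 := by
    by_contra! e
    have k := (inner_sum_left T (fun S => (c S : ℂ) • fun g : Ev π => (ρ g).trace * XS S (π g)) χ).trans
      (sum_eq_zero fun S a => by rw [Char.inner_smul_left, e S a, mul_zero])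
    have v : ∀ g : Ev π, (∑ S ∈ T, (c S : ℂ) • fun g : Ev π => (ρ g).trace * XS S (π g)) g =
        if π g = 1 then (ρ g).trace else 0 := fun g => by
      by_cases o : Odd (orderOf (π g))
      · have := congrArg (fun x : ℚ => (ρ g).trace * x) (hc _ o)
        simpa [mul_sum, mul_left_comm, apply_ite] using this
      · simp [C5.tr_zero h o]
    rw [inner_def, mul_eq_zero, sum_eq_add (1 : Ev π) ⟨z, h.z_mem⟩ (fun e => hf (e ▸ rfl)) (fun g _ ⟨a, b⟩ => by
      rw [v, if_neg fun e => (h.ker _ e).elim (fun e => a (Subtype.ext e)) fun e => b (Subtype.ext e), zero_mul])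
      (by simp) (by simp), v, v] at k
    simp only [OneMemClass.coe_one, map_one, h.πz, h.ρz, if_true, Matrix.trace_neg, Matrix.trace_one, h.card, neg_mul,
      ← sub_eq_add_neg, ← mul_sub, ← map_sub] at k
    exact k.elim (inv_ne_zero card_ne_zero_complex) (mul_ne_zero (by simp) ((map_ne_zero _).2 (sub_ne_zero.2 hf.symm)))
  have hY := sp_XS hM.1 h2 (hT S hS)
  rcases (Fintype.card α + #S).even_or_odd with e | e
  · obtain ⟨ψ, k, v⟩ := h.irr0 hY e
    replace n : classInner (fun g : Ev π => (ψ : Γ → ℂ) g) χ ≠ 0 := fun e => n (by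
      rw [← mul_zero (2 ^ k), ← e, ← Char.inner_smul_left]; exact congrArg (classInner · _) (funext fun g => v g))
    have b := BlockB.isPBlock_blockOf (M := M) ψ
    have m := BlockB.mem_blockOf_self hM ψ
    obtain ⟨P, hP, k, -⟩ := (Block.isBlk_eb hM b).exists_defGrp_inf (Block.isBlk_ebs hM hB) (Subgroup.normalizer_eq_top _).ge le_top
      (BlockB.block_eq_blockOf hM hB hχ ▸ Block.covers_blockOf hM b m n) ((Block.isDefectGroup_iff_sub hM hB D).1 hD)
    refine le_trans (add_le_add ?_ (Nat.div_le_div_right (C6.mv_mono ?_))) (C6.bound h hM h2 hY (.id Γ) (fun _ _ => id)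
      (fun x _ => h.surj x) b ((Block.isDefectGroup_iff hM b P).2 hP) m v)
    · obtain ⟨a, ha⟩ := inner_char_eq_nat (char_restrict (irr_isCharacter ψ.2) (Ev π)) (irr_isCharacter χ.2)
      have := (Clifford.NormalEmb.sub (Ev π)).clifford_one ψ.2 χ.2 n
      change _ = classInner (fun g : Ev π => (ψ : Γ → ℂ) g) χ * _ at this
      rw [ha, ← BlockB.charDegree_eq (irr_isCharacter ψ.2), ← BlockB.charDegree_eq (irr_isCharacter χ.2), ← mul_assoc] at this
      have d : ∀ {G : Type _} [Group G] (χ : IrrCharacter G), charDegree (χ : G → ℂ) ≠ 0 := fun χ e =>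
        irr_one_ne_zero χ.2 (by rw [← BlockB.charDegree_eq (irr_isCharacter χ.2), e, Nat.cast_zero])
      exact (Nat.factorization_le_iff_dvd (d χ) (d ψ)).2 (Dvd.intro_left _ (by exact_mod_cast this.symm)) p
    · rw [← Subgroup.map_map, ← k]
      exact Subgroup.map_mono inf_le_left
  · obtain ⟨ψ, k, v⟩ := h.irr1 hY e
    obtain rfl : ψ = χ := Subtype.ext (irr_eq_of_inner_ne_zero ψ.2 χ.2 fun e => n (by
      rw [← mul_zero (2 ^ k), ← e, ← Char.inner_smul_left]; exact congrArg (classInner · _) (funext fun g => v g)))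
    exact C6.bound h hM h2 hY (Ev π).subtype Subtype.val_injective (fun x a => by
      obtain ⟨g, rfl⟩ := h.surj x; exact ⟨⟨g, a⟩, rfl⟩) hB hD hχ v

end CF.Nf
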