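import Cfsg.Agent.Nf.R
import Cfsg.Agent.Recog.DCEx
import Cfsg.Agent.Recog.DCIso

/-! S4578: double covers of alternating groups in characteristic two. -/

set_option autoImplicit false

namespace CF.Nf

open Cfsg Equiv Equiv.Perm Subgroup CF.Recog CF.Block

variable {Ω : Type*} [Fintype Ω] [DecidableEq Ω] {M : Ideal AlgInt} {K : Type*} [Group K] {π : K →* Perm Ω} {t : K}

namespace D2

set_option maxHeartbeats 1000000 in
theorem conj_t (D : DC π t) {z : K} (hz : π z * π z = 1) (h1 : π z ≠ 1) :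
    ∃ l, l * z * l⁻¹ = z * t ∧ π l * π l = 1 ∧ ∀ w, π z w = w → π l w = w := by
  obtain ⟨a, ha⟩ : ∃ a, π z a ≠ a := by
    by_contra hn; exact h1 (Equiv.ext fun x => by_contra fun e => hn ⟨x, e⟩)
  obtain ⟨c, hc, h2, h3⟩ := exists_second hz (D.sgn z) ha
  have hn := nodup_inv hz ha hc h2 h3
  obtain ⟨k, hk⟩ := D.lift2 ha.symm hc.symm
  obtain ⟨f1, f2, f3, f4⟩ := DC.peel hz hn hk
  have fx : ∀ w, π z w = w → w ≠ a ∧ w ≠ π z a ∧ w ≠ c ∧ w ≠ π z c := fun w q =>
    ⟨fun e => ha (e ▸ q), fun e => ha ((π z).injective (e ▸ q)), fun e => hc (e ▸ q), fun e => hc ((π z).injective (e ▸ q))⟩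
  generalize π z a = b at *
  generalize π z c = d at *
  have hn' := hn
  simp only [List.nodup_cons, List.mem_cons, List.not_mem_nil, or_false, not_or] at hn'
  obtain ⟨⟨hab, hac, had⟩, ⟨hbc, hbd⟩, hcd, -⟩ := hn'
  obtain ⟨l, hl⟩ := D.lift2 hac hbd
  have n1 : [a, c, b, d].Nodup := by simp [hab, hac, had, Ne.symm hbc, hbd, hcd]
  have n2 : [a, d, b, c].Nodup := by simp [hab, hac, had, hbc, Ne.symm hbd, Ne.symm hcd]
  have e1 := D.comm_of_fix n1 hl f1 f3 f2 f4
  have e2 := D.anti (D.q k _ _ _ _ hn hk) (D.q l _ _ _ _ n1 hl) (D.q _ _ _ _ _ n2 (by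
    clear fx
    rw [map_mul, hk, hl]; ext x
    simp only [Perm.mul_apply, swap_apply_def]
    split_ifs <;> simp_all))
  refine ⟨l, ?_, hl ▸ dbl_mul_self n1, fun w q => ?_⟩
  · rw [mul_inv_eq_iff_eq_mul, ← mul_left_cancel_iff (a := k), ← mul_assoc, e2, ← mul_assoc,
      ← mul_assoc, mul_assoc (k * z), ← D.cen, ← mul_assoc, e1]
    simp only [mul_assoc, D.cen z]
  · obtain ⟨p1, p2, p3, p4⟩ := fx w q
    rw [hl, Perm.mul_apply, swap_apply_of_ne_of_ne p2 p4, swap_apply_of_ne_of_ne p1 p3]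

theorem cen (h : DC π t) {P : Subgroup K} {A : Subgroup (Perm Ω)} (hP : IsSyl 2 (P.map π) A) (hA : A ≤ alternatingGroup Ω)
    (cl : ∀ σ ∈ A, ∀ τ ∈ alternatingGroup Ω, (∀ w, σ w = w → τ w = w) → τ ∈ A) {x : K} (hx : x ∈ P)
    (hc : ∀ y ∈ P, y * x = x * y) : x = 1 ∨ x = t := by
  refine h.ker x (by_contra fun n => ?_)
  obtain ⟨k, e⟩ := (IsPGroup.iff_orderOf.1 hP.isP) ⟨π x, mem_map_of_mem π hx⟩
  rw [Subgroup.orderOf_mk] at e
  obtain ⟨k, rfl⟩ : ∃ j, k = j + 1 := Nat.exists_eq_add_one.2 (Nat.pos_of_ne_zero fun q => n (by simpa [q] using e))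
  have z2 : π (x ^ 2 ^ k) * π (x ^ 2 ^ k) = 1 := by
    rw [map_pow, ← pow_add, ← mul_two, ← pow_succ, ← e, pow_orderOf_eq_one]
  have z1 : π (x ^ 2 ^ k) ≠ 1 := map_pow π x _ ▸ pow_ne_one_of_lt_orderOf (by positivity) (by rw [e, pow_succ]; have := Nat.two_pow_pos k; omega)
  have zc : ∀ y ∈ P, y * x ^ 2 ^ k = x ^ 2 ^ k * y := fun y m => (Commute.pow_right (hc y m) _).eq
  have zA : π (x ^ 2 ^ k) ∈ A := hP.le (mem_map_of_mem π (pow_mem hx _))
  generalize x ^ 2 ^ k = z at z2 z1 zc zA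
  obtain ⟨l, l1, l2, l3⟩ := conj_t h z2 z1
  obtain ⟨g, ⟨gA, gc⟩, q⟩ := (hP.of_le (L := A ⊓ centralizer {π z}) (le_inf hP.le (by
    rintro _ ⟨y, m, rfl⟩
    rw [mem_centralizer_singleton_iff, ← map_mul, zc y m, map_mul])) inf_le_left).exists_le_cjs (Q := zpowers (π l))
    (IsPGroup.of_card (n := if π l = 1 then 0 else 1) (by
      rw [Nat.card_zpowers]
      split_ifs with r
      exacts [by simp [r], (orderOf_eq_prime (by rw [pow_two, l2]) r).trans (pow_one 2).symm]))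
    (zpowers_le.2 ⟨cl _ zA _ (h.sgn l) l3, mem_centralizer_singleton_iff.2 (by
      rw [← mul_inv_eq_iff_eq_mul, ← map_inv, ← map_mul, ← map_mul, l1, map_mul, h.πt, mul_one])⟩)
  obtain ⟨k, rfl⟩ := h.surj g (hA gA)
  obtain ⟨y, m, r⟩ := mem_cjs.1 (q (mem_zpowers _))
  have c1 : Commute (k⁻¹ * l * k) z := by
    rcases h.eq_or (x := k⁻¹ * l * k) (y := y) (by simp [r]) with s | s <;> rw [s]
    exacts [zc y m, Commute.mul_left (zc y m) (h.cen z).symm]
  have c2 : Commute l (k * z * k⁻¹) := by simpa [mul_assoc] using c1.conj k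
  have c3 : Commute l z := by
    rcases h.eq_or (x := k * z * k⁻¹) (y := z) (by
      rw [map_mul, map_mul, map_inv, mem_centralizer_singleton_iff.1 gc, mul_inv_cancel_right]) with s | s <;> rw [s] at c2
    exacts [c2, by simpa [mul_assoc, h.sq] using c2.mul_right (h.cen l)]
  rw [c3.eq, mul_inv_cancel_right, left_eq_mul] at l1
  exact h.ne l1

theorem card_cen (h : DC π t) {P : Subgroup K} (k : ∀ x ∈ P, (∀ y ∈ P, y * x = x * y) → x = 1 ∨ x = t) :
    Nat.card (center P) ≤ 2 := by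
  have := h.finite
  rw [← h.orderOf_t, ← Nat.card_zpowers, ← card_map_of_injective P.subtype_injective]
  refine card_le_of_le ?_
  rintro _ ⟨x, m, rfl⟩
  rcases k x x.2 fun y n => congrArg Subtype.val (mem_center_iff.1 m ⟨y, n⟩) with e | e <;> rw [coe_subtype, e]
  exacts [one_mem _, mem_zpowers t]

end D2

theorem cen_two (h : DC π t) {P : Subgroup K} {S : Set Ω} (hP : Block.IsSyl 2 (P.map π) (altOn S)) {x : K} (hx : x ∈ P)
    (hc : ∀ y ∈ P, y * x = x * y) : x = 1 ∨ x = t :=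
  D2.cen h hP inf_le_left (fun _ m _ n q => ⟨n, (mem_fixingSubgroup_iff _).2 fun w r =>
    q w ((mem_fixingSubgroup_iff _).1 m.2 w r)⟩) hx hc

theorem dc_two (hM : IsPModular 2 M) [Finite K] (h : DC π t) : Rob 2 M K := fun B hB D hD χ hχ => by
  have Q : BlockB.PQuot 2 h.toAlt := ⟨h.toAlt_surj, by
    rw [h.ker_toAlt]; exact IsPGroup.of_card (n := 1) (by rw [Nat.card_zpowers, h.orderOf_t, pow_one]),
    BlockB.regCent_of_le_center (by rw [h.ker_toAlt, zpowers_le]; exact mem_center_iff.2 h.cen)⟩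
  have hb := Q.isPBlock_dom hM hB
  obtain ⟨B', hB', hc⟩ := Sn.exists_covers hM hb
  obtain ⟨δ, κ, w, m, e, d⟩ := Sn.exists_dat (I := Ω) hM hB' le_rfl
  have := BlockB.charP_k hM
  let T : Sylow 2 (alternatingGroup (Fin w × ZMod 2)) := default
  obtain ⟨S, hS⟩ := CF.Perm.exists_sylow_map_eq T
  obtain ⟨P, hP, h1, -⟩ := (isBlk_eb hM hB').exists_defGrp_inf (isBlk_ebs hM hb)
    (le_normalizer_of_normal' _ _) le_top hc ((isDefectGroup_iff_sub hM hb _).1 (Q.isDefectGroup_dom hM hB hD))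
  obtain ⟨g, hg⟩ := BlockB.IsDefectGroup.conj hM hB' (d.isDefectGroup S) ((isDefectGroup_iff hM hB' P).2 hP)
  let f := (Sn.embL e).comp (alternatingGroup _).subtype
  have fi : Function.Injective f := (Sn.embL_injective e).comp Subtype.val_injective
  have q : D.map ((MulAut.conj g⁻¹).toMonoidHom.comp π) = T.toSubgroup.map f := by
    have : cjs g (T.toSubgroup.map f) = D.map π := by
      rw [← map_map, hS, Sn.map_inf_alt, cjs_inf, hg, cjs_eq_of_normal, h1, map_map]; rfl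
    rw [← map_map, ← this]; exact cjs_inv_cjs _ _
  refine con_of_center hM hB hD hχ (D2.card_cen h fun x hx c => D2.cen (h.conj g⁻¹) (A := f.range) ?_ ?_ ?_ hx c)
  · rw [q]
    exact isSyl_of_card (map_le_range _ _) (by
      rw [card_map_of_injective fi, T.card_eq_multiplicity, Nat.card_congr (MonoidHom.ofInjective fi).toEquiv])
  · rintro _ ⟨a, rfl⟩
    exact mem_alternatingGroup.2 ((Sn.sign_embL e _).trans a.2)
  · rintro _ ⟨a, rfl⟩ τ n r
    have fx : ∀ y, τ (e (.inr y)) = e (.inr y) := fun y => r _ (Sn.emb_inr e _ y)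
    obtain ⟨a', b, rfl⟩ := Sn.mem_range_emb e (g := τ) fun x => by
      obtain ⟨y | y, s⟩ := e.surjective (τ (e (.inl x)))
      · exact ⟨y, s.symm⟩
      · simpa using τ.injective ((fx y).trans s)
    obtain rfl : b = 1 := Equiv.ext fun y => by simpa using fx y
    exact ⟨⟨a', by simpa [Sn.sign_emb] using n⟩, rfl⟩

end CF.Nf
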