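import Cfsg.Agent.Nf.A

/-! Neutral fermions: Clifford relations, the form, bosons. -/

set_option autoImplicit false

namespace CF.Nf

open Finset

namespace F1

theorem sn_sq (j : ℕ) (S : Finset ℕ) : sn j S * sn j S = 1 := by
  rw [sn, ← pow_add, ← two_mul, pow_mul]; simp

theorem sn_insert {i : ℕ} (j : ℕ) {S : Finset ℕ} (h : i ∉ S) :
    sn j (insert i S) = (if j < i then -1 else 1) * sn j S := by
  unfold sn
  rw [filter_insert]
  split_ifs
  · rw [card_insert_of_notMem (by simp [h]), pow_succ]; ring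
  · simp

theorem sn_erase {i : ℕ} (j : ℕ) {S : Finset ℕ} (h : i ∈ S) :
    sn j (S.erase i) = (if j < i then -1 else 1) * sn j S := by
  conv_rhs => rw [← insert_erase h, sn_insert j (notMem_erase i S)]
  split_ifs <;> ring

theorem ext {N : Type*} [AddCommMonoid N] [Module ℚ N] {f g : Fk →ₗ[ℚ] N}
    (h : ∀ S, f (Finsupp.single S 1) = g (Finsupp.single S 1)) : f = g :=
  Finsupp.lhom_ext' fun S => LinearMap.ext_ring (h S)

theorem cases3 (a : ℤ) : a = 0 ∨ (∃ j : ℕ, a = (j : ℤ) + 1) ∨ ∃ j : ℕ, a = -((j : ℤ) + 1) := by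
  rcases lt_trichotomy a 0 with h | h | h
  · exact Or.inr (Or.inr ⟨(-a - 1).toNat, by omega⟩)
  · exact Or.inl h
  · exact Or.inr (Or.inl ⟨(a - 1).toNat, by omega⟩)

theorem nop_succ (j : ℕ) : ((((j : ℤ) + 1).negOnePow : ℤ) : ℚ) = (-1) ^ (j + 1) := by
  rw [← Nat.cast_succ, Int.coe_negOnePow_natCast]; simp

end F1

open F1

theorem ph_single (a : ℤ) (S : Finset ℕ) (c : ℚ) : ph a (Finsupp.single S c) = c • phS a S := by
  simp [ph]

theorem ph_zero (S : Finset ℕ) (c : ℚ) :
    ph 0 (Finsupp.single S c) = Finsupp.single S (c * (-1) ^ #S) := by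
  rw [ph_single]; show c • Finsupp.single S _ = _; simp

theorem ph_pos (j : ℕ) (S : Finset ℕ) (c : ℚ) : ph ((j : ℤ) + 1) (Finsupp.single S c) =
    if j ∈ S then 0 else Finsupp.single (insert j S) (c * sn j S) := by
  rw [ph_single]
  show c • (if j ∈ S then 0 else Finsupp.single (insert j S) (sn j S)) = _
  split_ifs <;> simp

theorem ph_neg (j : ℕ) (S : Finset ℕ) (c : ℚ) : ph (-((j : ℤ) + 1)) (Finsupp.single S c) =
    if j ∈ S then Finsupp.single (S.erase j) (c * (2 * (-1) ^ (j + 1) * sn j S)) else 0 := by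
  rw [ph_single]
  show c • (if j ∈ S then Finsupp.single (S.erase j) (2 * (-1) ^ (j + 1) * sn j S) else 0) = _
  split_ifs
  · rw [Finsupp.smul_single, smul_eq_mul]
  · simp

namespace F1

theorem r0p (j : ℕ) (S : Finset ℕ) : ph 0 (ph (j + 1) (Finsupp.single S 1)) +
    ph (j + 1) (ph 0 (Finsupp.single S 1)) = 0 := by
  rw [ph_zero, ph_pos, ph_pos]
  split_ifs with h
  · simp
  · rw [ph_zero, ← Finsupp.single_add, card_insert_of_notMem h, pow_succ]; simp [mul_comm]

theorem r0n (j : ℕ) (S : Finset ℕ) : ph 0 (ph (-(j + 1)) (Finsupp.single S 1)) +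
    ph (-(j + 1)) (ph 0 (Finsupp.single S 1)) = 0 := by
  rw [ph_zero, ph_neg, ph_neg]
  split_ifs with h
  · rw [ph_zero, ← Finsupp.single_add, ← card_erase_add_one h, pow_succ (-1 : ℚ) #_]
    simp [mul_comm]
  · simp

theorem rpp (i j : ℕ) (S : Finset ℕ) : ph (i + 1) (ph (j + 1) (Finsupp.single S 1)) +
    ph (j + 1) (ph (i + 1) (Finsupp.single S 1)) = 0 := by
  by_cases hi : i ∈ S <;> by_cases hj : j ∈ S <;> simp only [ph_pos, hi, hj, if_true, if_false,
    map_zero, mem_insert, or_true, or_false, add_zero]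
  rcases lt_trichotomy i j with h | rfl | h
  · rw [if_neg h.ne, if_neg h.ne', Finset.insert_comm, ← Finsupp.single_add, sn_insert i hj,
      sn_insert j hi, if_pos h, if_neg h.not_gt]; simp [mul_comm]
  · simp
  · rw [if_neg h.ne, if_neg h.ne', Finset.insert_comm, ← Finsupp.single_add, sn_insert i hj,
      sn_insert j hi, if_pos h, if_neg h.not_gt]; simp [mul_comm]

theorem rnn (i j : ℕ) (S : Finset ℕ) : ph (-(i + 1)) (ph (-(j + 1)) (Finsupp.single S 1)) +
    ph (-(j + 1)) (ph (-(i + 1)) (Finsupp.single S 1)) = 0 := by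
  by_cases hi : i ∈ S <;> by_cases hj : j ∈ S <;> simp only [ph_neg, hi, hj, if_true, if_false,
    map_zero, mem_erase, and_true, and_false, add_zero]
  rcases lt_trichotomy i j with h | rfl | h
  · rw [if_pos h.ne, if_pos h.ne', erase_right_comm, ← Finsupp.single_add, sn_erase i hj,
      sn_erase j hi, if_pos h, if_neg h.not_gt]
    exact Finsupp.single_eq_zero.2 (by ring)
  · simp
  · rw [if_pos h.ne, if_pos h.ne', erase_right_comm, ← Finsupp.single_add, sn_erase i hj,
      sn_erase j hi, if_pos h, if_neg h.not_gt]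
    exact Finsupp.single_eq_zero.2 (by ring)

theorem rpn (i j : ℕ) (S : Finset ℕ) : ph (i + 1) (ph (-(j + 1)) (Finsupp.single S 1)) +
    ph (-(j + 1)) (ph (i + 1) (Finsupp.single S 1)) =
      (if i = j then (2 * (-1) ^ (i + 1) : ℚ) else 0) • Finsupp.single S 1 := by
  rcases eq_or_ne i j with rfl | h
  · by_cases hi : i ∈ S <;> simp only [ph_pos, ph_neg, hi, if_true, if_false, map_zero,
      notMem_erase, mem_insert, true_or, add_zero, zero_add, Finsupp.smul_single]
    · rw [insert_erase hi, sn_erase i hi, if_neg (lt_irrefl i)]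
      congr 1; linear_combination (2 * (-1) ^ (i + 1)) * sn_sq i S
    · rw [erase_insert hi, sn_insert i hi, if_neg (lt_irrefl i)]
      congr 1; linear_combination (2 * (-1) ^ (i + 1)) * sn_sq i S
  by_cases hi : i ∈ S <;> by_cases hj : j ∈ S <;> simp only [ph_pos, ph_neg, hi, hj, h, h.symm,
    if_true, if_false, map_zero, mem_erase, mem_insert, ne_eq, not_false_eq_true, and_true,
    and_false, or_true, or_false, add_zero, zero_smul]
  rw [erase_insert_of_ne h, ← Finsupp.single_add, sn_erase i hj, sn_insert j hi]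
  refine Finsupp.single_eq_zero.2 ?_
  rcases h.lt_or_gt with h | h
  · rw [if_pos h, if_neg h.not_gt]; ring
  · rw [if_pos h, if_neg h.not_gt]; ring

end F1

theorem ph_ph (a b : ℤ) (v : Fk) : ph a (ph b v) + ph b (ph a v) =
    (if a + b = 0 then 2 * ((a.negOnePow : ℤ) : ℚ) else 0) • v := by
  suffices h : ph a ∘ₗ ph b + ph b ∘ₗ ph a =
      (if a + b = 0 then 2 * ((a.negOnePow : ℤ) : ℚ) else 0) • LinearMap.id from
    LinearMap.congr_fun h v
  refine ext fun S => ?_
  show ph a (ph b _) + ph b (ph a _) = (_ : ℚ) • (Finsupp.single S 1 : Fk)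
  rcases cases3 a with rfl | ⟨i, rfl⟩ | ⟨i, rfl⟩ <;> rcases cases3 b with rfl | ⟨j, rfl⟩ | ⟨j, rfl⟩
  · rw [ph_zero, ph_zero, ← Finsupp.single_add, mul_assoc, ← pow_add, ← two_mul #S, pow_mul]
    norm_num
  · rw [r0p, if_neg (by omega), zero_smul]
  · rw [r0n, if_neg (by omega), zero_smul]
  · rw [add_comm, r0p, if_neg (by omega), zero_smul]
  · rw [rpp, if_neg (by omega), zero_smul]
  · rw [rpn, nop_succ]; congr 1; exact if_congr (by omega) rfl rfl
  · rw [add_comm, r0n, if_neg (by omega), zero_smul]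
  · rw [add_comm, rpn, Int.negOnePow_neg, nop_succ]; congr 1
    split_ifs with h1 h2 h2 <;> first | rfl | omega | rw [h1]
  · rw [rnn, if_neg (by omega), zero_smul]

theorem fm_single (S : Finset ℕ) (c : ℚ) (v : Fk) :
    fm (Finsupp.single S c) v = c * 2 ^ #S * v S := by
  simp [fm, mul_assoc]

theorem fm_ss (S T : Finset ℕ) (c d : ℚ) : fm (Finsupp.single S c) (Finsupp.single T d) =
    if S = T then c * 2 ^ #S * d else 0 := by
  rw [fm_single, Finsupp.single_apply]
  split_ifs with h1 h2 h2 <;> simp_all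

theorem fm_comm (u v : Fk) : fm u v = fm v u := by
  suffices h : fm = fm.flip from LinearMap.congr_fun₂ h u v
  refine ext fun S => ext fun T => ?_
  rw [LinearMap.flip_apply, fm_ss, fm_ss]
  split_ifs with h1 h2 h2 <;> simp_all

theorem fm_self_nonneg (v : Fk) : 0 ≤ fm v v := by
  conv_rhs => arg 1; rw [← v.sum_single, Finsupp.sum, map_sum]
  rw [LinearMap.sum_apply]
  refine sum_nonneg fun S _ => ?_
  rw [fm_single, mul_right_comm]
  exact mul_nonneg (mul_self_nonneg _) (by positivity)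

theorem F1.adj (j : ℕ) (S T : Finset ℕ) : fm (ph (j + 1) (Finsupp.single S 1)) (Finsupp.single T 1) =
    (-1) ^ (j + 1) * fm (Finsupp.single S 1) (ph (-(j + 1)) (Finsupp.single T 1)) := by
  rw [ph_pos, ph_neg]
  by_cases hS : j ∈ S <;> by_cases hT : j ∈ T <;>
    simp only [hS, hT, if_true, if_false, map_zero, LinearMap.zero_apply, mul_zero, fm_ss]
  · rw [if_neg (by rintro rfl; exact notMem_erase _ _ hS), mul_zero]
  · by_cases h : insert j S = T
    · subst h
      rw [if_pos rfl, if_pos (erase_insert hS).symm, card_insert_of_notMem hS, sn_insert j hS,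
        if_neg (lt_irrefl j)]
      have : ((-1 : ℚ) ^ (j + 1)) * (-1) ^ (j + 1) = 1 := by rw [← pow_add, ← two_mul, pow_mul]; simp
      linear_combination (-2 * 2 ^ #S * sn j S) * this
    · rw [if_neg h, if_neg (by rintro rfl; exact h (insert_erase hT)), mul_zero]
  · rw [if_neg (by rintro rfl; exact hT (mem_insert_self _ _))]

theorem fm_ph (a : ℤ) (u v : Fk) :
    fm (ph a u) v = ((a.negOnePow : ℤ) : ℚ) * fm u (ph (-a) v) := by
  suffices h : fm ∘ₗ ph a = ((a.negOnePow : ℤ) : ℚ) • fm.compl₂ (ph (-a)) from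
    LinearMap.congr_fun₂ h u v
  refine ext fun S => ext fun T => ?_
  show fm (ph a _) _ = _ * fm _ (ph (-a) _)
  rcases cases3 a with rfl | ⟨i, rfl⟩ | ⟨i, rfl⟩
  · rw [neg_zero, ph_zero, ph_zero, fm_ss, fm_ss]
    split_ifs with h
    · subst h; simp [mul_comm]
    · simp
  · rw [adj, nop_succ]
  · rw [neg_neg, fm_comm _ (ph _ _), adj, Int.negOnePow_neg, nop_succ, ← mul_assoc, ← pow_add,
      ← two_mul, pow_mul, fm_comm]
    simp

theorem ph_vac_neg {a : ℤ} (h : a < 0) : ph a vac = 0 := by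
  obtain ⟨j, rfl⟩ : ∃ j : ℕ, a = -((j : ℤ) + 1) := ⟨(-a - 1).toNat, by omega⟩
  rw [vac, ph_neg]; simp

theorem ph_vac_zero : ph 0 vac = vac := by rw [vac, ph_zero]; simp

theorem ph_max {S : Finset ℕ} {b : ℕ} (h : ∀ s ∈ S, s < b) :
    ph ((b : ℤ) + 1) (Finsupp.single S 1) = Finsupp.single (insert b S) 1 := by
  rw [ph_pos, if_neg fun hb => (h b hb).false, sn,
    filter_false_of_mem fun s hs => (h s hs).not_gt]
  simp

theorem ls_insert {S : Finset ℕ} {b : ℕ} (h : ∀ s ∈ S, s < b) :
    ls (insert b S) = ((b : ℤ) + 1) :: ls S := by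
  rw [ls, sort_insert _ (fun s hs => (h s hs).le) fun hb => (h b hb).false]; rfl

theorem vl_ls (S : Finset ℕ) : vl (ls S) = Finsupp.single S 1 := by
  induction S using Finset.induction_on_max with
  | empty => simp [ls, vl, vac]
  | insert b S h ih => rw [ls_insert h, ← ph_max h, ← ih]; rfl

namespace F1

theorem ls_empty : ls ∅ = [] := by simp [ls]

theorem H_max (r : ℤ) {S : Finset ℕ} {b : ℕ} (h : ∀ s ∈ S, s < b) :
    H r (ph ((b : ℤ) + 1) (Finsupp.single S 1)) = ph ((b : ℤ) + 1) (H r (Finsupp.single S 1)) +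
      ph ((b : ℤ) + 1 - r) (Finsupp.single S 1) := by
  rw [ph_max h]
  simp only [H, Finsupp.linearCombination_single, one_smul]
  rw [ls_insert h, ← vl_ls S]; rfl

/-- induction over basis vectors -/
theorem ind {P : Fk → Prop} (h0 : P vac) (h1 : ∀ (b : ℕ) (S : Finset ℕ), (∀ s ∈ S, s < b) →
    P (Finsupp.single S 1) → P (ph ((b : ℤ) + 1) (Finsupp.single S 1))) (S : Finset ℕ) :
    P (Finsupp.single S 1) := by
  induction S using Finset.induction_on_max with
  | empty => exact h0
  | insert b S h ih => rw [← ph_max h]; exact h1 b S h ih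

theorem ph_swap (a b : ℤ) (v : Fk) : ph a (ph b v) =
    (if a + b = 0 then 2 * ((a.negOnePow : ℤ) : ℚ) else 0) • v - ph b (ph a v) :=
  eq_sub_of_add_eq (ph_ph a b v)

theorem ph_supp (a : ℤ) (S : Finset ℕ) {b : ℕ} (ha : a ≤ b) (h : ∀ s ∈ S, s < b) :
    ∃ (c : ℚ) (T : Finset ℕ), (∀ s ∈ T, s < b) ∧
      ph a (Finsupp.single S 1) = c • Finsupp.single T 1 := by
  rcases cases3 a with rfl | ⟨i, rfl⟩ | ⟨i, rfl⟩
  · exact ⟨_, S, h, by rw [ph_zero, Finsupp.smul_single, smul_eq_mul, mul_one]⟩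
  · rw [ph_pos]
    split_ifs
    · exact ⟨0, S, h, by simp⟩
    · refine ⟨_, insert i S, fun s hs => ?_, by rw [Finsupp.smul_single, smul_eq_mul, mul_one]⟩
      rcases mem_insert.1 hs with rfl | hs
      exacts [by omega, h s hs]
  · rw [ph_neg]
    split_ifs
    · exact ⟨_, S.erase i, fun s hs => h s (mem_of_mem_erase hs),
        by rw [Finsupp.smul_single, smul_eq_mul, mul_one]⟩
    · exact ⟨0, S, h, by simp⟩

theorem nop_odd {r : ℤ} (hr : Odd r) (a : ℤ) :
    (((a - r).negOnePow : ℤ) : ℚ) = -((a.negOnePow : ℤ) : ℚ) := by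
  rw [Int.negOnePow_sub, Int.negOnePow_odd r hr]; simp

theorem nop_sq (a : ℤ) : ((a.negOnePow : ℤ) : ℚ) * ((a.negOnePow : ℤ) : ℚ) = 1 := by
  rcases Int.units_eq_one_or a.negOnePow with h | h <;> simp [h]

theorem ph_wv {r : ℤ} (hr : Odd r) {a : ℤ} (ha : a ≤ 0) :
    H r (ph a vac) = ph a (wv r) + ph (a - r) vac := by
  have e : ∀ j : ℤ, (j.negOnePow : ℤ) • ph a (ph (-r - j) (ph j vac)) =
      (if j = a - r then (-2 : ℚ) • ph (a - r) vac else 0) -
        (if j = -a then (2 : ℚ) • ph (a - r) vac else 0) +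
          (j.negOnePow : ℤ) • ph (-r - j) (ph j (ph a vac)) := by
    intro j
    rw [ph_swap a, ph_swap a j, map_sub, map_smul, ← Int.cast_smul_eq_zsmul ℚ,
      ← Int.cast_smul_eq_zsmul ℚ, smul_sub, smul_sub, smul_smul, smul_smul, sub_add, sub_right_inj.2]
    · congr 1
      split_ifs with h1 h2 h2 <;> try omega
      · rw [h2, nop_odd hr]; congr 1; linear_combination (-2) * nop_sq a
      · simp
    · congr 1
      split_ifs with h1 h2 h2 <;> try omega
      · rw [h2, Int.negOnePow_neg, show -r - -a = a - r by ring]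
        congr 1; linear_combination 2 * nop_sq a
      · simp
  have e0 : H r vac = wv r := by
    simp only [H, vac, Finsupp.linearCombination_single, one_smul, ls_empty]; rfl
  have e1 : H r (ph a vac) = (1 / 4 : ℚ) • ∑ j ∈ Icc (0 : ℤ) (-r),
      (j.negOnePow : ℤ) • ph (-r - j) (ph j (ph a vac)) := by
    rcases ha.eq_or_lt with rfl | h
    · rw [ph_vac_zero, e0, wv]
    · simp [ph_vac_neg h]
  rw [e1, wv, map_smul, map_sum]
  simp only [map_zsmul, e, sum_add_distrib, sum_sub_distrib, sum_ite_eq', mem_Icc]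
  rcases lt_or_ge (a - r) 0 with h | h
  · simp [ph_vac_neg h]
  · rw [if_pos ⟨h, by omega⟩, if_pos ⟨by omega, by omega⟩]; module

theorem fm_vac_ph {a : ℤ} (ha : 0 < a) (v : Fk) : fm vac (ph a v) = 0 := by
  rw [fm_comm, fm_ph, ph_vac_neg (by omega)]; simp

theorem fm_vac_vac : fm vac vac = 1 := by simp [vac, fm_ss]

theorem fm_vac_two (a b : ℤ) (hb : 0 ≤ b) : fm vac (ph a (ph b vac)) =
    if a + b = 0 then (if b = 0 then 1 else 2 * ((a.negOnePow : ℤ) : ℚ)) else 0 := by
  rcases hb.eq_or_lt with rfl | hb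
  · rw [ph_vac_zero, if_pos rfl, add_zero]
    rcases lt_trichotomy a 0 with h | rfl | h
    · rw [ph_vac_neg h, if_neg h.ne, map_zero]
    · rw [ph_vac_zero, if_pos rfl, fm_vac_vac]
    · rw [fm_vac_ph h, if_neg h.ne']
  · rw [ph_swap, map_sub, fm_vac_ph hb, map_smul, fm_vac_vac, if_neg hb.ne']
    simp

theorem fm_vac_wv {r : ℤ} (hr : Odd r) : fm vac (wv r) = 0 := by
  rw [wv, map_smul, map_sum, sum_eq_zero, smul_zero]
  intro j hj
  rw [map_zsmul, fm_vac_two _ _ (mem_Icc.1 hj).1, if_neg, smul_zero]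
  obtain ⟨k, rfl⟩ := hr
  omega

end F1

theorem H_vac (r : ℤ) : H r vac = wv r := by
  simp only [H, vac, Finsupp.linearCombination_single, one_smul, ls_empty]; rfl

theorem H_vac_pos {r : ℤ} (h : 0 < r) : H r vac = 0 := by
  rw [H_vac, wv, Icc_eq_empty (by omega)]; simp

theorem H_ph {r : ℤ} (hr : Odd r) (a : ℤ) (v : Fk) :
    H r (ph a v) = ph a (H r v) + ph (a - r) v := by
  suffices h : ∀ S a, H r (ph a (Finsupp.single S 1)) = ph a (H r (Finsupp.single S 1)) +
      ph (a - r) (Finsupp.single S 1) from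
    LinearMap.congr_fun (ext (f := H r ∘ₗ ph a) (g := ph a ∘ₗ H r + ph (a - r)) fun S => h S a) v
  intro S
  induction S using Finset.induction_on_max with
  | empty =>
    intro a
    rcases le_or_gt a 0 with h | h
    · exact (ph_wv hr h).trans (by rw [← H_vac]; rfl)
    · obtain ⟨j, rfl⟩ : ∃ j : ℕ, a = (j : ℤ) + 1 := ⟨(a - 1).toNat, by omega⟩
      exact H_max r (by simp)
  | insert b S h ih =>
    intro a
    rcases lt_or_ge ((b : ℤ) + 1) a with h1 | h1
    · obtain ⟨j, rfl⟩ : ∃ j : ℕ, a = (j : ℤ) + 1 := ⟨(a - 1).toNat, by omega⟩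
      refine H_max r fun s hs => ?_
      rcases mem_insert.1 hs with rfl | hs
      exacts [by omega, by have := h s hs; omega]
    rw [← ph_max h]
    set v : Fk := Finsupp.single S 1 with hv
    have key : H r (ph a (ph (b + 1) v)) - ph a (H r (ph (b + 1) v)) - ph (a - r) (ph (b + 1) v) +
        (H r (ph (b + 1) (ph a v)) - ph (b + 1) (H r (ph a v)) - ph (b + 1 - r) (ph a v)) = 0 := by
      rw [ih, ih a, map_add, map_add, ph_swap a (b + 1), ph_swap a (b + 1), ph_swap a (b + 1 - r),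
        ph_swap (a - r) (b + 1), map_sub, map_smul, nop_odd hr,
        show a - r + (b + 1) = a + (b + 1 - r) by ring]
      split_ifs <;> module
    rcases h1.eq_or_lt with rfl | h1
    · rw [← two_smul ℚ, smul_eq_zero, sub_sub, sub_eq_zero] at key
      exact key.resolve_left two_ne_zero
    · obtain ⟨c, T, hT, e⟩ := ph_supp a S (by omega : a ≤ b) h
      rw [hv, e, map_smul, map_smul, map_smul, map_smul, map_smul, H_max r hT, smul_add] at key
      rw [← sub_eq_zero, ← key, hv]; abel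

theorem fm_H {r : ℤ} (hr : Odd r) (u v : Fk) : fm (H r u) v = fm u (H (-r) v) := by
  have step : ∀ a u v, fm (H r (ph a u)) v - fm (ph a u) (H (-r) v) =
      ((a.negOnePow : ℤ) : ℚ) * (fm (H r u) (ph (-a) v) - fm u (H (-r) (ph (-a) v))) := by
    intro a u v
    rw [H_ph hr, H_ph hr.neg, map_add, LinearMap.add_apply, fm_ph, fm_ph, fm_ph, map_add,
      nop_odd hr, show -(a - r) = -a - -r by ring]
    ring
  suffices h : ∀ S v, fm (H r (Finsupp.single S 1)) v = fm (Finsupp.single S 1) (H (-r) v) from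
    LinearMap.congr_fun₂ (ext (f := fm ∘ₗ H r) (g := fm.compl₂ (H (-r))) fun S =>
      LinearMap.ext (h S)) u v
  refine ind (P := fun u => ∀ v, fm (H r u) v = fm u (H (-r) v)) (fun v => ?_)
    fun b S _ ih v => by rw [← sub_eq_zero, step, ih, sub_self, mul_zero]
  refine LinearMap.congr_fun (ext (f := fm (H r vac)) (g := fm vac ∘ₗ H (-r)) ?_) v
  refine ind (P := fun v => fm (H r vac) v = fm vac (H (-r) v)) ?_ fun b S _ _ => ?_
  · rw [fm_comm, H_vac, H_vac, fm_vac_wv hr, fm_vac_wv hr.neg]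
  · have := step (-(b + 1)) vac (Finsupp.single S 1)
    rw [ph_vac_neg (by omega), neg_neg] at this
    simp only [map_zero, LinearMap.zero_apply, sub_self, zero_eq_mul, sub_eq_zero] at this
    refine this.resolve_left fun h => ?_
    have := nop_sq (-(b + 1))
    rw [h, mul_zero] at this
    exact zero_ne_one this

theorem H_H {r s : ℤ} (hr : Odd r) (hs : Odd s) (v : Fk) :
    H r (H s v) - H s (H r v) = (if r + s = 0 then (r : ℚ) / 2 else 0) • v := by
  let C : Fk →ₗ[ℚ] Fk := H r ∘ₗ H s - H s ∘ₗ H r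
  have hC : ∀ v, C v = H r (H s v) - H s (H r v) := fun _ => rfl
  have cm : ∀ a v, C (ph a v) = ph a (C v) := fun a v => by
    simp only [hC, H_ph hr, H_ph hs, map_add, map_sub, sub_right_comm a r s]; abel
  have pos : ∀ {r s : ℤ}, Odd r → Odd s → 0 < r → s < 0 →
      fm vac (H r (H s vac)) = if r + s = 0 then (r : ℚ) / 2 else 0 := by
    intro r s hr hs h1 h2
    rw [H_vac, wv, map_smul, map_smul, map_sum, map_sum]
    have e : ∀ j ∈ Icc (0 : ℤ) (-s), fm vac (H r ((j.negOnePow : ℤ) • ph (-s - j) (ph j vac))) =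
        if r + s = 0 then 2 - (if j = 0 then 1 else 0) - (if j = -s then 1 else 0) else 0 := by
      intro j hj
      obtain ⟨h3, h4⟩ := mem_Icc.1 hj
      rw [map_zsmul, map_zsmul, H_ph hr, H_ph hr, H_vac_pos h1, map_zero, zero_add, map_add,
        fm_vac_two _ _ h3, ← Int.cast_smul_eq_zsmul ℚ, smul_eq_mul]
      by_cases h : r + s = 0
      · obtain rfl : s = -r := by omega
        rw [if_pos h, if_pos (by omega), show - -r - j - r = -j by ring, Int.negOnePow_neg]
        rcases h4.eq_or_lt with rfl | h4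
        · rw [if_neg (by omega), if_neg (by omega), if_pos rfl, neg_neg, sub_self, ph_vac_zero,
            ph_vac_zero, fm_vac_vac, Int.negOnePow_odd r hr]
          norm_num
        · rw [ph_vac_neg (a := j - r) (by omega), if_neg h4.ne]
          split_ifs with h5
          · subst h5; norm_num
          · simp only [map_zero]; linear_combination 2 * nop_sq j
      · rw [if_neg h, if_neg (by omega), add_zero]
        rcases lt_or_ge (j - r) 0 with h5 | h5
        · simp [ph_vac_neg h5]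
        · rw [fm_vac_two _ _ h5, if_neg (by omega), mul_zero]
    rw [sum_congr rfl e]
    split_ifs with h
    · obtain rfl : s = -r := by omega
      simp only [sum_sub_distrib, sum_ite_eq', mem_Icc, sum_const, Int.card_Icc, neg_neg, le_refl,
        h1.le, and_self, if_true, smul_eq_mul, nsmul_eq_mul]
      rw [← Int.cast_natCast, Int.toNat_of_nonneg (by omega)]
      push_cast; ring
    · simp
  have z : ∀ {r s : ℤ}, Odd r → r < 0 → fm vac (H r (H s vac)) = 0 := by
    intro r s hr h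
    rw [← neg_neg r, ← fm_H hr.neg, H_vac_pos (by omega)]; simp
  have c0 : fm vac (C vac) = if r + s = 0 then (r : ℚ) / 2 else 0 := by
    rw [hC, map_sub]
    have n0 : ∀ {r : ℤ}, Odd r → r ≠ 0 := fun ⟨k, h⟩ => by omega
    rcases (n0 hr).lt_or_gt with h1 | h1 <;> rcases (n0 hs).lt_or_gt with h2 | h2
    · rw [z hr h1, z hs h2, if_neg (by omega), sub_self]
    · rw [z hr h1, pos hs hr h2 h1, add_comm s r]
      split_ifs with h
      · obtain rfl : s = -r := by omega
        push_cast; ring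
      · simp
    · rw [z hs h2, pos hr hs h1 h2, sub_zero]
    · rw [H_vac_pos h1, H_vac_pos h2, if_neg (by omega)]; simp
  have c1 : C vac = (if r + s = 0 then (r : ℚ) / 2 else 0) • vac := by
    ext S
    have : ∀ S, fm (Finsupp.single S 1) (C vac) = fm (Finsupp.single S 1)
        ((if r + s = 0 then (r : ℚ) / 2 else 0) • vac) := by
      refine ind (P := fun u => fm u (C vac) = fm u (_ • vac)) ?_ fun b S _ _ => ?_
      · rw [c0, map_smul, fm_vac_vac, smul_eq_mul, mul_one]
      · rw [fm_ph, fm_ph, ← cm, map_smul, ph_vac_neg (by omega)]; simp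
    have := this S
    rw [fm_single, fm_single] at this
    exact mul_left_cancel₀ (by positivity) this
  refine LinearMap.congr_fun (ext (f := C)
    (g := (if r + s = 0 then (r : ℚ) / 2 else 0) • LinearMap.id) ?_) v
  exact ind (P := fun u => C u = (if r + s = 0 then (r : ℚ) / 2 else 0) • u) c1
    fun b S _ ih => by rw [cm, ih, map_smul]

theorem U_zero : U 0 = vac := by simp [U]

theorem F1.Hn_comm (r s : ℕ) (v : Fk) : Hn r (Hn s v) = Hn s (Hn r v) := by
  unfold Hn
  split_ifs with h1 h2 h2 <;> try simp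
  have := H_H (r := -r) (s := -s) (by simpa using h1) (by simpa using h2) v
  rwa [if_neg (by have := h1.pos; omega), zero_smul, sub_eq_zero] at this

theorem U_cons (r : ℕ) (μ : Multiset ℕ) : U (r ::ₘ μ) = Hn r (U μ) := by
  have : LeftCommutative fun (r : ℕ) (v : Fk) => Hn r v := ⟨Hn_comm⟩
  have h : (r ::ₘ μ).toList.Perm (r :: μ.toList) := by
    rw [← Multiset.coe_eq_coe, Multiset.coe_toList, ← Multiset.cons_coe, Multiset.coe_toList]
  exact h.foldr_eq vac

theorem fm_U_cons {r : ℕ} (hr : Odd r) (μ : Multiset ℕ) (v : Fk) :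
    fm (U (r ::ₘ μ)) v = fm (U μ) (H r v) := by
  rw [U_cons, Hn, if_pos hr, fm_H (by simpa using hr), neg_neg]

end CF.Nf
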