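import Cfsg.Agent.Nf.A
import Cfsg.Agent.Block.Sn11

/-! Codefect of characters of alternating groups, `p` odd. -/

set_option autoImplicit false

namespace CF.Nf

open Cfsg Equiv Finset Block Block.Sn

variable {Ω : Type*} [Fintype Ω] [DecidableEq Ω] {p : ℕ} {M : Ideal AlgInt}

theorem PA.card_support_embL {A B : Type*} [Fintype A] (e : A ⊕ B ≃ Ω) (a : Perm A) :
    (embL e a).support.card ≤ Fintype.card A := by
  refine (card_le_card (t := univ.image fun x => e (Sum.inl x)) fun x hx => ?_).trans card_image_le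
  obtain ⟨y | y, rfl⟩ := e.surjective x
  · exact mem_image_of_mem _ (mem_univ y)
  · simp at hx

theorem pa (hM : IsPModular p M) (h2 : p ≠ 2) (θ : IrrCharacter (alternatingGroup Ω))
    {u y : alternatingGroup Ω} (hc : Commute u y) (hu : ∃ k, u ^ p ^ k = 1) (hy : ¬ p ∣ orderOf y)
    (h : (θ : alternatingGroup Ω → ℂ) (u * y) ≠ 0) :
    (charDegree (θ : alternatingGroup Ω → ℂ)).factorization p + (u : Perm Ω).support.card / p ≤
      (Nat.card (alternatingGroup Ω)).factorization p := by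
  have hp := hM.1
  have := Fact.mk hp
  have := BlockB.charP_k hM
  have hb := BlockB.isPBlock_blockOf (M := M) θ
  have hθ := BlockB.mem_blockOf_self hM θ
  obtain ⟨B, hB, hcv⟩ := exists_covers hM hb
  obtain ⟨δ, κ, w, m, e, hd⟩ := exists_dat (I := Fin (Fintype.card Ω)) hM hB (by simp)
  obtain ⟨D, hD⟩ := BlockB.exists_defectGroup hM hb
  obtain ⟨c, h1⟩ := BlockB.exists_conj_mem_of_ne_zero hM hb hD hθ h
  obtain ⟨k, hk⟩ := hu
  obtain ⟨j, -, hj⟩ := (Nat.dvd_prime_pow hp).1 (orderOf_dvd_of_pow_eq_one hk)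
  rw [BlockB.pPart_mul_of_commute hp hc ⟨j, hj⟩ hy] at h1
  obtain ⟨P, hP, h3, -⟩ := (isBlk_eb hM hB).exists_defGrp_inf (isBlk_ebs hM hb)
    (le_normalizer_of_normal' _ _) le_top hcv ((isDefectGroup_iff_sub hM hb D).1 hD)
  obtain ⟨g, rfl⟩ := BlockB.IsDefectGroup.conj hM hB (hd.isDefectGroup default)
    ((isDefectGroup_iff hM hB P).2 hP)
  obtain ⟨a, -, ha⟩ := mem_cjs.1 (h3.ge ⟨_, h1, rfl⟩).1
  have h4 : (u : Perm Ω).support.card / p ≤ w := by
    have := PA.card_support_embL e a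
    rw [ha, show g⁻¹ * (alternatingGroup Ω).subtype (c * u * c⁻¹) * g =
      (g⁻¹ * c) * (u : Perm Ω) * (g⁻¹ * c)⁻¹ by simp [mul_assoc], Perm.card_support_conj] at this
    exact Nat.div_le_of_le_mul (by simpa [mul_comm] using this)
  have h5 := BlockB.blockDefect_add_minExp (p := p) ⟨θ, hθ⟩
  have h6 := BlockB.minExp_le (p := p) hθ
  have h22 : (2 : ℕ).factorization p = 0 := Nat.factorization_eq_zero_of_not_dvd fun h =>
    h2 ((Nat.prime_dvd_prime_iff_eq hp Nat.prime_two).1 h)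
  rcases Nat.eq_zero_or_pos w with rfl | hw
  · have h7 := hd.defect_alt_le hb hcv (by omega)
    have h8 := mt (BlockB.height_add_two_le hM hb hθ) (by split_ifs at h7 <;> omega)
    rw [BlockB.blockHeight_eq] at h8
    omega
  obtain ⟨χ, hχ, h7⟩ := exists_over_of_covers hM hB hb hcv hθ
  obtain ⟨c, h8, hr⟩ := hd.ovr χ hχ
  have h9 := h8.adm hd.del χ.2
  have h10 := np_dvd hp.pos h9.inj
  rw [hd.wt_eq h9 hr] at h10
  have h11 := (Nat.factorization_le_iff_dvd (ne_zero_of_dvd_ne_zero w.factorial_ne_zero h10)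
    w.factorial_ne_zero).2 h10 p
  have h12 := hd.height_alt hw hb hcv χ.2 h8 hr hθ h7
  have : Nontrivial (Fin w × ZMod p) := Fintype.one_lt_card_iff_nontrivial.1 (by
    have := Nat.mul_le_mul hw hp.two_le
    simp; omega)
  have h13 := factorization_card_alt (p := p) (Fin w × ZMod p)
  rw [← hd.defect_alt hb hcv, Nat.card_perm, Nat.card_prod, Nat.card_fin, Nat.card_zmod,
    factorization_factorial_eq hp, Nat.mul_div_cancel _ hp.pos] at h13
  rw [BlockB.blockHeight_eq] at h12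
  omega

end CF.Nf
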