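import Cfsg.Agent.Nf.R
import Cfsg.Agent.Nf.PZ
import Cfsg.Agent.Nf.L
import Cfsg.Agent.Nf.PA
import Cfsg.Agent.Nf.C1
import Cfsg.Agent.Nf.C6
import Cfsg.Agent.Recog.DCIso

/-! Odd primes. -/

set_option autoImplicit false

namespace CF.Nf

open Cfsg Equiv Finset CF.Recog Subgroup

variable {Ω : Type*} [Fintype Ω] [DecidableEq Ω] {p : ℕ} {M : Ideal AlgInt}

namespace O

variable {G : Type*} [Group G] [Finite G] {π : G →* Perm Ω} {B : Set (IrrCharacter G)}
  {D : Subgroup G} {χ : IrrCharacter G}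

theorem con (hM : IsPModular p M) (h2 : p ≠ 2) (hk : ¬ p ∣ Nat.card π.ker) (hB : IsPBlock M B)
    (hD : IsDefectGroup p M B D) (hχ : χ ∈ B) (h : (charDegree (χ : G → ℂ)).factorization p +
      mv (D.map π) / p ≤ (Nat.card G).factorization p) : Con p B D χ := by
  have := Fact.mk hM.1
  have hP : IsPGroup p D := IsPGroup.of_card (BlockB.card_defectGroup hM hB hD)
  have e : D ≃* D.map π := MulEquiv.ofBijective (π.subgroupMap D)
    ⟨(injective_iff_map_eq_one _).2 fun x hx => by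
      obtain ⟨k, hk'⟩ := IsPGroup.iff_orderOf.1 hP x
      have h1 : orderOf (x : G) ∣ Nat.card π.ker :=
        π.ker.orderOf_dvd_natCard (congrArg Subtype.val hx)
      rw [Subgroup.orderOf_coe, hk'] at h1
      rcases k with _ | k
      · exact orderOf_eq_one_iff.1 hk'
      · exact absurd ((dvd_pow_self p k.succ_ne_zero).trans h1) hk, π.subgroupMap_surjective D⟩
  obtain ⟨h3, h4⟩ := pz hM.1 h2 (hP.map π)
  rw [← R.card_center e] at h3
  rw [← R.card_center e, ← R.comm_congr e] at h4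
  exact con_of_w hM hB hD hχ h h3 h4

theorem unf (hM : IsPModular p M) (h2 : p ≠ 2) {τ : G →* alternatingGroup Ω}
    (hτ : Function.Surjective τ) (e : ∀ g, (τ g : Perm Ω) = π g) (hz : π.ker ≤ center G)
    (hk : ¬ p ∣ Nat.card π.ker) (hB : IsPBlock M B) (hD : IsDefectGroup p M B D) (hχ : χ ∈ B)
    (h : ∀ g ∈ π.ker, (χ : G → ℂ) g = (χ : G → ℂ) 1) : Con p B D χ := by
  refine con hM h2 hk hB hD hχ ?_
  have := Fact.mk hM.1
  have hP : IsPGroup p D := IsPGroup.of_card (BlockB.card_defectGroup hM hB hD)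
  obtain ⟨u, hu, y, h3, h4, h5, h6⟩ := loc hM h2 hz hk (fun σ hσ =>
    (hτ ⟨σ, hσ⟩).imp fun g hg => (e g).symm.trans (congrArg Subtype.val hg)) hB hD hχ
  obtain ⟨θ, hθ, h7⟩ := Char.exists_irr_of_ker_le χ.2 τ hτ fun g hg =>
    (Char.mem_charKer_iff (Char.irr_isCharacter χ.2)).2
      (h g ((e g).symm.trans (congrArg Subtype.val hg)))
  obtain ⟨k, hk'⟩ := hP ⟨u, hu⟩
  have h8 := pa hM h2 ⟨θ, hθ⟩ (h3.map τ)
    ⟨k, by rw [← map_pow, show u ^ p ^ k = 1 from congrArg Subtype.val hk', map_one]⟩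
    (fun h8 => h4 (h8.trans (orderOf_map_dvd τ y))) (by rw [← map_mul]; rwa [h7] at h5)
  have h9 : mv (D.map π) ≤ (τ u : Perm Ω).support.card := by
    classical
    rw [mv, Nat.card_eq_fintype_card, Fintype.card_subtype]
    refine card_le_card fun x hx => ?_
    obtain ⟨_, ⟨d, hd, rfl⟩, hx⟩ := (mem_filter.1 hx).2
    rw [Perm.mem_support, e]
    exact h6 x ⟨d, hd, hx⟩
  have h10 : charDegree (χ : G → ℂ) = charDegree θ := by rw [h7]; simp only [charDegree, map_one]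
  rw [h10]
  refine ((Nat.add_le_add_left (Nat.div_le_div_right h9) _).trans h8).trans ?_
  exact (Nat.factorization_le_iff_dvd Nat.card_pos.ne' Nat.card_pos.ne').2
    (card_dvd_of_surjective τ hτ) p

end O

theorem alt_odd (hM : IsPModular p M) (h2 : p ≠ 2) : Rob p M (alternatingGroup Ω) := by
  intro B hB D hD χ hχ
  have e := (alternatingGroup Ω).ker_subtype
  refine O.unf hM h2 (π := (alternatingGroup Ω).subtype) (τ := MonoidHom.id _)
    Function.surjective_id (fun _ => rfl) (e ▸ bot_le) (by simpa [e] using hM.1.ne_one) hB hD hχ ?_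
  rw [e]
  rintro _ rfl
  rfl

theorem dc_odd (hM : IsPModular p M) (h2 : p ≠ 2) {K : Type*} [Group K] [Finite K] {m : ℕ}
    {π : K →* Perm (Fin (m + 3))} {t : K} (h : DC π t) : Rob p M K := by
  obtain ⟨Γ, _, _, ι, _, _, π', z, ρ, γ, hc⟩ := exists_cl (m + 2)
  have hd := hc.dc
  obtain ⟨ε, -⟩ := dc_equiv h hd
  refine Rob.congr hM ε fun B hB D hD χ hχ => ?_
  have hk : (π'.comp (Ev π').subtype).ker = zpowers ⟨z, hc.z_mem⟩ := by
    rw [← hd.ker_toAlt]; exact (MonoidHom.ker_codRestrict _ _ _).symm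
  have hk' : ¬ p ∣ Nat.card (π'.comp (Ev π').subtype).ker := by
    rw [hk, Nat.card_zpowers, hd.orderOf_t, Nat.prime_dvd_prime_iff_eq hM.1 Nat.prime_two]
    exact h2
  by_cases hf : (χ : Ev π' → ℂ) ⟨z, hc.z_mem⟩ = (χ : Ev π' → ℂ) 1
  · refine O.unf hM h2 hd.toAlt_surj (fun _ => rfl)
      (hk ▸ zpowers_le.2 (mem_center_iff.2 hd.cen)) hk' hB hD hχ fun g hg => ?_
    rcases hd.ker g hg with rfl | rfl
    exacts [rfl, hf]
  · exact O.con hM h2 hk' hB hD hχ (hc.spin hM h2 hB hD hχ hf)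

end CF.Nf
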