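import Cfsg.Agent.Nf.A
import Cfsg.Agent.Block.Sn11
import Cfsg.Agent.Block.Cyc3
import Cfsg.Agent.BlockB.Dom

/-! Reductions for S4578. -/

set_option autoImplicit false

namespace CF.Nf

open Cfsg Subgroup

variable {p : ℕ} {M : Ideal AlgInt} {G : Type*} [Group G] [Finite G] {B : Set (IrrCharacter G)}
  {D : Subgroup G} {χ : IrrCharacter G}

theorem R.base (hM : IsPModular p M) (hB : IsPBlock M B) (hD : IsDefectGroup p M B D)
    (h : ∀ c, Nat.card (center D) = p ^ c → (IsMulCommutative D → c = blockDefect p B) →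
      (blockDefect p B ≠ 0 → c ≠ 0) →
      blockHeight p B (χ : G → ℂ) + c ≤ blockDefect p B ∧
      (¬ IsMulCommutative D → blockHeight p B (χ : G → ℂ) + c < blockDefect p B)) :
    Con p B D χ := by
  have := Fact.mk hM.1
  have hd := BlockB.card_defectGroup hM hB hD
  obtain ⟨c, hc, e⟩ := (Nat.dvd_prime_pow hM.1).1 (hd ▸ card_subgroup_dvd_card (center D))
  have hi : (center D).index = p ^ (blockDefect p B - c) := by
    refine Nat.eq_of_mul_eq_mul_left (pow_pos hM.1.pos c) ?_
    rw [← pow_add, Nat.add_sub_cancel' hc, ← e, card_mul_index, hd]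
  have h1 : IsMulCommutative D → c = blockDefect p B := fun h1 => by
    have : center D = ⊤ := eq_top_iff.2 fun x _ => mem_center_iff.2 fun y => h1.is_comm.comm y x
    rw [this, card_top, hd] at e
    exact (Nat.pow_right_injective hM.1.two_le e).symm
  have h2 : blockDefect p B ≠ 0 → c ≠ 0 := fun h2 h3 => by
    have : Nontrivial D := Finite.one_lt_card_iff_nontrivial.1 (hd ▸ Nat.one_lt_pow h2 hM.1.one_lt)
    have := (IsPGroup.of_card hd).center_nontrivial
    exact (Finite.one_lt_card (α := center D)).ne' (by rw [e, h3, pow_zero])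
  obtain ⟨h3, h4⟩ := h c e h1 h2
  rw [Con, hi, hM.1.factorization_pow, Finsupp.single_eq_same]
  refine ⟨by omega, fun h5 => by_contra fun h6 => ?_, fun h5 => ?_⟩
  · have := h4 h6; omega
  · have := h1 h5; omega

theorem con_of_w (hM : IsPModular p M) (hB : IsPBlock M B) (hD : IsDefectGroup p M B D) (hχ : χ ∈ B)
    {w : ℕ} (h : (charDegree (χ : G → ℂ)).factorization p + w ≤ (Nat.card G).factorization p)
    (h1 : Nat.card (Subgroup.center D) ≤ p ^ w)
    (h2 : ¬ IsMulCommutative D → p * Nat.card (Subgroup.center D) ≤ p ^ w) : Con p B D χ := by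
  refine R.base hM hB hD fun c e _ _ => ?_
  have h3 := BlockB.blockDefect_add_minExp (p := p) ⟨χ, hχ⟩
  have h4 := BlockB.minExp_le (p := p) hχ
  rw [e, Nat.pow_le_pow_iff_right hM.1.one_lt] at h1
  rw [e, ← pow_succ', Nat.pow_le_pow_iff_right hM.1.one_lt] at h2
  rw [BlockB.blockHeight_eq]
  exact ⟨by omega, fun h5 => by have := h2 h5; omega⟩

theorem R.zero (hM : IsPModular p M) (hB : IsPBlock M B) (hD : IsDefectGroup p M B D)
    (h : blockHeight p B (χ : G → ℂ) = 0) (hc : IsMulCommutative D) : Con p B D χ :=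
  R.base hM hB hD fun c _ h1 _ => ⟨by rw [h, h1 hc, zero_add], fun h2 => absurd hc h2⟩

theorem con_of_small (hM : IsPModular p M) (hB : IsPBlock M B) (hD : IsDefectGroup p M B D)
    (hχ : χ ∈ B) (h : Nat.card D ≤ p ^ 2) : Con p B D χ := by
  have := Fact.mk hM.1
  have hd := BlockB.card_defectGroup hM hB hD
  rw [hd, Nat.pow_le_pow_iff_right hM.1.one_lt] at h
  refine R.zero hM hB hD (by_contra fun h0 => ?_) (Block.Sn.isMulCommutative_of_card h hd)
  have := BlockB.height_add_two_le hM hB hχ h0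
  omega

theorem con_of_center (hM : IsPModular p M) (hB : IsPBlock M B) (hD : IsDefectGroup p M B D)
    (hχ : χ ∈ B) (h : Nat.card (Subgroup.center D) ≤ p) : Con p B D χ := by
  rcases le_or_gt (blockDefect p B) 2 with h1 | h1
  · exact con_of_small hM hB hD hχ
      (BlockB.card_defectGroup hM hB hD ▸ Nat.pow_le_pow_right hM.1.pos h1)
  refine R.base hM hB hD fun c e _ _ => ?_
  have h2 : c ≤ 1 := (Nat.pow_le_pow_iff_right hM.1.one_lt).1 (by rwa [← e, pow_one])
  by_cases h0 : blockHeight p B (χ : G → ℂ) = 0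
  · omega
  · have := BlockB.height_add_two_le hM hB hχ h0
    omega

theorem con_of_cyclic (hM : IsPModular p M) (hB : IsPBlock M B) (hD : IsDefectGroup p M B D)
    (hχ : χ ∈ B) (h : IsCyclic D) : Con p B D χ := by
  have := Fact.mk hM.1
  have := BlockB.charP_k hM
  have := Fintype.ofFinite G
  by_cases hP : D = ⊥
  · exact con_of_small hM hB hD hχ (by rw [hP, card_bot]; exact Nat.one_le_pow _ _ hM.1.pos)
  obtain ⟨e, he⟩ := ((Block.isDefectGroup_iff hM hB D).1 hD).exists_maxPair (Block.isBlk_eb hM hB)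
  obtain ⟨w, ζ, c, δ, h1, hc⟩ := (Block.fS_of_cyc hM hB he h).exists_fD_cyc h hP
  exact R.zero hM hB hD (h1.height_zero hP hc hχ) inferInstance

omit [Finite G] in
theorem R.comm_congr {K : Type*} [Group K] (e : G ≃* K) : IsMulCommutative G ↔ IsMulCommutative K :=
  ⟨CF.Perm.isMulCommutative_of_injective (f := e.symm.toMonoidHom) e.symm.injective,
    CF.Perm.isMulCommutative_of_injective (f := e.toMonoidHom) e.injective⟩

omit [Finite G] in
theorem R.card_center {K : Type*} [Group K] (e : G ≃* K) :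
    Nat.card (center G) = Nat.card (center K) := Nat.card_congr (centerCongr e).toEquiv

theorem Rob.congr (hM : IsPModular p M) {K : Type*} [Group K] (e : G ≃* K) (h : Rob p M K) :
    Rob p M G := by
  intro B hB D hD χ hχ
  have : Finite K := Finite.of_equiv G e.toEquiv
  have hk : e.toMonoidHom.ker = ⊥ := (MonoidHom.ker_eq_bot_iff _).2 e.injective
  have hπ : BlockB.PQuot p e.toMonoidHom := ⟨e.surjective, hk ▸ IsPGroup.of_bot,
    BlockB.regCent_of_le_center (hk ▸ bot_le)⟩
  let ψ : IrrCharacter K := BlockB.infl (π := e.symm.toMonoidHom) e.symm.surjective χ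
  have h1 : BlockB.infl hπ.surj ψ = χ := Subtype.ext (funext fun g => by simp [ψ, BlockB.infl])
  have h2 := h _ (hπ.isPBlock_dom hM hB) _ (hπ.isDefectGroup_dom hM hB hD) ψ
    ((BlockB.mem_dom_iff hπ.surj).2 (h1 ▸ hχ))
  have f : D ≃* D.map e.toMonoidHom := D.equivMapOfInjective _ e.injective
  have h3 : (center D).index = (center (D.map e.toMonoidHom)).index := by
    refine Nat.eq_of_mul_eq_mul_left (Nat.card_pos (α := center D)) ?_
    rw [card_mul_index, R.card_center f, card_mul_index, Nat.card_congr f.toEquiv]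
  rwa [Con, ← hπ.blockHeight_infl hM hB, h1, ← h3, ← R.comm_congr f] at h2

end CF.Nf
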