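import Cfsg.Agent.Nf.D2
import Cfsg.Agent.Schur.Alt
import Cfsg.Agent.Transfer.Tate

/-! S4578: covers of the alternating groups of degree six and seven. -/

set_option autoImplicit false

namespace CF.Nf

open Cfsg Equiv Equiv.Perm Subgroup CF.Recog CF.Block

namespace S

variable {X : Type*} [Group X] [Finite X] {p : ℕ}

theorem cube (hp : p.Prime) (h : Nat.card X = p ^ 3) (n : ¬ IsMulCommutative X) : Nat.card (center X) ≤ p := by
  have := Fact.mk hp
  obtain ⟨c, hc, e⟩ := (Nat.dvd_prime_pow hp).1 (h ▸ card_subgroup_dvd_card (center X))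
  by_contra k
  have c2 : 2 ≤ c := by
    by_contra q
    exact k (e ▸ (Nat.pow_le_pow_right hp.pos (by omega)).trans (pow_one p).le)
  have : IsCyclic (X ⧸ center X) := isCyclic_of_card_dvd_prime (p := p) (by
    rw [← mul_dvd_mul_iff_left (pow_ne_zero 2 hp.ne_zero), ← pow_succ, ← h, ← (center X).card_mul_index, e]
    exact mul_dvd_mul_right (pow_dvd_pow p c2) _)
  exact n (isMulCommutative_of_isCyclic_quotient_center_self X)

theorem le_two {H : Subgroup X} {Y : Type*} [One Y] {f : X → Y} (i : Function.Injective f) {t : Y} (h : ∀ x ∈ H, f x = 1 ∨ f x = t) :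
    Nat.card H ≤ 2 := by
  classical
  refine (Nat.card_le_card_of_injective (fun x : H => decide (f x = 1)) fun x y e => Subtype.ext (i ?_)).trans (by simp)
  rcases h x x.2 with p | p <;> rcases h y y.2 with q | q <;> simp_all

theorem cyc (h : Nat.card X = 8) (c : IsMulCommutative X) {Y : Type*} [One Y] {f : X → Y} (i : Function.Injective f) {t : Y}
    (k : ∀ x, x * x = 1 → f x = 1 ∨ f x = t) : IsCyclic X := by
  let s : X →* X := MonoidHom.mk' (fun x => x * x) fun a b => by
    rw [mul_assoc, mul_assoc, ← mul_assoc b, c.is_comm.comm b a, mul_assoc]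
  by_cases q : ∀ x : X, x * x * (x * x) = 1
  · have h1 := le_two (H := s.ker) i fun x m => k x m
    have h2 := le_two (H := s.range) i (by rintro _ ⟨x, rfl⟩; exact k _ (q x))
    have := s.ker.card_mul_index
    rw [index_ker, h] at this
    have := Nat.mul_le_mul h1 h2
    omega
  obtain ⟨x, q⟩ := not_forall.1 q
  obtain ⟨j, hj, e⟩ := (Nat.dvd_prime_pow Nat.prime_two (m := 3)).1 (h ▸ orderOf_dvd_natCard x :)
  refine isCyclic_of_orderOf_eq_card x (by_contra fun n => q ?_)
  have : orderOf x ∣ 4 := by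
    rw [e, h] at *
    interval_cases j <;> simp_all
  simpa [pow_succ, mul_assoc] using orderOf_dvd_iff_pow_eq_one.1 this

universe u
variable {K : Type u} [Group K] [Finite K] {n : ℕ} {π : K →* Perm (Fin n)} {g : K}

omit [Finite K] in
/-- the quotient by the subgroup of order three is a double cover -/
theorem dc (hK : commutator K = ⊤) (hg : g ^ 6 = 1) (h3 : g ^ 3 ≠ 1) (hc : ∀ x, x * g = g * x) (k : π.ker = zpowers g)
    (r : π.range = alternatingGroup (Fin n)) : ∃ (L : Type u) (_ : Group L) (f : K →* L) (ρ : L →* Perm (Fin n)) (t : L),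
      DC ρ t ∧ ρ.comp f = π ∧ ∀ x, f x = 1 → x ^ 3 = 1 := by
  have : (zpowers (g ^ 2)).Normal := ⟨fun x m y => by
    obtain ⟨j, rfl⟩ := m
    rw [((Commute.pow_right (hc y) 2).zpow_right j).eq, mul_inv_cancel_right]
    exact ⟨j, rfl⟩⟩
  let f := QuotientGroup.mk' (zpowers (g ^ 2))
  have s : Function.Surjective f := QuotientGroup.mk'_surjective _
  have f3 : ∀ x, f x = 1 → x ^ 3 = 1 := fun x m => by
    obtain ⟨j, rfl⟩ := (QuotientGroup.eq_one_iff x).1 m
    rw [← zpow_natCast, ← zpow_mul, mul_comm, zpow_mul, zpow_natCast, ← pow_mul, hg, one_zpow]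
  have l : zpowers (g ^ 2) ≤ π.ker := k ▸ zpowers_le.2 (pow_mem (mem_zpowers g) 2)
  let ρ := QuotientGroup.lift _ π l
  have f2 : f g * f g = 1 := by rw [← map_mul, ← pow_two]; exact (QuotientGroup.eq_one_iff _).2 (mem_zpowers _)
  have D : DC0 ρ (f g) := ⟨fun e => h3 (f3 g e), f2, fun x => by
      obtain ⟨x, rfl⟩ := s x
      rw [← map_mul, hc, map_mul], k.ge (mem_zpowers g), fun x m => by
      obtain ⟨x, rfl⟩ := s x
      obtain ⟨j, rfl⟩ := k.le m
      rcases Int.even_or_odd' j with ⟨i, rfl | rfl⟩ <;> simp [zpow_add, zpow_mul, pow_two, f2], fun x => by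
      obtain ⟨x, rfl⟩ := s x
      exact r.le ⟨x, rfl⟩, fun σ m => by
      obtain ⟨x, rfl⟩ := r.ge m
      exact ⟨f x, rfl⟩⟩
  refine ⟨_, inferInstance, f, ρ, f g, D.dc fun φ hφ => ?_, rfl, f3⟩
  have u : ∀ x, ∃ a, x = φ a ∨ x = φ a * f g := fun x => ⟨⟨ρ x, D.sgn x⟩, D.eq_or (hφ ⟨_, D.sgn x⟩).symm⟩
  obtain ⟨σ, e⟩ : g ∈ φ.range.comap f := (show commutator K ≤ _ from commutator_le.2 fun x _ y _ => by
    obtain ⟨a, p⟩ := u (f x)
    obtain ⟨b, q⟩ := u (f y)
    refine ⟨a * b * a⁻¹ * b⁻¹, ?_⟩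
    have c := fun x => D.cen x
    rcases p with p | p <;> rcases q with q | q <;>
      simp only [commutatorElement_def, map_mul, map_inv, p, q, mul_inv_rev, D.inv_t, mul_assoc, ← c, D.sq, mul_one]) (hK.ge (mem_top g))
  rw [show σ = 1 from Subtype.ext ((hφ σ).symm.trans (e ▸ D.πt)), map_one] at e
  exact D.ne e.symm

end S

open S in
theorem small {p : ℕ} {M : Ideal AlgInt} (hM : IsPModular p M) {K : Type*} [Group K] [Finite K] (hK : commutator K = ⊤)
    {n : ℕ} (hn : n = 6 ∨ n = 7) (e : K ⧸ Subgroup.center K ≃* alternatingGroup (Fin n)) : Rob p M K := fun B hB D hD χ hχ => by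
  have := Fact.mk hM.1
  let ξ := e.toMonoidHom.comp (QuotientGroup.mk' (center K))
  have xs : Function.Surjective ξ := e.surjective.comp (QuotientGroup.mk'_surjective _)
  have xk : ξ.ker = center K := by ext x; simp [ξ]
  obtain ⟨φ, hφ⟩ : ∃ φ : Multiplicative (ZMod 6) →* Schur.mul ξ, Function.Surjective φ := by
    rcases hn with rfl | rfl
    exacts [Schur.HasSchur.exists_surjective Schur.Alt.schur6 ⟨xs, xk.le⟩, Schur.HasSchur.exists_surjective Schur.Alt.schur7 ⟨xs, xk.le⟩]
  obtain ⟨g, g6, gz⟩ : ∃ g : K, g ^ 6 = 1 ∧ center K = zpowers g := by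
    refine ⟨φ (.ofAdd 1), by rw [← Subgroup.coe_pow, ← map_pow, show Multiplicative.ofAdd (1 : ZMod 6) ^ 6 = 1 by decide]; simp,
      le_antisymm (fun x m => ?_) (zpowers_le.2 (xk.le (φ _).2.1))⟩
    obtain ⟨a, q⟩ := hφ ⟨x, xk.ge m, hK.ge (mem_top x)⟩
    refine ⟨a.toAdd.val, ?_⟩
    rw [show x = φ a from congrArg Subtype.val q.symm]
    change _ ^ _ = _
    rw [← Subgroup.coe_zpow, ← map_zpow]
    exact congrArg (fun a => (φ a).1) ((by decide : ∀ a : Multiplicative (ZMod 6), .ofAdd 1 ^ (a.toAdd.val : ℤ) = a) a)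
  have gc : ∀ x, x * g = g * x := mem_center_iff.1 (gz.ge (mem_zpowers g))
  let π := (alternatingGroup (Fin n)).subtype.comp ξ
  have pk : π.ker = zpowers g := by rw [← gz, ← xk]; ext x; simp [π]
  have pr : π.range = alternatingGroup (Fin n) := by rw [MonoidHom.range_comp, MonoidHom.range_eq_top.2 xs, ← MonoidHom.range_eq_map, range_subtype]
  have cA : Nat.card (alternatingGroup (Fin n)) ∣ 2520 ∧ (Nat.card (alternatingGroup (Fin n))).factorization 2 = 3 := by
    rcases hn with rfl | rfl <;> rw [nat_card_alternatingGroup, Nat.card_fin]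
    exacts [⟨by decide, by rw [show Nat.factorial 6 / 2 = 2 ^ 3 * 45 by decide, Nat.factorization_mul (by simp) (by simp),
        Nat.prime_two.factorization_pow]; simp [Nat.factorization_eq_zero_of_not_dvd]⟩,
      ⟨by decide, by rw [show Nat.factorial 7 / 2 = 2 ^ 3 * 315 by decide, Nat.factorization_mul (by simp) (by simp),
        Nat.prime_two.factorization_pow]; simp [Nat.factorization_eq_zero_of_not_dvd]⟩]
  have cK : ∀ j, g ^ j = 1 → Nat.card K ∣ j * 2520 := fun j q => by
    rw [← (center K).card_mul_index, index_eq_card, Nat.card_congr e.toEquiv, gz, Nat.card_zpowers]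
    exact mul_dvd_mul (orderOf_dvd_of_pow_eq_one q) cA.1
  have hd := BlockB.card_defectGroup hM hB hD
  generalize blockDefect p B = d at hd
  have dK : p ^ d ∣ Nat.card K := hd ▸ card_subgroup_dvd_card D
  have pD : IsPGroup p D := .of_card hd
  rcases le_or_gt d 2 with d2 | d2
  · exact con_of_small hM hB hD hχ (hd ▸ Nat.pow_le_pow_right hM.1.pos d2)
  have nd : ∀ {a j k : ℕ}, g ^ j = 1 → ¬ a ^ k ∣ j * 2520 → a ^ d ∣ Nat.card K → d < k := fun q r s =>
    not_le.1 fun l => r (((pow_dvd_pow _ l).trans s).trans (cK _ q))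
  have p23 : p = 2 ∨ p = 3 := by
    have a := ((pow_dvd_pow p d2).trans dK).trans (cK 6 g6)
    have b : p < 25 := lt_of_pow_lt_pow_left₀ 3 (by simp) ((Nat.le_of_dvd (by simp) a).trans_lt (by simp))
    have := hM.1.two_le
    have := hM.1
    interval_cases p <;> simp_all (config := { decide := true })
  by_cases d3 : d = 3 ∧ ¬ IsMulCommutative D
  · exact con_of_center hM hB hD hχ (cube hM.1 (d3.1 ▸ hd) d3.2)
  rcases p23 with rfl | rfl
  swap
  · have := nd (k := 4) g6 (by decide) dK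
    have c : IsMulCommutative D := by_contra fun c => d3 ⟨by omega, c⟩
    let P : Sylow 3 K := Sylow.ofCard D (by
      rw [hd]; congr 1
      refine le_antisymm ((Nat.prime_three.pow_dvd_iff_le_factorization Nat.card_pos.ne').1 dK) (not_lt.1 fun q => ?_)
      exact absurd (((Nat.prime_three.pow_dvd_iff_le_factorization (k := 4) Nat.card_pos.ne').2 (by omega)).trans (cK 6 g6)) (by decide))
    have m : g ^ 2 ∈ center K := gz.ge (pow_mem (mem_zpowers g) 2)
    have : (zpowers (g ^ 2)).Normal := ⟨fun x r y => by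
      rwa [mem_center_iff.1 (zpowers_le.2 m r) y, mul_inv_cancel_right]⟩
    have q := Transfer.sylow_inf_center_inf_commutator_le P (x := g ^ 2) ⟨⟨IsPGroup.le_sylow_of_normal (N := zpowers (g ^ 2))
      (IsPGroup.of_card_dvd_pow (n := 1) (by
        rw [Nat.card_zpowers, pow_one]; exact orderOf_dvd_of_pow_eq_one (by rw [← pow_mul, g6]))) P (mem_zpowers _),
      hK.ge (mem_top _)⟩, m⟩
    rw [show ⁅(P : Subgroup K), (P : Subgroup K)⁆ = ⊥ from commutator_eq_bot_iff_le_centralizer.2 fun x a y b =>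
      congrArg Subtype.val (c.is_comm.comm (⟨y, b⟩ : D) ⟨x, a⟩)] at q
    have := nd (k := 3) (mem_bot.1 q) (by decide) dK
    omega
  have lA : D.map π ≤ alternatingGroup _ := pr ▸ map_le_range _ _
  obtain ⟨S, hS⟩ := exists_isSyl (p := 2) (alternatingGroup (Fin n))
  have cS := hS.card_eq
  rw [cA.2] at cS
  have sy : 8 ≤ Nat.card (D.map π) → IsSyl 2 (D.map π) (alternatingGroup _) := fun q => isSyl_of_card_ge hS (pD.map π) lA (cS ▸ q)
  have o3 : ∀ x : D, x.1 ^ 3 = 1 → x = 1 := fun x q => by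
    obtain ⟨i, r⟩ := pD x
    exact (pow_eq_one_iff_of_coprime (Nat.Coprime.pow_left i (by decide : Nat.Coprime 2 3))).1 ⟨r, Subtype.ext q⟩
  have cd := (π.comp D.subtype).ker.card_mul_index
  rw [index_ker, MonoidHom.range_comp, range_subtype, hd] at cd
  by_cases g3 : g ^ 3 = 1
  · have := nd (k := 4) g3 (by decide) dK
    obtain rfl : d = 3 := by omega
    have c : IsMulCommutative D := by_contra fun c => d3 ⟨rfl, c⟩
    rw [(eq_bot_iff_forall (π.comp D.subtype).ker).2 fun x m => o3 x (by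
      obtain ⟨j, q⟩ := pk.le m
      rw [show x.1 = g ^ j from q.symm, ← zpow_natCast, ← zpow_mul, mul_comm, zpow_mul, zpow_natCast, g3, one_zpow]),
      card_bot, one_mul] at cd
    obtain ⟨T, hT⟩ := isSyl_iff.1 (sy cd.ge)
    have := (CF.Perm.sylow_alt_comm_iff (.inr (by rw [Nat.card_fin]; omega)) T).1 ⟨⟨fun a b => by
      obtain ⟨x, m, q⟩ := hT.ge (mem_map_of_mem _ a.2)
      obtain ⟨y, m', r⟩ := hT.ge (mem_map_of_mem _ b.2)
      refine Subtype.ext (Subtype.ext ?_)
      change (alternatingGroup _).subtype a.1 * (alternatingGroup _).subtype b.1 =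
        (alternatingGroup _).subtype b.1 * (alternatingGroup _).subtype a.1
      rw [← q, ← r, ← map_mul, ← map_mul]
      exact congrArg (fun x : D => π x) (c.is_comm.comm ⟨x, m⟩ ⟨y, m'⟩)⟩⟩
    rw [Nat.card_fin] at this
    omega
  obtain ⟨L, _, f, ρ, t, h, fπ, f3⟩ := dc hK g6 g3 gc pk pr
  have fi : Function.Injective (f.comp D.subtype) := (injective_iff_map_eq_one _).2 fun x q => o3 x (f3 _ q)
  by_cases q : 8 ≤ Nat.card (D.map π)
  · refine con_of_center hM hB hD hχ (le_two fi fun x m => D2.cen h (P := D.map f) (by rw [map_map, fπ]; exact sy q) le_rfl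
      (fun _ _ _ r _ => r) (mem_map_of_mem f x.2) ?_)
    rintro _ ⟨y, r, rfl⟩
    exact (map_mul f _ _).symm.trans ((congrArg (fun x : D => f x) (mem_center_iff.1 m ⟨y, r⟩)).trans (map_mul f _ _))
  have := Nat.mul_le_mul_right (Nat.card (D.map π)) (le_two (H := (π.comp D.subtype).ker) fi fun x m => h.ker _ (fπ ▸ m :))
  obtain rfl : d = 3 := by
    by_contra r
    have := Nat.pow_le_pow_right two_pos (show 4 ≤ d by omega)
    omega
  refine con_of_cyclic hM hB hD hχ (cyc hd (by_contra fun c => d3 ⟨rfl, c⟩) fi fun x r => h.ker _ ?_)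
  have := h.card_support (z := f x) (by rw [← map_mul, ← Subgroup.coe_mul, r]; simp)
  have := (ρ (f x)).support.card_le_univ
  rw [Fintype.card_fin] at this
  exact support_eq_empty_iff.1 (Finset.card_eq_zero.1 (by change (ρ (f x)).support.card = 0; omega))

end CF.Nf
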